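import Cfsg.Agent.MQ.WT.Chk
import Cfsg.Agent.MQ.J.Pars
import Mathlib.Combinatorics.Colex
import Cfsg.Agent.MQ.D.G2a
import Cfsg.Agent.FastGrp
import Cfsg.Agent.Prune
set_option linter.all false
prune_inst 0x7fbdfff8bface7ffffff7fbffedffffc11c38fffe6dff943ffe1e9bfcb1f07a32bc5ff870de050fe9ed7e0b410b87813f97eaffce829dc7ffffdfff41ffbee4fe5ff3588519c98b40f380fff03f177aa6f3ffffffffffffffffffffffffffffffffffbfeffff
open scoped Cfsg.Agent.FastGrp

-- part: MO/UD/An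
section
/-!
# MO/UD: the antisymmetric functions (helper18)

`bAn : BAn`.  `dl_conj`, `dl_step`, `dl_pos` for the factor `dl`; `cas_conj`; the operators `Fo` on the very even types.
-/

set_option autoImplicit false
set_option linter.unusedSectionVars false

namespace Cfsg.Agent.MO.UD

open Equiv Finset Classical Cfsg.Agent.MO.J Cfsg.Agent.H614
open Cfsg.Agent.LV.Cl (SG On Stab cyc sw tt sgn mul_π mul_s inv_π inv_s)
open Cfsg.Agent.LV.Cl.Cj
open Cas (cy ad)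

namespace An

variable {n M : ℕ} {T : Finset (Fin n)} {g g' h : SG n} {x y : Fin n} {u v : Finset Pt}

/-! ### conjugation of the reflections -/

theorem sw_conj (h : SG n) (hxy : x ≠ y) (e : ℤˣ) : h * sw x y e * h⁻¹ = sw (h.π x) (h.π y) (e * (h.s x * h.s y)) := by
  refine LV.Cl.SG.ext (Equiv.swap_apply_apply h.π x y).symm (funext fun j => ?_)
  obtain ⟨j, rfl⟩ := h.π.surjective j
  rw [conj_s]
  simp only [sw, h.π.injective.eq_iff]
  by_cases h1 : j = x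
  · subst h1
    simp only [swap_apply_left, true_or, if_true]
    ac_rfl
  · by_cases h2 : j = y
    · subst h2
      simp only [swap_apply_right, or_true, if_true]
      ac_rfl
    · rw [swap_apply_of_ne_of_ne h1 h2, if_neg (by itauto), if_neg (by tauto), mul_one, Int.units_mul_self]

theorem tt_conj (h : SG n) (x : Fin n) : h * tt x * h⁻¹ = tt (h.π x) := by
  refine LV.Cl.SG.ext (by simp [tt]) (funext fun j => ?_)
  obtain ⟨j, rfl⟩ := h.π.surjective j
  rw [conj_s]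
  simp only [tt, h.π.injective.eq_iff, Perm.one_apply]
  rw [mul_right_comm, Int.units_mul_self, one_mul]

theorem sw_comm (x y : Fin n) (e : ℤˣ) : sw x y e = sw y x e :=
  LV.Cl.SG.ext (swap_comm _ _) (funext fun _ => if_congr or_comm rfl rfl)

theorem sum_lt_perm {V : Type} [AddCommMonoid V] {σ : Perm (Fin n)} (hσ : Stab T σ) (f : Fin n → Fin n → V)
    (hf : ∀ x y, f x y = f y x) : ∑ x ∈ T, ∑ y ∈ T with x < y, f (σ x) (σ y) = ∑ x ∈ T, ∑ y ∈ T with x < y, f x y := by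
  have h1 : ∀ f : Fin n → Fin n → V, ∑ x ∈ T, ∑ y ∈ T with x < y, f x y = ∑ z ∈ T ×ˢ T with z.1 < z.2, f z.1 z.2 := fun f => by
    simp only [sum_filter, sum_product]
  have h2 : ∀ σ : Perm (Fin n), Stab T σ → ∀ z ∈ (T ×ˢ T).filter fun z => z.1 < z.2,
      (min (σ z.1) (σ z.2), max (σ z.1) (σ z.2)) ∈ (T ×ˢ T).filter fun z => z.1 < z.2 := fun σ hσ z hz => by
    obtain ⟨h3, h4⟩ := mem_filter.1 hz
    have h5 := (hσ _).2 (mem_product.1 h3).1
    have h6 := (hσ _).2 (mem_product.1 h3).2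
    refine mem_filter.2 ⟨mem_product.2 ⟨?_, ?_⟩, min_lt_max.2 (σ.injective.ne h4.ne)⟩
    · rcases min_choice (σ z.1) (σ z.2) with e | e <;> rwa [e]
    · rcases max_choice (σ z.1) (σ z.2) with e | e <;> rwa [e]
  have h3 : ∀ σ τ : Perm (Fin n), (∀ x, τ (σ x) = x) → ∀ z ∈ (T ×ˢ T).filter fun z => z.1 < z.2,
      (min (τ (min (σ z.1) (σ z.2))) (τ (max (σ z.1) (σ z.2))), max (τ (min (σ z.1) (σ z.2))) (τ (max (σ z.1) (σ z.2)))) = z :=
    fun σ τ e z hz => by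
      have h4 := (mem_filter.1 hz).2.le
      rcases le_total (σ z.1) (σ z.2) with h5 | h5
      · rw [min_eq_left h5, max_eq_right h5, e, e, min_eq_left h4, max_eq_right h4]
      · rw [min_eq_right h5, max_eq_left h5, e, e, min_eq_right h4, max_eq_left h4]
  rw [h1, h1]
  refine sum_bij' (fun z _ => (min (σ z.1) (σ z.2), max (σ z.1) (σ z.2))) (fun z _ => (min (σ⁻¹ z.1) (σ⁻¹ z.2), max (σ⁻¹ z.1) (σ⁻¹ z.2)))
    (h2 σ hσ) (h2 _ (stab_inv hσ)) (h3 _ _ (inv_self σ)) (h3 _ _ (self_inv σ)) fun z _ => ?_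
  rcases le_total (σ z.1) (σ z.2) with h5 | h5
  · rw [min_eq_left h5, max_eq_right h5]
  · rw [min_eq_right h5, max_eq_left h5, hf]

/-- the sum of the reflections commutes with conjugation -/
theorem cas_conj {V : Type} [AddCommMonoid V] (κ : Kn) (hh : h ∈ Gp κ T) (f : SG n → V) (g : SG n) :
    cas κ T f (h * g * h⁻¹) = cas κ T (fun x => f (h * x * h⁻¹)) g := by
  have hs := stab_Gp hh
  have h0 : ∀ t : SG n, h * (t * g) * h⁻¹ = h * t * h⁻¹ * (h * g * h⁻¹) := fun t => by group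
  have h1 : ∑ x ∈ T, ∑ y ∈ T with x < y, (f (sw x y 1 * (h * g * h⁻¹)) + f (sw x y (-1) * (h * g * h⁻¹))) =
      ∑ x ∈ T, ∑ y ∈ T with x < y, (f (h * (sw x y 1 * g) * h⁻¹) + f (h * (sw x y (-1) * g) * h⁻¹)) := by
    rw [← sum_lt_perm hs _ fun x y => by rw [sw_comm x y, sw_comm x y]]
    refine sum_congr rfl fun x _ => sum_congr rfl fun y hy => ?_
    rw [h0, h0, sw_conj h (mem_filter.1 hy).2.ne, sw_conj h (mem_filter.1 hy).2.ne]
    rcases Int.units_eq_one_or (h.s x * h.s y) with e | e <;> rw [e]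
    · rfl
    · exact add_comm _ _
  have h2 : h.s = 1 → ∑ x ∈ T, ∑ y ∈ T with x < y, f (sw x y 1 * (h * g * h⁻¹)) =
      ∑ x ∈ T, ∑ y ∈ T with x < y, f (h * (sw x y 1 * g) * h⁻¹) := fun e => by
    rw [← sum_lt_perm hs _ fun x y => by rw [sw_comm x y]]
    refine sum_congr rfl fun x _ => sum_congr rfl fun y hy => ?_
    rw [h0, sw_conj h (mem_filter.1 hy).2.ne, e]
    rfl
  cases κ <;> simp only [cas]
  · exact h2 hh.2
  · exact h2 hh.2
  · rw [h1]
    congr 1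
    conv_lhs => rw [← map_stab hs, sum_map]
    exact sum_congr rfl fun x _ => by rw [h0, tt_conj]; rfl
  · exact h1

/-! ### the factor `dl` -/

theorem diag_s (e : h.π = 1) (g : SG n) (j : Fin n) : (h * g * h⁻¹).s j = h.s (g.π j) * g.s j * h.s j := by
  rw [← conj_s, e, Perm.one_apply]

theorem dl_conj (hh : h ∈ On T) (g : SG n) : dl T (h * g * h⁻¹) = sgn h * dl T g := by
  have key : ∀ h ∈ On T, ∀ g k : SG n, k ∈ On T ∧ k.π = 1 ∧ (∀ j ∈ T, (k * g * k⁻¹).s j = 1) →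
      (⟨h.π, 1⟩ : SG n) * k * h⁻¹ ∈ On T ∧ ((⟨h.π, 1⟩ : SG n) * k * h⁻¹).π = 1 ∧
        ∀ j ∈ T, ((⟨h.π, 1⟩ : SG n) * k * h⁻¹ * (h * g * h⁻¹) * ((⟨h.π, 1⟩ : SG n) * k * h⁻¹)⁻¹).s j = 1 := fun h hh g k hk => by
    refine ⟨mul_mem (mul_mem (fun j hj => ⟨(hh j hj).1, rfl⟩) hk.1) (inv_mem hh), by simp [hk.2.1], fun j hj => ?_⟩
    obtain ⟨j, rfl⟩ := h.π.surjective j
    rw [show ∀ p : SG n, p * k * h⁻¹ * (h * g * h⁻¹) * (p * k * h⁻¹)⁻¹ = p * (k * g * k⁻¹) * p⁻¹ from fun p => by group]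
    refine (conj_s ⟨h.π, 1⟩ _ j).trans ?_
    rw [hk.2.2 j ((stab_on hh j).1 hj)]
    rfl
  have h1 : (⟨h⁻¹.π, 1⟩ : SG n) = (⟨h.π, 1⟩ : SG n)⁻¹ := rfl
  rw [dl, dl, mul_sum]
  symm
  refine sum_bij' (fun k _ => (⟨h.π, 1⟩ : SG n) * k * h⁻¹) (fun k _ => (⟨h⁻¹.π, 1⟩ : SG n) * k * h⁻¹⁻¹)
    (fun k hk => mem_filter.2 ⟨mem_univ _, key h hh g k (mem_filter.1 hk).2⟩) (fun k hk => mem_filter.2 ⟨mem_univ _, ?_⟩)
    (fun k _ => by rw [h1]; group) (fun k _ => by rw [h1]; group) fun k _ => ?_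
  · have := key _ (inv_mem hh) _ k (mem_filter.1 hk).2
    rwa [show h⁻¹ * (h * g * h⁻¹) * h⁻¹⁻¹ = g by group] at this
  · rw [map_mul, map_mul, map_inv, show sgn (⟨h.π, 1⟩ : SG n) = 1 from prod_eq_one (s := univ) (f := fun _ : Fin n => (1 : ℤˣ)) fun _ _ => rfl, one_mul, Int.units_inv_eq_self, mul_comm (sgn k),
      Units.val_mul]

theorem dl_congr (e : ∀ j ∈ T, g'.π j = g.π j ∧ g'.s j = g.s j) : dl T g' = dl T g :=
  sum_congr (filter_congr fun h _ => and_congr_right fun _ => and_congr_right fun h1 => forall₂_congr fun j hj => by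
    rw [diag_s h1, diag_s h1, (e j hj).1, (e j hj).2]) fun _ _ => rfl

/-- the sign change on a set -/
def mi (C : Finset (Fin n)) : SG n := ⟨1, fun j => if j ∈ C then -1 else 1⟩

theorem mi_on {C : Finset (Fin n)} (h : C ⊆ T) : mi C ∈ On T := fun _ hj => ⟨rfl, if_neg fun e => hj (h e)⟩

theorem sgn_mi (C : Finset (Fin n)) : sgn (mi C) = (-1) ^ #C := by
  show ∏ j, (if j ∈ C then -1 else 1) = _
  rw [prod_ite_mem, univ_inter, prod_const]

theorem mi_conj {C : Finset (Fin n)} (h : Stab C g.π) : mi C * g * (mi C)⁻¹ = g :=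
  LV.Cl.SG.ext (by simp [mi]) (funext fun j => by
    rw [diag_s rfl]
    simp only [mi, h j]
    rw [mul_right_comm, Int.units_mul_self, one_mul])

theorem dl_step (hT : Stab T g.π) (hx : x ∈ T) (h1 : ∀ j ∈ cyc g.π x, g.s j = 1) (h2 : Even #(cyc g.π x)) :
    dl T g = 2 * dl (T \ cyc g.π x) g := by
  have hC := cyc_subset hT hx
  have h3 : ∀ h : SG n, (mi (cyc g.π x) * h).s x = -h.s x ∨ h.π ≠ 1 := fun h => or_iff_not_imp_right.2 fun e => by
    rw [mul_s, not_not.1 e]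
    simp [mi, self_mem]
  have h4 : ∀ h : SG n, h ∈ On T ∧ h.π = 1 ∧ (∀ j ∈ T, (h * g * h⁻¹).s j = 1) → mi (cyc g.π x) * h ∈ On T ∧ (mi (cyc g.π x) * h).π = 1 ∧
      ∀ j ∈ T, (mi (cyc g.π x) * h * g * (mi (cyc g.π x) * h)⁻¹).s j = 1 := fun h hh => by
    refine ⟨mul_mem (mi_on hC) hh.1, (one_mul _).trans hh.2.1, fun j hj => ?_⟩
    rw [mul_inv_rev, mul_assoc _ h, mul_assoc _ (h * g), ← mul_assoc (h * g), ← mul_assoc, ← mul_assoc, mul_assoc (mi _) (h * g),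
      mi_conj (by simpa [hh.2.1] using stab_cyc g.π x), hh.2.2 j hj]
  have h5 : ∀ h : SG n, mi (cyc g.π x) * (mi (cyc g.π x) * h) = h := fun h => by
    rw [← mul_assoc, show mi (cyc g.π x) * mi (cyc g.π x) = 1 from LV.Cl.SG.ext (mul_one _) (funext fun _ => Int.units_mul_self _),
      one_mul]
  have h6 : ∑ h ∈ ({h : SG n | h ∈ On T ∧ h.π = 1 ∧ ∀ j ∈ T, (h * g * h⁻¹).s j = 1} : Finset (SG n)) with h.s x = 1, (sgn h : ℤ) =
      dl (T \ cyc g.π x) g := by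
    refine sum_congr (Finset.ext fun h => ?_) fun _ _ => rfl
    simp only [mem_filter, mem_univ, true_and]
    refine ⟨fun ⟨⟨a, b, c⟩, d⟩ => ⟨fun j hj => ⟨by rw [b]; rfl, ?_⟩, b, fun j hj => c j (mem_sdiff.1 hj).1⟩, fun ⟨a, b, c⟩ => ?_⟩
    · by_cases e : j ∈ T
      · obtain ⟨i, rfl⟩ := mem_cyc'.1 (by_contra fun e' => hj (mem_sdiff.2 ⟨e, e'⟩) : j ∈ cyc g.π x)
        clear hj e
        induction i with
        | zero => exact d
        | succ i ih =>
          have := c _ (hC (pow_mem_cyc _ _ i))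
          rwa [diag_s b, ih, h1 _ (pow_mem_cyc _ _ i), mul_one, mul_one, ← Perm.mul_apply, ← pow_succ'] at this
      · exact (a j e).2
    · have h7 : ∀ j ∈ cyc g.π x, h.s j = 1 := fun j hj => (a j fun e => (mem_sdiff.1 e).2 hj).2
      refine ⟨⟨fun j hj => a j fun e => hj (mem_sdiff.1 e).1, b, fun j hj => ?_⟩, h7 x (self_mem _ _)⟩
      by_cases e : j ∈ cyc g.π x
      · rw [diag_s b, h7 j e, h1 j e, h7 _ ((stab_cyc _ _ j).2 e)]
        rfl
      · exact c j (mem_sdiff.2 ⟨hj, e⟩)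
  rw [two_mul, ← h6, dl, ← sum_filter_add_sum_filter_not _ fun h : SG n => h.s x = 1]
  congr 1
  refine sum_bij' (fun h _ => mi (cyc g.π x) * h) (fun h _ => mi (cyc g.π x) * h) (fun h hh => ?_) (fun h hh => ?_)
    (fun h _ => h5 h) (fun h _ => h5 h) fun h _ => by rw [map_mul, sgn_mi, h2.neg_one_pow, one_mul]
  all_goals
    obtain ⟨a, b⟩ := mem_filter.1 hh
    have c := (mem_filter.1 a).2
    refine mem_filter.2 ⟨mem_filter.2 ⟨mem_univ _, h4 h c⟩, ?_⟩
    rw [(h3 h).resolve_right (not_not.2 c.2.1)]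
    revert b
    generalize h.s x = z
    revert z
    decide

/-- positive cycles of even length -/
def Ve (s : Multiset Cy) : Prop := ∀ c ∈ s, Even c.1 ∧ c.2 = 1

theorem cy_mem (hx : x ∈ T) : cy g x ∈ sty T g := by rw [Cas.step hx]; exact Multiset.mem_cons_self _ _

theorem exists_cy {c : Cy} (hc : c ∈ sty T g) : ∃ x ∈ T, cy g x = c := by
  obtain ⟨C, hC, rfl⟩ := Multiset.mem_map.1 hc
  obtain ⟨x, hx, rfl⟩ := mem_image.1 hC
  exact ⟨x, hx, rfl⟩

theorem dl_pos (hT : Stab T g.π) (h1 : ∀ j ∈ T, g.s j = 1) (h2 : Ve (sty T g)) : dl T g = 2 ^ (sty T g).card := by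
  induction T using Finset.strongInduction with
  | H T ih =>
    rcases T.eq_empty_or_nonempty with rfl | ⟨x, hx⟩
    · rw [sty_empty, dl, sum_eq_single 1]
      · simp
      · intro h hh e
        exact absurd (LV.Cl.SG.ext (mem_filter.1 hh).2.2.1 (funext fun j => ((mem_filter.1 hh).2.1 j (notMem_empty j)).2)) e
      · exact fun e => absurd (mem_filter.2 ⟨mem_univ _, one_mem _, rfl, fun j hj => absurd hj (notMem_empty j)⟩) e
    · have hC := cyc_subset hT hx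
      rw [dl_step hT hx (fun j hj => h1 j (hC hj)) (h2 _ (cy_mem hx)).1, ih _ (sdiff_ssubset hC ⟨x, self_mem _ _⟩)
        (stab_sdiff hT (stab_cyc _ _)) (fun j hj => h1 j (mem_sdiff.1 hj).1) fun c hc => h2 c (by
          rw [Cas.step hx]; exact Multiset.mem_cons_of_mem hc), Cas.step hx, Multiset.card_cons, pow_succ']

/-- an odd or negative cycle gives an odd element in the centraliser -/
theorem exists_odd (hT : Stab T g.π) (h : ¬ Ve (sty T g)) : ∃ o ∈ On T, sgn o = -1 ∧ o * g * o⁻¹ = g := by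
  simp only [Ve, not_forall] at h
  obtain ⟨c, hc, h⟩ := h
  obtain ⟨x, hx, rfl⟩ := exists_cy hc
  have hC := cyc_subset hT hx
  by_cases h' : Even (cy g x).1
  · have h1 : ∀ j, g.π.cycleOf x j = if j ∈ cyc g.π x then g.π j else j := fun j => by
      simp only [Equiv.Perm.cycleOf_apply, LV.Cl.Cj.mem_cyc]
    refine ⟨⟨g.π.cycleOf x, fun j => if j ∈ cyc g.π x then g.s j else 1⟩, fun j hj => ⟨(h1 j).trans (if_neg fun e => hj (hC e)),
      if_neg fun e => hj (hC e)⟩, ?_, mul_inv_eq_of_eq_mul (LV.Cl.SG.ext ?_ ?_)⟩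
    · show ∏ j, (if j ∈ cyc g.π x then g.s j else 1) = -1
      rw [prod_ite_mem, univ_inter]
      exact (Int.units_eq_one_or _).resolve_left fun e => h ⟨h', e⟩
    · ext j
      simp only [mul_π, Equiv.Perm.mul_apply, h1, stab_cyc g.π x j]
      split_ifs <;> rfl
    · funext j
      simp only [mul_s, h1, stab_cyc g.π x j]
      split_ifs <;> simp
  · exact ⟨mi (cyc g.π x), mi_on hC, (sgn_mi _).trans (Nat.not_even_iff_odd.1 h').neg_one_pow, mi_conj (stab_cyc _ _)⟩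

theorem exists_cj (hT : Stab T g.π) (hT' : Stab T g'.π) (e : sty T g = sty T g') :
    ∃ h ∈ On T, ∀ j ∈ T, (h * g * h⁻¹).π j = g'.π j ∧ (h * g * h⁻¹).s j = g'.s j := by
  obtain ⟨L, hL⟩ := exists_hasTy hT
  obtain ⟨L', hL'⟩ := exists_hasTy hT'
  rw [sty_of_hasTy hL, sty_of_hasTy hL', Multiset.coe_eq_coe] at e
  exact exists_conj hT hT' (by rw [(of_hasTy hL).1, (of_hasTy hL').1, (e.map _).sum_eq])

theorem exists_pos (hT : Stab T g.π) (h : Ve (sty T g)) : ∃ h ∈ On T, ∀ j ∈ T, (h * g * h⁻¹).s j = 1 := by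
  refine (exists_cj (g' := ⟨g.π, 1⟩) hT hT ?_).imp fun h hh => ⟨hh.1, fun j hj => (hh.2 j hj).2⟩
  refine Multiset.map_congr rfl fun C hC => Prod.ext rfl ?_
  exact (h _ (Multiset.mem_map_of_mem _ hC)).2.trans prod_const_one.symm

theorem stab_cj (hh : h ∈ On T) (hT : Stab T g.π) : Stab T (h * g * h⁻¹).π :=
  Cas.stab_mul (Cas.stab_mul (stab_on hh) hT) (stab_inv (stab_on hh))

/-- reduction to elements without signs -/
theorem anti_ind {f f' : SG n → ℤ} (hf : ∀ g, Stab T g.π → ∀ h ∈ On T, f (h * g * h⁻¹) = sgn h * f g)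
    (hf' : ∀ g, Stab T g.π → ∀ h ∈ On T, f' (h * g * h⁻¹) = sgn h * f' g)
    (H : ∀ g, Stab T g.π → (∀ j ∈ T, g.s j = 1) → Ve (sty T g) → f g = f' g) (hT : Stab T g.π) : f g = f' g := by
  by_cases h : Ve (sty T g)
  · obtain ⟨o, h1, h2⟩ := exists_pos hT h
    have h3 := H _ (stab_cj h1 hT) h2 (by rwa [sty_conj' (stab_on h1)])
    rw [hf g hT o h1, hf' g hT o h1] at h3
    exact mul_left_cancel₀ (Units.ne_zero _) h3
  · obtain ⟨o, h1, h2, h3⟩ := exists_odd hT h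
    have h4 := hf g hT o h1
    have h5 := hf' g hT o h1
    rw [h3, h2, Units.val_neg, Units.val_one] at h4 h5
    omega

theorem dl_zero (hT : Stab T g.π) (h : ¬ Ve (sty T g)) : dl T g = 0 := by
  obtain ⟨o, h1, h2, h3⟩ := exists_odd hT h
  have h4 := dl_conj h1 g
  rw [h3, h2, Units.val_neg, Units.val_one] at h4
  omega

theorem anti (hh : h ∈ On T) (g : SG n) : De M T u (h * g * h⁻¹) = sgn h * De M T u g := by
  rw [De, De, dl_conj hh, sty_conj' (stab_on hh), mul_assoc]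

/-! ### the very even types -/

/-- the half of a type -/
def hf (s : Multiset Cy) : Multiset Cy := s.map fun c => (c.1 / 2, 1)

theorem ve_cons {c : Cy} {s : Multiset Cy} : Ve (c ::ₘ s) ↔ (Even c.1 ∧ c.2 = 1) ∧ Ve s := Multiset.forall_mem_cons

theorem ve_zero : Ve 0 := fun _ h => absurd h (Multiset.notMem_zero _)

theorem half (a : ℕ) : (a + a) / 2 = a := by omega

section Fo

variable {V : Type} [AddCommGroup V] (K : Cas.Fk V 0)

/-- the function on the very even types -/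
noncomputable def F (s : Multiset Cy) : V := if Ve s then (2 ^ s.card : ℤ) • K.F (hf s) else 0

/-- the move -/
noncomputable def P (c : Cy) : V →ₗ[ℤ] V := if Even c.1 ∧ c.2 = 1 then (2 : ℤ) • K.P (c.1 / 2, 1) else 0

theorem F_cons (c : Cy) (s : Multiset Cy) : F K (c ::ₘ s) = P K c (F K s) := by
  rw [F, F, P]
  by_cases h : Even c.1 ∧ c.2 = 1
  · rw [if_pos h]
    by_cases h' : Ve s
    · rw [if_pos h', if_pos (ve_cons.2 ⟨h, h'⟩), hf, Multiset.map_cons, K.cons, Multiset.card_cons, pow_succ', mul_smul,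
        LinearMap.smul_apply, map_smul]
      rfl
    · rw [if_neg h', if_neg fun e => h' (ve_cons.1 e).2, map_zero]
  · rw [if_neg h, if_neg fun e => h (ve_cons.1 e).1, LinearMap.zero_apply]

theorem F_zero : F K 0 = K.F 0 := by rw [F, if_pos ve_zero]; simp [hf]

theorem W_eq (hK : ∀ a b e e' s, K.F ((a, e) ::ₘ (b, e') ::ₘ s) = K.F ((a, 1) ::ₘ (b, 1) ::ₘ s)) {c : Cy} (hc : 0 < c.1)
    (ho : Even c.1 ∧ c.2 = 1) (g : SG n) : ∀ T : Finset (Fin n), Stab T g.π → Ve (sty T g) → (8 : ℤ) • K.W (c.1 / 2, 1) (F K (sty T g)) =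
    (c.1 : ℤ) • (∑ a ∈ Ioo 0 c.1, ∑ e : ℤˣ, F K ((a, e) ::ₘ (c.1 - a, e * c.2) ::ₘ sty T g) +
      (4 : ℤ) • ∑ y ∈ T, F K (ad c (cy g y) ::ₘ sty (T \ cyc g.π y) g)) := by
  intro T
  obtain ⟨c, s⟩ := c
  obtain ⟨⟨r, rfl⟩, rfl⟩ : Even c ∧ s = 1 := ho
  simp only [half] at hc ⊢
  induction T using Finset.strongInduction with
  | H T ih =>
  intro hT hv
  rcases T.eq_empty_or_nonempty with rfl | ⟨x, hx⟩
  · have h1 := K.vac (r, 1) (by omega)
    have h2 : ∑ a ∈ Ioo 0 (r + r), ∑ e : ℤˣ, F K ((a, e) ::ₘ (r + r - a, e * 1) ::ₘ 0) =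
        ∑ a ∈ Ioo 0 r, (4 : ℤ) • K.F ((a, 1) ::ₘ (r - a, 1) ::ₘ 0) := by
      symm
      refine sum_of_injOn (fun a => a + a) (fun a _ b _ e => by beta_reduce at e; omega)
        (fun a ha => mem_Ioo.2 (by have := mem_Ioo.1 ha; beta_reduce; omega)) (fun a ha h => sum_eq_zero fun e _ => if_neg fun hv => h ?_) fun a ha => ?_
      · obtain ⟨b, rfl⟩ := (ve_cons.1 hv).1.1
        exact ⟨b, mem_coe.2 (mem_Ioo.2 (by have := mem_Ioo.1 ha; omega)), rfl⟩
      · have h3 : r + r - (a + a) = (r - a) + (r - a) := by omega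
        rw [UnitsInt.univ, sum_pair (by decide), F, F, h3,
          if_pos (ve_cons.2 ⟨⟨⟨a, rfl⟩, rfl⟩, ve_cons.2 ⟨⟨⟨_, rfl⟩, rfl⟩, ve_zero⟩⟩),
          if_neg fun e => absurd (ve_cons.1 e).1.2 (by decide : (-1 : ℤˣ) ≠ 1), add_zero]
        simp only [hf, Multiset.map_cons, Multiset.map_zero, half]
        rfl
    simp only [hK, sum_const, card_univ, Fintype.card_units_int, mul_zero, zero_smul, add_zero, ← smul_sum] at h1 h2
    rw [sum_empty, smul_zero, add_zero, sty_empty, h2, F_zero, show (8 : ℤ) = 4 * 2 from rfl, mul_smul, h1]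
    push_cast
    module
  have hC := cyc_subset hT hx
  rw [Cas.step hx] at hv
  obtain ⟨⟨⟨q, hq⟩, h4⟩, hv'⟩ := ve_cons.1 hv
  have h1 := congrArg (P K (cy g x)) (ih (T \ cyc g.π x) (sdiff_ssubset hC ⟨x, self_mem _ _⟩) (stab_sdiff hT (stab_cyc _ _)) hv')
  have h2 : ∑ y ∈ cyc g.π x, F K (ad (r + r, 1) (cy g y) ::ₘ sty (T \ cyc g.π y) g) =
      ((cy g x).1 : ℤ) • P K (ad (r + r, 1) (cy g x)) (F K (sty (T \ cyc g.π x) g)) := by
    rw [sum_congr rfl fun y hy => by rw [Cas.cy_eq hy, cyc_eq hy, F_cons], sum_const, natCast_zsmul]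
    rfl
  have h3 : ∑ y ∈ T \ cyc g.π x, F K (ad (r + r, 1) (cy g y) ::ₘ sty (T \ cyc g.π y) g) =
      ∑ y ∈ T \ cyc g.π x, F K (cy g x ::ₘ ad (r + r, 1) (cy g y) ::ₘ sty ((T \ cyc g.π x) \ cyc g.π y) g) := sum_congr rfl fun y hy => by
    rw [Cas.step (T := T \ cyc g.π y) (x := x) (mem_sdiff.2 ⟨hx, fun e => (mem_sdiff.1 hy).2 (by rw [cyc_eq e]; exact self_mem _ _)⟩),
      Multiset.cons_swap, sdiff_right_comm]
  have h5 : P K (cy g x) = (2 : ℤ) • K.P (q, 1) := by rw [P, if_pos ⟨⟨q, hq⟩, h4⟩, hq, half]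
  have h6 : P K (ad (r + r, 1) (cy g x)) = (2 : ℤ) • K.P (ad (r, 1) (q, 1)) := by
    rw [P, if_pos ⟨⟨r + q, by simp only [ad]; omega⟩, by simp only [ad, h4, mul_one]⟩]
    congr 3
    simp only [ad]
    omega
  simp only [map_smul, map_add, map_sum, ← F_cons] at h1
  rw [← sum_sdiff hC, h2, h3, Cas.step hx, F_cons, h5, LinearMap.smul_apply, map_smul, K.WP, smul_add, smul_add, ← LinearMap.smul_apply (2 : ℤ),
    ← h5, h1, h6, hq, LinearMap.smul_apply]
  simp only [Multiset.cons_swap (cy g x)]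
  push_cast
  module

theorem main (hK : ∀ a b e e' s, K.F ((a, e) ::ₘ (b, e') ::ₘ s) = K.F ((a, 1) ::ₘ (b, 1) ::ₘ s)) (g : SG n) (T : Finset (Fin n))
    (hT : Stab T g.π) (hv : Ve (sty T g)) :
    ∑ x ∈ T, ∑ y ∈ T with x ≠ y, ∑ e : ℤˣ, F K (sty T (sw x y e * g)) = (4 : ℤ) • K.E (F K (sty T g)) := by
  induction T using Finset.strongInduction with
  | H T ih =>
  rcases T.eq_empty_or_nonempty with rfl | ⟨x0, hx⟩
  · rw [sum_empty, sty_empty, F_zero, K.zero, smul_zero]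
  have hC := cyc_subset hT hx
  have hT' := stab_sdiff hT (stab_cyc g.π x0)
  rw [Cas.step hx] at hv
  obtain ⟨ho, hv'⟩ := ve_cons.1 hv
  have h1 := congrArg (P K (cy g x0)) (ih _ (sdiff_ssubset hC ⟨x0, self_mem _ _⟩) hT' hv')
  have h2 := W_eq K hK (c := cy g x0) (card_pos.2 ⟨x0, self_mem _ _⟩) ho g _ hT' hv'
  set C := cyc g.π x0 with hCd
  set c := cy g x0 with hc
  set! f : Fin n → Fin n → V := fun x y => ∑ e : ℤˣ, F K (sty T (sw x y e * g)) with hf
  have hs : ∀ x y, f x y = f y x := fun x y => sum_congr rfl fun e _ => by rw [sw_comm]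
  set J := ∑ y ∈ T \ C, F K (ad c (cy g y) ::ₘ sty ((T \ C) \ cyc g.π y) g) with hJ
  set Q := ∑ a ∈ Ioo 0 c.1, ∑ e : ℤˣ, F K ((a, e) ::ₘ (c.1 - a, e * c.2) ::ₘ sty (T \ C) g) with hQ
  have h3 : ∀ x ∈ C, ∑ y ∈ T \ C, f x y = (2 : ℤ) • J := fun x hx' => by
    rw [hJ, smul_sum]
    refine sum_congr rfl fun y hy => ?_
    simp only [hf]
    rw [sum_congr rfl fun e _ => by
      rw [Cas.sty_join hT (hC hx') (by rw [cyc_eq hx']; exact (mem_sdiff.1 hy).2), Cas.cy_eq hx', cyc_eq hx'], sum_const, card_univ,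
      Fintype.card_units_int, two_zsmul, two_nsmul]
  have h4 : ∀ x ∈ C, ∑ y ∈ C with x ≠ y, f x y = Q := fun x hx' => by
    have h5 : #(cyc g.π x) = c.1 := congrArg Prod.fst (Cas.cy_eq hx')
    have h6 : ∀ a < c.1, ∀ a' < c.1, (g.π ^ a) x = (g.π ^ a') x → a = a' := fun a ha a' ha' e =>
      Nat.ModEq.eq_of_lt_of_lt (h5 ▸ pow_eq_iff.1 e) ha ha'
    refine (sum_nbij (fun a => (g.π ^ a) x) (fun a ha => ?_) (fun a ha a' ha' => ?_) (fun y hy => ?_) fun a ha => ?_).symm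
    · rw [mem_Ioo] at ha
      exact mem_filter.2 ⟨hCd ▸ cyc_eq hx' ▸ pow_mem_cyc _ _ _, fun e => ha.1.ne (h6 0 (ha.1.trans ha.2) a ha.2 e)⟩
    · exact h6 a (mem_Ioo.1 ha).2 a' (mem_Ioo.1 ha').2
    · obtain ⟨h7, h8⟩ := mem_filter.1 (mem_coe.1 hy)
      rw [hCd, ← cyc_eq hx', cyc_image, ← card_cyc, h5] at h7
      obtain ⟨a, ha, rfl⟩ := mem_image.1 h7
      exact ⟨a, mem_coe.2 (mem_Ioo.2 ⟨Nat.pos_of_ne_zero fun e => h8 (by rw [e]; rfl), mem_range.1 ha⟩), rfl⟩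
    · obtain ⟨σ, hσ⟩ := Cas.sty_cut (hC hx') hT (mem_Ioo.1 ha).1 (h5 ▸ (mem_Ioo.1 ha).2 : a < #(cyc g.π x))
      simp only [hf, hσ, Cas.cy_eq hx', cyc_eq hx']
      exact (Equiv.sum_comp (Equiv.mulRight σ) fun e => F K ((a, e) ::ₘ (c.1 - a, e * c.2) ::ₘ sty (T \ C) g)).symm
  have h5 : ∀ x ∈ T, ∑ y ∈ T with x ≠ y, f x y = ∑ y ∈ T \ C with x ≠ y, f x y + ∑ y ∈ C with x ≠ y, f x y := fun x _ => by
    rw [sum_filter, sum_filter, sum_filter, sum_sdiff hC]
  have h6 : ∑ x ∈ T \ C, ∑ y ∈ C with x ≠ y, f x y = (c.1 : ℤ) • (2 : ℤ) • J := by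
    rw [sum_congr rfl fun x hx' => by rw [filter_true_of_mem (p := (x ≠ ·)) fun y hy e => (mem_sdiff.1 hx').2 (e ▸ hy)], sum_comm,
      sum_congr rfl fun y hy => by rw [sum_congr rfl fun x _ => hs x y, h3 y hy], sum_const, natCast_zsmul]
    rfl
  have h7 : ∑ x ∈ C, ∑ y ∈ T \ C with x ≠ y, f x y = (c.1 : ℤ) • (2 : ℤ) • J := by
    rw [sum_congr rfl fun x hx' => by rw [filter_true_of_mem (p := (x ≠ ·)) fun y hy e => (mem_sdiff.1 hy).2 (e ▸ hx'), h3 x hx'], sum_const,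
      natCast_zsmul]
    rfl
  have h8 : ∑ x ∈ C, ∑ y ∈ C with x ≠ y, f x y = (c.1 : ℤ) • Q := by
    rw [sum_congr rfl h4, sum_const, natCast_zsmul]
    rfl
  have h9 : ∑ x ∈ T \ C, ∑ y ∈ T \ C with x ≠ y, f x y =
      ∑ x ∈ T \ C, ∑ y ∈ T \ C with x ≠ y, ∑ e : ℤˣ, F K (c ::ₘ sty (T \ C) (sw x y e * g)) :=
    sum_congr rfl fun x hx' => sum_congr rfl fun y hy => sum_congr rfl fun e _ => by
      rw [Cas.sty_out hx (Cas.sw_on hx' (mem_filter.1 hy).1 e)]
  simp only [map_smul, map_sum, ← F_cons] at h1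
  change ∑ x ∈ T, ∑ y ∈ T with x ≠ y, f x y = _
  rw [sum_congr rfl h5, ← sum_sdiff hC, sum_add_distrib, sum_add_distrib, h6, h7, h8, h9, Cas.step hx, F_cons, h1, P, if_pos ho,
    LinearMap.smul_apply, LinearMap.smul_apply, map_smul, K.EP, smul_add, smul_add, smul_smul 4 2 (K.W _ _), show (4 * 2 : ℤ) = 8 from rfl, h2]
  module

end Fo

/-! ### degenerate labels -/

/-- the first row -/
def r0 (u : Finset Pt) : Finset Pt := {a ∈ u | a.2 = false}

theorem mem_sw {a : Pt} : a ∈ sw' u ↔ (a.1, !a.2) ∈ u := by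
  rw [sw', mem_image]
  exact ⟨fun ⟨b, hb, e⟩ => by rw [← e, Bool.not_not]; exact hb, fun h => ⟨_, h, by rw [Bool.not_not]⟩⟩

theorem row_eq (h : sw' u = u) : row u true = row u false := Finset.ext fun x => by
  rw [mem_row, mem_row]
  conv_lhs => rw [← h, mem_sw]
  rfl

theorem sum_r0 {A : Type} [AddCommMonoid A] (h : sw' u = u) (f : ℕ → A) : ∑ a ∈ u, f a.1 = 2 • ∑ a ∈ r0 u, f a.1 := by
  have h1 : row (r0 u) false = row u false := Finset.ext fun x => by simp only [mem_row, r0, mem_filter, and_true]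
  have h2 : row (r0 u) true = ∅ := Finset.ext fun x => by simp [mem_row, r0]
  rw [sum_row, sum_row (r0 u), h1, h2, row_eq h, sum_empty, add_zero, two_nsmul]

theorem card_r0 (h : sw' u = u) (h' : #u = M) : #(r0 u) = M / 2 := by
  have := sum_r0 h fun _ => (1 : ℕ)
  simp only [sum_const, smul_eq_mul, mul_one] at this
  omega

theorem bs_D (h : M % 2 = 0) : bs .D M = 2 * bs .A (M / 2) := by
  obtain ⟨m, rfl⟩ : ∃ m, M = 2 * m := ⟨M / 2, by omega⟩
  simp only [bs, Nat.mul_div_cancel_left _ two_pos]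
  rw [Nat.mul_div_cancel' (even_iff_two_dvd.1 (Nat.even_mul_pred_self m)), show (2 * m - 1) / 2 = m - 1 by (clear * -; omega)]

theorem r0_mem {k : ℕ} (hM : M % 2 = 0) (hu : u ∈ Lab .D M k) (h : sw' u = u) : Even k ∧ r0 u ∈ Lab .A (M / 2) (k / 2) := by
  obtain ⟨h1, h2, -⟩ := mem_Lab.1 hu
  have h3 : 2 * ∑ a ∈ r0 u, ps .A a = k + 2 * bs .A (M / 2) := by rw [← bs_D hM, ← h2]; exact (sum_r0 h id).symm
  exact ⟨⟨k / 2, by omega⟩, mem_Lab.2 ⟨card_r0 h h1, by omega, fun _ a ha => (mem_filter.1 ha).2⟩⟩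

theorem r0_inj (h : sw' u = u) (h' : sw' v = v) (e : r0 u = r0 v) : u = v := ext_row fun x => by
  have h1 := Finset.ext_iff.1 e (x, false)
  simp only [r0, mem_filter, and_true] at h1
  rw [← mem_row (b := true), ← mem_row (b := true), row_eq h, row_eq h', mem_row, mem_row]
  exact ⟨h1, h1⟩

theorem sum_dg {A : Type} [AddCommMonoid A] {k : ℕ} (hM : M % 2 = 0) (hk : Even k) (f : Finset Pt → A) :
    ∑ u ∈ Lab .D M k with sw' u = u, f (r0 u) = ∑ v ∈ Lab .A (M / 2) (k / 2), f v := by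
  refine sum_bij (fun u _ => r0 u) (fun u hu => (r0_mem hM (mem_filter.1 hu).1 (mem_filter.1 hu).2).2)
    (fun u hu v hv => r0_inj (mem_filter.1 hu).2 (mem_filter.1 hv).2) (fun v hv => ?_) fun _ _ => rfl
  obtain ⟨h1, h2, h3⟩ := mem_Lab.1 hv
  have h4 : ∀ x, (x, true) ∉ v := fun x hx => by simpa using h3 rfl _ hx
  have h5 : sw' (v ∪ sw' v) = v ∪ sw' v := ext_row fun x => by simp [mem_sw, or_comm]
  have h6 : r0 (v ∪ sw' v) = v := ext_row fun x => by simp [r0, mem_sw, h4]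
  have h7 := sum_r0 h5 fun _ => (1 : ℕ)
  have h8 := sum_r0 h5 id
  obtain ⟨r, rfl⟩ := hk
  rw [h6] at h7 h8
  simp only [sum_const, smul_eq_mul, mul_one] at h7
  refine ⟨_, mem_filter.2 ⟨mem_Lab.2 ⟨by omega, h8.trans ?_, nofun⟩, h5⟩, h6⟩
  rw [bs_D hM, show ∑ a ∈ v, id a.1 = _ from h2, half, smul_eq_mul]
  ring

theorem De_zero (hT : Stab T g.π) (h : ¬ Ve (sty T g)) : De M T u g = 0 := by rw [De, dl_zero hT h, zero_mul]

theorem De_pos (hT : Stab T g.π) (h1 : ∀ j ∈ T, g.s j = 1) (h2 : Ve (sty T g)) :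
    De M T u g = 2 ^ (sty T g).card * YK .A (M / 2) (hf (sty T g)) (r0 u) := by
  rw [De, dl_pos hT h1 h2]
  rfl

theorem F_eq (s : Multiset Cy) : F (Cas.fkA M) s (fun i => ps .A (tup M u i)) = if Ve s then 2 ^ s.card * YK .A M (hf s) u else 0 := by
  rw [F]
  split_ifs <;> rfl

theorem De_F (hT : Stab T g.π) (h1 : ∀ j ∈ T, g.s j = 1) :
    De M T u g = F (Cas.fkA (M / 2)) (sty T g) fun i => ps .A (tup (M / 2) (r0 u) i) := by
  rw [F_eq]
  split_ifs with h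
  exacts [De_pos hT h1 h, De_zero hT h]

theorem De_sw (hT : Stab T g.π) (h1 : ∀ j ∈ T, g.s j = 1) (h2 : Ve (sty T g)) (hx : x ∈ T) (hy : y ∈ T) (hxy : x ≠ y) (e : ℤˣ) :
    De M T u (sw x y e * g) = F (Cas.fkA (M / 2)) (sty T (sw x y e * g)) fun i => ps .A (tup (M / 2) (r0 u) i) := by
  have h3 : ∀ e, Stab T (sw x y e * g).π := fun e => Cas.stab_mul (stab_on (Cas.sw_on hx hy e)) hT
  have h4 : ∀ j ∈ T, (sw x y 1 * g).s j = 1 := fun j hj => by simp [sw, h1 j hj]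
  rcases Int.units_eq_one_or e with rfl | rfl
  · exact De_F (h3 1) h4
  by_cases h5 : y ∈ cyc g.π x
  · rw [cyc_image, ← card_cyc] at h5
    obtain ⟨a, ha, rfl⟩ := mem_image.1 h5
    obtain ⟨σ, hσ⟩ := Cas.sty_cut hx hT (Nat.pos_of_ne_zero fun e => hxy (by rw [e]; rfl)) (mem_range.1 ha)
    have h6 : σ = 1 := by
      obtain ⟨z, hz, e⟩ := exists_cy (hσ 1 ▸ Multiset.mem_cons_self _ _)
      rw [← one_mul σ, ← show _ = 1 * σ from congrArg Prod.snd e]
      exact prod_eq_one fun j hj => h4 j (cyc_subset (h3 1) hz hj)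
    have h7 : ¬ Ve (sty T (sw x ((g.π ^ a) x) (-1) * g)) := fun e => by
      rw [hσ, h6] at e
      exact absurd (ve_cons.1 e).1.2 (by decide : (-1 : ℤˣ) * 1 ≠ 1)
    rw [De_zero (h3 _) h7, F_eq, if_neg h7]
  · have h6 : sw x y (-1) * g = mi (cyc g.π x) * (sw x y 1 * g) * (mi (cyc g.π x))⁻¹ := by
      rw [show ∀ m t : SG n, m * (t * g) * m⁻¹ = m * t * m⁻¹ * (m * g * m⁻¹) from fun m t => by group, mi_conj (stab_cyc _ _), sw_conj _ hxy]
      simp [mi, self_mem, h5]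
    have h7 := mi_on (cyc_subset hT hx)
    rw [h6, anti h7, sty_conj' (stab_on h7), sgn_mi, Even.neg_one_pow (n := #(cyc g.π x)) (h2 _ (cy_mem hx)).1, Units.val_one, one_mul, De_F (h3 1) h4]

theorem cas_De (hM : M % 2 = 0) (hu : u ∈ Lab .D M #T) (h : sw' u = u) (hT : Stab T g.π) :
    cas .D T (De M T u) g = (lev .D u - cst .D M #T) * De M T u g := by
  refine anti_ind (f := cas .D T (De M T u)) (f' := fun g => (lev .D u - cst .D M #T) * De M T u g) (fun g _ h hh => ?_)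
    (fun g _ h hh => by rw [anti hh, mul_left_comm]) (fun g hT h1 h2 => ?_) hT
  · rw [cas_conj .D hh, ← cas_mul]
    simp only [anti hh]
  obtain ⟨⟨r, hr⟩, h3⟩ := r0_mem hM hu h
  obtain ⟨h4, h5, -⟩ := mem_Lab.1 h3
  have h6 := congrFun (main (Cas.fkA (M / 2)) (fun _ _ _ _ _ => by simp only [Cas.fkA, Cas.Sys.fk, Multiset.map_cons]) g T hT h2)
    fun i => ps .A (tup (M / 2) (r0 u) i)
  simp only [Finset.sum_apply, Pi.smul_apply, smul_eq_mul, UnitsInt.univ, sum_pair (by decide : (1 : ℤˣ) ≠ -1)] at h6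
  rw [Cas.sum_lt T _ fun x y => by rw [sw_comm x y, sw_comm x y], show (4 : ℤ) = 2 * 2 from rfl, mul_assoc] at h6
  refine Eq.trans (sum_congr rfl fun x hx => sum_congr rfl fun y hy => ?_) ((mul_left_cancel₀ two_ne_zero h6).trans ?_)
  · rw [De_sw hT h1 h2 hx (mem_filter.1 hy).1 (mem_filter.1 hy).2.ne, De_sw hT h1 h2 hx (mem_filter.1 hy).1 (mem_filter.1 hy).2.ne]
    rfl
  rw [De_F hT h1]
  refine (congrArg _ (Cas.SA.E_apply _ _ _ _)).trans ((mul_assoc _ _ _).symm.trans (congrArg (· * _) ?_))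
  have h7 : ∑ i, ((tup (M / 2) (r0 u) i).1 : ℤ) = r + ∑ i : Fin (M / 2), ((i : ℕ) : ℤ) := by
    rw [← sum_tup h4, hr, half, bs, ← sum_range_id, ← Fin.sum_univ_eq_sum_range fun i => i] at h5
    exact_mod_cast h5
  have h8 : ∑ i : Fin M, ((v0 M i).1 : ℤ) ^ 2 = 2 * ∑ i : Fin (M / 2), ((i : ℕ) : ℤ) ^ 2 := by
    rw [J.sum_v0 fun a => (a.1 : ℤ) ^ 2, _root_.Cfsg.Agent.MO.J.sum_pos _ fun x => (x : ℤ) ^ 2, (V0_spec M).1, (V0_spec M).2.1, hM, add_zero, Ico_self, sum_empty,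
      add_zero, Fin.sum_univ_eq_sum_range fun i => (i : ℤ) ^ 2, nsmul_eq_mul, Nat.cast_two]
  have h9 : (M : ℤ) = 2 * (M / 2 : ℕ) := by omega
  simp only [Cas.SA, sum_sub_distrib, ← mul_sum, h7, lev, cst, ps, h8, hr]
  rw [sum_r0 h fun x => (x : ℤ) ^ 2, ← sum_tup h4]
  rw [← h9, Nat.cast_add]
  ring

/-! ### a positive transposition -/

theorem two {T'' : Finset (Fin n)} (hs : T'' ⊆ T) (hc : #T = #T'' + 2) (hu : #u = M) (h : sw' u = u) (hg : g ∈ On T'') :
    De M T u (bo .U (T \ T'') * g) = 2 * ∑ x ∈ rem u with x.2 = false, De M T'' (bx (bx u x) (x.1, true)) g := by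
  obtain ⟨x, y, hxy, e⟩ : ∃ x y, x < y ∧ T \ T'' = {x, y} := by
    obtain ⟨x, y, h1, e⟩ := card_eq_two.1 (show #(T \ T'') = 2 by rw [card_sdiff_of_subset hs]; omega)
    rcases lt_or_gt_of_ne h1 with h2 | h2
    exacts [⟨x, y, h2, e⟩, ⟨y, x, h2, e.trans (_root_.Finset.pair_comm _ _)⟩]
  have h1 : bo .U (T \ T'') = sw x y 1 := by
    rw [e, bo, dif_pos ⟨rfl, insert_nonempty _ _⟩]
    simp [min'_insert, max'_insert, hxy.le]
  have hx : x ∈ T \ T'' := e ▸ mem_insert_self _ _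
  have hy : y ∈ T \ T'' := e ▸ mem_insert_of_mem (mem_singleton_self _)
  have h2 := hg x (mem_sdiff.1 hx).2
  have h3 := hg y (mem_sdiff.1 hy).2
  have h4 : ∀ z, g.π z = z → cyc g.π z = {z} := fun z hz => Subset.antisymm
    (cyc_subset (T := {z}) (fun w => by rw [mem_singleton, mem_singleton, ← hz, g.π.injective.eq_iff, hz]) (mem_singleton_self z))
    (singleton_subset_iff.2 (self_mem _ _))
  have h5 : cyc (sw x y 1 * g).π x = T \ T'' := by
    rw [e, insert_eq, ← h4 x h2.1, ← h4 y h3.1]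
    exact Cas.cyc_join (by rw [h4 x h2.1, mem_singleton]; exact hxy.ne')
  have h6 : ∀ j ∈ cyc (sw x y 1 * g).π x, (sw x y 1 * g).s j = 1 := fun j hj => by
    simp [sw, (hg j (mem_sdiff.1 (h5 ▸ hj)).2).2]
  have h7 : #(cyc (sw x y 1 * g).π x) = 2 := by rw [h5, e, card_pair hxy.ne]
  have h8 := Cas.agree (Cas.sw_on hx hy 1) (stab_on hg) disjoint_sdiff
  have h9 : Stab T (sw x y 1 * g).π := stab_on (mul_mem (Cas.sw_on (mem_sdiff.1 hx).1 (mem_sdiff.1 hy).1 1) fun j hj => hg j fun e => hj (hs e))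
  rw [h1, De, dl_step h9 (mem_sdiff.1 hx).1 h6 (h7 ▸ even_two), sty_step h9 (mem_sdiff.1 hx).1, h7, h5, Finset.sdiff_sdiff_eq_self hs,
    dl_congr h8, Cas.sty_congr (stab_on hg) h8, Multiset.map_cons, mul_assoc, Nat.div_self two_pos]
  refine congrArg _ ((congrArg (dl T'' g * ·) (YK_box .A (hf (sty T'' g)) (card_r0 h hu))).trans ?_)
  rw [mul_sum]
  refine sum_congr (Finset.ext fun a => ?_) fun a ha => ?_
  · simp only [rem, r0, mem_filter]
    (clear * -; tauto)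
  · rw [De]
    congr 2
    have := (mem_filter.1 ha).2
    refine ext_row fun z => ?_
    simp only [bx, rp, r0, Prod.ext_iff, this, _root_.Finset.mem_insert, _root_.and_true, _root_.Finset.mem_erase, _root_.ne_eq, _root_.Finset.mem_filter, _root_.Bool.false_eq_true, _root_.and_false, _root_.not_false_eq_true, _root_.true_and, _root_.false_or, _root_.Bool.true_eq_false, _root_.or_self, _root_.and_self]

/-! ### Parseval -/

theorem hf_count {c : Cy} {s : Multiset Cy} (hc : Even c.1 ∧ c.2 = 1) (hs : Ve s) : (hf s).count (c.1 / 2, 1) = s.count c := by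
  rw [hf, Multiset.count_map, Multiset.count_eq_card_filter_eq]
  refine congrArg _ (Multiset.filter_congr fun d hd => ⟨fun e => Prod.ext ?_ (hc.2.trans (hs d hd).2.symm), fun e => by rw [e]⟩)
  obtain ⟨a, ha⟩ := hc.1
  obtain ⟨b, hb⟩ := (hs d hd).1
  have := congrArg Prod.fst e
  simp only at this
  omega

theorem hf_sum {s : Multiset Cy} (hs : Ve s) : ((hf s).map Prod.fst).sum = (s.map Prod.fst).sum / 2 ∧ Even (s.map Prod.fst).sum := by
  induction s using Multiset.induction_on with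
  | empty => simp only [hf, _root_.Multiset.map_zero, _root_.Multiset.sum_zero, _root_.Nat.zero_div, _root_.Even.zero, _root_.and_self]
  | cons c s ih =>
    obtain ⟨⟨⟨a, ha⟩, -⟩, h⟩ := ve_cons.1 hs
    obtain ⟨h1, b, hb⟩ := ih h
    rw [hf, Multiset.map_cons, Multiset.map_cons, Multiset.map_cons, Multiset.sum_cons, Multiset.sum_cons, ← hf, h1]
    exact ⟨by simp only; (clear * - hb; solve | lia | omega), a + b, by omega⟩

theorem PL_hf {s : Multiset Cy} (hs : Ve s) (h0 : ∀ c ∈ s, 0 < c.1) : ∀ s' : Multiset Cy, Ve s' → (∀ c ∈ s', 0 < c.1) →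
    (s'.map Prod.fst).sum = (s.map Prod.fst).sum → Ok .D M (s.map Prod.fst).sum → Pars.PL .D M (s.map Prod.fst).sum s s' =
      2 ^ s.card * 2 ^ s'.card * Pars.PL .A (M / 2) ((s.map Prod.fst).sum / 2) (hf s) (hf s') := by
  induction s using Multiset.induction_on with
  | empty =>
    intro s' _ h1 h2 h3
    obtain rfl : s' = 0 := by
      refine Multiset.eq_zero_of_forall_notMem fun c hc => (h1 c hc).ne' ?_
      exact Multiset.sum_eq_zero_iff.1 h2 _ (Multiset.mem_map_of_mem _ hc)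
    exact (Pars.PL_zero h3).trans (by rw [show hf 0 = 0 from rfl]; simp [Pars.PL_zero (κ := .A) (Nat.zero_le _), wp])
  | cons c s ih =>
    intro s' hs' h1 h2 h3
    obtain ⟨hc, hs⟩ := ve_cons.1 hs
    obtain ⟨a, ha⟩ := hc.1
    obtain ⟨b, hb⟩ := (hf_sum hs).2
    have h4 := h0 c (Multiset.mem_cons_self _ _)
    rw [Multiset.map_cons, Multiset.sum_cons, add_comm] at h2 h3 ⊢
    have h5 : ∀ d ∈ hf s', 0 < d.1 ∧ d.2 = 1 := fun d hd => by
      obtain ⟨d', hd', rfl⟩ := Multiset.mem_map.1 hd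
      obtain ⟨e, he⟩ := (hs' d' hd').1
      have := h1 d' hd'
      exact ⟨by simp only; omega, rfl⟩
    rw [Pars.PL_cons (κ := .D) _ _ h1 (h2 ▸ h3) h4 nofun, show ((s.map Prod.fst).sum + c.1) / 2 = (s.map Prod.fst).sum / 2 + (c.1 / 2, (1 : ℤˣ)).1 by
      simp only; omega, hf, Multiset.map_cons, ← hf, Pars.PL_cons (κ := .A) _ _ (fun d hd => (h5 d hd).1)
        (by rw [(hf_sum hs').1, h2]; exact (Nat.div_le_self _ _).trans h3.2) (by simp only; omega) fun _ => ⟨rfl, fun d hd => (h5 d hd).2⟩,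
      hf_count hc hs']
    by_cases e : c ∈ s'
    · obtain ⟨t, rfl⟩ := Multiset.exists_cons_of_mem e
      rw [Multiset.map_cons, Multiset.sum_cons] at h2
      rw [Multiset.erase_cons_head, ih hs (fun d hd => h0 d (Multiset.mem_cons_of_mem hd)) t (ve_cons.1 hs').2
        (fun d hd => h1 d (Multiset.mem_cons_of_mem hd)) (by omega) (Pars.ok_le h3 (Nat.le_add_right _ _)), hf, hf, hf, Multiset.map_cons,
        Multiset.erase_cons_head, Multiset.card_cons, Multiset.card_cons, ha, half]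
      simp only [Pars.ws, true_or, if_true, reduceCtorEq, or_self, if_false]
      push_cast
      ring
    · simp [Multiset.count_eq_zero.2 e]

/-- the right hand side of Parseval's identity -/
noncomputable def Kk (T : Finset (Fin n)) (g g' : SG n) : ℤ := ∑ h : SG n with h ∈ On T ∧ Ag .D T (h * g * h⁻¹) g', (sgn h : ℤ)

theorem Kk_left (hh : h ∈ On T) (g g' : SG n) : Kk T (h * g * h⁻¹) g' = sgn h * Kk T g g' := by
  rw [Kk, Kk, mul_sum]
  refine sum_bij' (fun k _ => k * h) (fun k _ => k * h⁻¹) (fun k hk => ?_) (fun k hk => ?_) (fun k _ => by group) (fun k _ => by group)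
    fun k _ => by rw [map_mul, mul_comm (sgn k), ← Units.val_mul, ← mul_assoc, Int.units_mul_self, one_mul]
  all_goals
    obtain ⟨h1, h2⟩ := (mem_filter.1 hk).2
    refine mem_filter.2 ⟨mem_univ _, mul_mem h1 (by simpa using hh), ?_⟩
    convert h2 using 1
    group

theorem Ag_cj (hh : h ∈ On T) (e : Ag .D T g g') : Ag .D T (h * g * h⁻¹) (h * g' * h⁻¹) := fun j hj => by
  obtain ⟨j, rfl⟩ := h.π.surjective j
  have := e j ((stab_on hh j).1 hj)
  rw [conj_π, conj_π, conj_s, conj_s, this.1, this.2]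
  exact ⟨rfl, rfl⟩

theorem Kk_right (hh : h ∈ On T) (g g' : SG n) : Kk T g (h * g' * h⁻¹) = sgn h * Kk T g g' := by
  rw [Kk, Kk, mul_sum]
  refine sum_bij' (fun k _ => h⁻¹ * k) (fun k _ => h * k) (fun k hk => ?_) (fun k hk => ?_) (fun k _ => by group) (fun k _ => by group)
    fun k _ => by rw [← Units.val_mul, ← map_mul, mul_inv_cancel_left]
  · obtain ⟨h1, h2⟩ := (mem_filter.1 hk).2
    refine mem_filter.2 ⟨mem_univ _, mul_mem (inv_mem hh) h1, ?_⟩
    convert Ag_cj (inv_mem hh) h2 using 1 <;> group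
  · obtain ⟨h1, h2⟩ := (mem_filter.1 hk).2
    refine mem_filter.2 ⟨mem_univ _, mul_mem hh h1, ?_⟩
    convert Ag_cj hh h2 using 1
    group

theorem par (ho : Ok .D M #T) (hT : Stab T g.π) (hT' : Stab T g'.π) :
    ∑ u ∈ Lab .D M #T with sw' u = u, De M T u g * De M T u g' = Kk T g g' := by
  refine anti_ind (f := fun g => ∑ u ∈ Lab .D M #T with sw' u = u, De M T u g * De M T u g') (f' := fun g => Kk T g g')
    (fun g _ h hh => by simp only [anti hh, mul_sum, mul_assoc (sgn h : ℤ)]) (fun g _ h hh => Kk_left hh g g') (fun g hT h1 h2 => ?_) hT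
  refine anti_ind (f := fun g' => ∑ u ∈ Lab .D M #T with sw' u = u, De M T u g * De M T u g') (f' := fun g' => Kk T g g')
    (fun g' _ h hh => by simp only [anti hh, mul_sum, mul_left_comm]) (fun g' _ h hh => Kk_right hh g g') (fun g' hT' h3 h4 => ?_) hT'
  have h5 := PL_hf (M := M) h2 (sty_pos _ _) _ h4 (sty_pos _ _) (by rw [sty_size hT, sty_size hT']) (by rwa [sty_size hT])
  have h6 := (hf_sum h2).2
  rw [sty_size hT] at h5 h6
  simp only [De_pos hT h1 h2, De_pos hT' h3 h4, mul_mul_mul_comm (2 ^ _ : ℤ) (YK _ _ _ _), ← mul_sum]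
  rw [sum_dg ho.1 h6 fun v => YK .A (M / 2) (hf (sty T g)) v * YK .A (M / 2) (hf (sty T g')) v]
  refine h5.symm.trans ((bPars .D M T g g' ho hT hT').trans ?_)
  rw [Kk, sum_congr rfl (g := fun _ => 1) fun h hh => ?_, wp, one_mul, sum_const, nsmul_one, ← Nat.card_eq_finsetCard]
  · exact congrArg _ (Nat.card_congr ⟨fun h => ⟨h.1, mem_filter.2 ⟨mem_univ _, h.1.2, h.2⟩⟩,
      fun h => ⟨⟨h.1, (mem_filter.1 h.2).2.1⟩, (mem_filter.1 h.2).2.2⟩, fun _ => rfl, fun _ => rfl⟩)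
  · exact nofun
  · obtain ⟨h7, h8⟩ := (mem_filter.1 hh).2
    have h9 := dl_conj h7 g
    rw [dl_congr h8, dl_pos hT h1 h2, dl_pos hT' h3 h4] at h9
    rcases Int.units_eq_one_or (sgn h) with e | e
    · rw [e, Units.val_one]
    · rw [e, Units.val_neg, Units.val_one, neg_one_mul] at h9
      exact absurd h9 ((neg_lt_zero.2 (pow_pos two_pos _)).trans (pow_pos two_pos _)).ne'

theorem Kk_eq (hg : g ∈ On T) (hg' : g' ∈ On T) : Kk T g g' = ∑ h : SG n with h ∈ On T ∧ h * g * h⁻¹ = g', (sgn h : ℤ) :=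
  sum_congr (filter_congr fun _ _ => and_congr_right fun hh => Ag_iff (κ := .D) (mul_mem (mul_mem hh hg) (inv_mem hh)) hg') fun _ _ => rfl

/-! ### orthonormality -/

theorem indep (ho : Ok .D M #T) (a : Finset Pt → ℂ)
    (H : ∀ g ∈ On T, ∑ u ∈ Lab .D M #T with sw' u = u, a u * De M T u g = 0) (hu : u ∈ Lab .D M #T) (h : sw' u = u) : a u = 0 := by
  obtain ⟨⟨r, hr⟩, h1⟩ := r0_mem ho.1 hu h
  obtain ⟨T', -, h2⟩ := exists_subset_card_eq (show #T / 2 ≤ #T from Nat.div_le_self _ _)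
  have h3 : Ok .A (M / 2) #T' := h2 ▸ (Nat.div_le_self _ _).trans ho.2
  have h4 := ip_sum (κ := .A) (T := T') (s := {u ∈ Lab .D M #T | sw' u = u}) (f := fun g => Y .A (M / 2) T' (r0 u) g) (f' := 0)
    (F := fun v g => Y .A (M / 2) T' (r0 v) g) (c := 0) (a := a) fun σ hσ => by
      obtain ⟨g, h5, h6⟩ := exists_sty (T := T) (s := (sty T' σ).map fun c => (c.1 + c.1, 1))
        (fun c hc => by
          obtain ⟨d, hd, rfl⟩ := Multiset.mem_map.1 hc
          exact Nat.add_pos_left (sty_pos _ _ d hd) _)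
        (by
          rw [Multiset.map_map, show (Prod.fst ∘ fun c : Cy => (c.1 + c.1, (1 : ℤˣ))) = fun c => c.1 + c.1 from rfl, Multiset.sum_map_add,
            sty_size (stab_Gp hσ), h2]
          omega)
      have h7 : Ve (sty T g) := fun c hc => by
        obtain ⟨d, -, rfl⟩ := Multiset.mem_map.1 (h6 ▸ hc)
        exact ⟨⟨_, rfl⟩, rfl⟩
      obtain ⟨o, h8, h9⟩ := exists_pos (stab_on h5) h7
      have h10 := H _ (mul_mem (mul_mem h8 h5) (inv_mem h8))
      rw [← sty_conj' (stab_on h8)] at h6 h7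
      simp only [De_pos (stab_cj h8 (stab_on h5)) h9 h7, Int.cast_mul, mul_left_comm (a _), ← mul_sum] at h10
      rw [zero_mul, ← (mul_eq_zero.1 h10).resolve_left (by simp)]
      refine sum_congr rfl fun v _ => ?_
      simp only [h6, Y, YK, hf, Multiset.map_map, Function.comp_def, half]
  rw [zero_mul, sum_congr rfl fun v hv => by
    rw [bGram2.au .A _ T' _ _ (Or.inl rfl) h3 (h2 ▸ h1) (h2 ▸ (r0_mem ho.1 (mem_filter.1 hv).1 (mem_filter.1 hv).2).2),
      if_congr ⟨r0_inj h (mem_filter.1 hv).2, congrArg r0⟩ rfl rfl, mul_ite, mul_one, mul_zero], sum_ite_eq,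
    if_pos (by exact mem_filter.2 ⟨hu, h⟩)] at h4
  exact h4.symm

theorem sum_Kk (g : SG n) {S : Finset (SG n)} (hS : ∀ h ∈ On T, h * g * h⁻¹ ∈ S) {V : Type} [CommRing V] (f : SG n → V) :
    ∑ g' ∈ S, f g' * ((∑ h : SG n with h ∈ On T ∧ h * g * h⁻¹ = g', (sgn h : ℤ) : ℤ) : V) =
      ∑ h : SG n with h ∈ On T, ((sgn h : ℤ) : V) * f (h * g * h⁻¹) := by
  simp only [Int.cast_sum, mul_sum, ← filter_filter]
  rw [← sum_fiberwise_of_maps_to (t := S) (g := fun h => h * g * h⁻¹) fun h hh => hS h (mem_filter.1 hh).2]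
  exact sum_congr rfl fun g' _ => sum_congr rfl fun h hh => by rw [(mem_filter.1 hh).2, mul_comm]

theorem on (ho : Ok .D M #T) (hu : u ∈ Lab .D M #T) (hv : v ∈ Lab .D M #T) (h : sw' u = u) (h' : sw' v = v) :
    ∑ g : SG n with g ∈ On T, De M T u g * De M T v g = if u = v then (Nat.card (On T) : ℤ) else 0 := by
  have h1 := indep ho (fun u => ((∑ g : SG n with g ∈ On T, De M T u g * De M T v g - if u = v then (Nat.card (On T) : ℤ) else 0 : ℤ) : ℂ))
    (fun g hg => ?_) hu h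
  · exact sub_eq_zero.1 (Int.cast_eq_zero.1 h1)
  have h2 := sum_Kk g (T := T) (S := {g | g ∈ On T}) (fun h hh => mem_filter.2 ⟨mem_univ _, mul_mem (mul_mem hh hg) (inv_mem hh)⟩) (De M T v)
  rw [sum_congr rfl fun g' hg' => by rw [← Kk_eq hg (mem_filter.1 hg').2, ← par ho (stab_on hg) (stab_on (mem_filter.1 hg').2), Int.cast_id],
    sum_congr (f := fun h => _ * De M T v (h * g * h⁻¹)) rfl fun h hh => by
      rw [anti (mem_filter.1 hh).2, Int.cast_id, ← mul_assoc, ← Units.val_mul, Int.units_mul_self, Units.val_one, one_mul], sum_const] at h2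
  simp only [← Int.cast_mul, ← Int.cast_sum, Int.cast_eq_zero, sub_mul, sum_sub_distrib, ite_mul, zero_mul, sum_ite_eq', sum_mul]
  rw [if_pos (by exact mem_filter.2 ⟨hv, h'⟩), sum_comm, sub_eq_zero, Nat.card_eq_fintype_card, Fintype.card_subtype, ← nsmul_eq_mul, ← h2]
  refine sum_congr rfl fun g' _ => ?_
  rw [mul_sum]
  exact sum_congr rfl fun u _ => by ring

end An

open An in
/-- **the antisymmetric functions** -/
theorem bAn : BAn where
  anti _ _ _ _ g _ _ hh := anti hh g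
  par _ _ _ ho _ hg _ hg' := (par ho (stab_on hg) (stab_on hg')).trans (Kk_eq hg hg')
  on _ _ _ ho _ hu _ hv h h' := on ho hu hv h h'
  cas _ _ _ ho _ hu h _ hT := cas_De ho.1 hu h hT
  two _ _ _ _ hs hc _ _ hu h _ hg := two hs hc hu h hg

end Cfsg.Agent.MO.UD
end

-- part: MO/J/Spec
section
/-!
# MO-J: the special member of a family (helper90)

* `od Z` : every second position of `Z`, from the top; `card_od`; `sp u` : the special member of the family of `u`;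
* `eu_fm` : the sign `eu` in a family; `rho_sp` : the column of the special member only depends on the number of beads in the rows.
-/

set_option autoImplicit false
set_option linter.unusedSectionVars false

namespace Cfsg.Agent.MO.J

open Finset

variable {M : ℕ} {u v : Finset Pt} {D Z I : Finset ℕ}

/-- every second position, the largest one is left out -/
def od (Z : Finset ℕ) : Finset ℕ := {y ∈ Z | #{z ∈ Z | y < z} % 2 = 1}

theorem od_subset (Z : Finset ℕ) : od Z ⊆ Z := filter_subset _ _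

theorem card_od (Z : Finset ℕ) : #(od Z) = #Z / 2 := by
  induction Z using Finset.induction_on_min with
  | empty => rfl
  | insert a s ha ih =>
    have h0 : a ∉ s := fun h => lt_irrefl _ (ha a h)
    have h1 : ∀ y ∈ s, {z ∈ insert a s | y < z} = {z ∈ s | y < z} := fun y hy => by
      rw [filter_insert, if_neg (ha y hy).not_gt]
    have h2 : {z ∈ insert a s | a < z} = s := by rw [filter_insert, if_neg (lt_irrefl a), filter_true_of_mem ha]
    rw [od, filter_insert, h2, filter_congr (q := fun y => #{z ∈ s | y < z} % 2 = 1) fun y hy => by rw [h1 y hy],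
      card_insert_of_notMem h0, ← od]
    split_ifs with h
    · rw [card_insert_of_notMem fun e => h0 (od_subset s e), ih]
      omega
    · omega

/-- the number of pairs `y < x` -/
def nl (A B : Finset ℕ) : ℕ := #{z ∈ A ×ˢ B | z.2 < z.1}

theorem nl_eq (A B : Finset ℕ) : nl A B = ∑ y ∈ B, #{x ∈ A | y < x} := by
  simp only [nl, card_filter]
  rw [sum_product_right]

theorem nl_left {A A' : Finset ℕ} (h : Disjoint A A') (B : Finset ℕ) : nl (A ∪ A') B = nl A B + nl A' B := by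
  simp only [nl, card_filter, sum_product, sum_union h]

theorem nl_right (A : Finset ℕ) {B B' : Finset ℕ} (h : Disjoint B B') : nl A (B ∪ B') = nl A B + nl A B' := by
  simp only [nl_eq, sum_union h]

theorem nl_add {A B : Finset ℕ} (h : Disjoint A B) : nl A B + nl B A = #A * #B := by
  rw [nl_eq B A, nl, card_filter, sum_product, ← sum_add_distrib, ← smul_eq_mul, ← sum_const]
  refine sum_congr rfl fun x hx => ?_
  rw [card_filter, ← sum_add_distrib, card_eq_sum_ones]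
  refine sum_congr rfl fun y hy => ?_
  have : x ≠ y := fun e => disjoint_left.1 h hx (e ▸ hy)
  split_ifs <;> omega

theorem nl_self (A : Finset ℕ) : nl A A = (#A).choose 2 := by
  induction A using Finset.induction_on_min with
  | empty => rfl
  | insert a s ha ih =>
    have h0 : a ∉ s := fun h => lt_irrefl _ (ha a h)
    rw [nl_eq, sum_insert h0, filter_insert, if_neg (lt_irrefl a), filter_true_of_mem ha, card_insert_of_notMem h0,
      sum_congr rfl fun y hy => by rw [filter_insert, if_neg (ha y hy).not_gt], ← nl_eq, ih, Nat.choose_succ_succ,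
      Nat.choose_one_right]

theorem row_fm_false : row (fm D Z I) false = D ∪ (Z \ I) := by
  ext x
  rw [mem_row, mem_fm_false, mem_union, mem_sdiff]

theorem row_fm_true : row (fm D Z I) true = D ∪ I := by
  ext x
  rw [mem_row, mem_fm_true, mem_union]

theorem eu_fm (h : Disjoint D Z) (hI : I ⊆ Z) :
    eu (fm D Z I) = (-1) ^ (#I * #D + (#I).choose 2 + #(od Z ∩ I)) * eu (fm D Z ∅) := by
  have h1 : Disjoint D I := h.mono_right hI
  have h2 := nl_left (sdiff_disjoint (s := I) (t := Z)) D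
  have h3 := nl_left (sdiff_disjoint (s := I) (t := Z)) I
  rw [sdiff_union_of_subset hI] at h2 h3
  have h4 := nl_add h1.symm
  have h5 : nl Z I % 2 = #(od Z ∩ I) % 2 := by
    rw [nl_eq, sum_nat_mod, inter_comm, ← filter_mem_eq_inter, card_filter]
    refine congrArg (· % 2) (sum_congr rfl fun y hy => ?_)
    simp only [od, mem_filter, hI hy, true_and]
    split_ifs <;> omega
  rw [eu, eu, ← pow_add, ← nl, ← nl, row_fm_false, row_fm_false, row_fm_true, row_fm_true, sdiff_empty, union_empty,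
    nl_left (h.mono_right sdiff_subset), nl_left h, nl_right _ h1, nl_right _ h1, ← nl_self, neg_one_pow_congr]
  rw [Nat.even_iff, Nat.even_iff]
  omega

/-- the special member of the family -/
def sp (u : Finset Pt) : Finset Pt := fm (dbl u) (sing u) (od (sing u))

theorem sp_spec (u : Finset Pt) : dbl (sp u) = dbl u ∧ sing (sp u) = sing u ∧ low (sp u) = od (sing u) :=
  fm_spec (disj_dbl u) (od_subset _)

theorem sp_mem (u : Finset Pt) : sp u ∈ Fam u := mem_Fam.2 ⟨(sp_spec u).1, (sp_spec u).2.1⟩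

theorem sp_congr (h : v ∈ Fam u) : sp v = sp u := by rw [sp, sp, (mem_Fam.1 h).1, (mem_Fam.1 h).2]

theorem sp_mem_LabX {κ : Kn} (hκ : κ = .B ∨ κ = .D) {k : ℕ} (h : u ∈ Lab κ M k) : sp u ∈ LabX κ M k := by
  refine (mem_LabX0 hκ).2 ⟨Fam_subset hκ h (sp_mem u), ?_⟩
  have := card_eq u
  rw [card_row_true, (sp_spec u).1, (sp_spec u).2.2, card_od, ← (mem_Lab.1 h).1]
  omega

/-- **the column of the special member** -/
theorem rho_sp (h : #u = M) : rho M u (sp u) =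
    (-1) ^ (#(low u) * #(dbl u) + (#(low u)).choose 2) * rho M (fm (dbl u) (sing u) ∅) (sp u) := by
  obtain ⟨h1, h2, h3⟩ := fm_spec (disj_dbl u) (empty_subset (sing u))
  have h4 : u ∈ Fam (fm (dbl u) (sing u) ∅) := mem_Fam.2 ⟨h1.symm, h2.symm⟩
  have h5 := eu_fm (disj_dbl u) (low_subset u)
  have h6 : row (sp u) true ∩ low u = od (sing u) ∩ low u := by
    rw [sp, row_fm_true, union_inter_distrib_right, disjoint_iff_inter_eq_empty.1 ((disj_dbl u).mono_right (low_subset u)),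
      empty_union]
  rw [fm_self] at h5
  rw [rho_flip ((card_fam h4).symm.trans h) ((card_fam (sp_mem u)).trans h) h4, h3, ← bot_eq_empty, bot_symmDiff, bot_eq_empty, h6,
    h5, mul_left_comm (eu _), eu_sq, mul_one, pow_add _ _ #(_ ∩ _), mul_assoc _ _ (_ ^ _), ← mul_pow]
  simp only [_root_.Int.reduceNeg, _root_.mul_neg, _root_.mul_one, _root_.neg_neg, _root_.one_pow]

example := And.intro @od.eq_1 (And.intro @nl.eq_1 @sp.eq_1)

end Cfsg.Agent.MO.J
end

-- part: MO/UD/Fm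
section
/-!
# MO/UD: families (helper54)

`bFm : BPo → BAn → BZ → BFm`.
-/

set_option autoImplicit false
set_option linter.unusedSectionVars false

namespace Cfsg.Agent.MO.UD

open Finset Classical Cfsg.Agent.MO.J
open Cfsg.Agent.LV.Cl (SG On Stab cyc sw tt sgn)

namespace Fm

variable {n M k : ℕ} {κ : Kn} {ε : ℤˣ} {T : Finset (Fin n)} {g : SG n} {u v : Finset Pt} {a a' : Lb}

theorem mem_Om : g ∈ Om κ ε T ↔ g ∈ Gp κ T ∧ (κ = .D → sgn g = ε) := by simp [Om]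

theorem mem_Lq : u ∈ Lq κ ε M k ↔ u ∈ Lab κ M k ∧ Can κ u ∧ (κ = .D → (ε : ℤ) = (-1) ^ (#(row u true) + M / 2)) := mem_filter

theorem mem_LB : a ∈ LB κ ε M k ↔ a.1 ∈ Lq κ ε M k ∧ (a.2 = true → Dg κ k a.1) := by simp [LB]

theorem card_Lq (h : u ∈ Lq κ ε M k) : #u = M := (mem_Lab.1 (mem_Lq.1 h).1).1

/-! ### labels -/

theorem mem_sw {x : ℕ} {b : Bool} : (x, b) ∈ sw' u ↔ (x, !b) ∈ u := by
  rw [sw', mem_image]
  refine ⟨fun ⟨a, ha, e⟩ => ?_, fun h => ⟨_, h, by simp⟩⟩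
  obtain ⟨rfl, rfl⟩ := Prod.mk.inj e
  simpa using ha

theorem row_sw (u : Finset Pt) (b : Bool) : row (sw' u) b = row u !b := by
  ext x
  rw [mem_row, mem_row, mem_sw]

theorem sw_iff : sw' u = u ↔ sing u = ∅ := by
  refine ⟨fun h => eq_empty_of_forall_notMem fun x hx => mem_sing.1 hx ?_, fun h => ext_row fun x => ?_⟩
  · conv_lhs => rw [← h, mem_sw]
    rfl
  · have h1 : x ∉ sing u := h ▸ notMem_empty x
    rw [mem_sing, not_not] at h1
    rw [mem_sw, mem_sw]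
    exact ⟨h1.symm, h1⟩

theorem eq_of_sing (h : v ∈ Fam u) (h' : sing u = ∅) : u = v := by
  obtain ⟨h1, h2⟩ := mem_Fam.1 h
  have h3 := low_subset u
  have h4 := low_subset v
  rw [h2] at h4
  rw [h', subset_empty] at h3 h4
  exact eq_of_low h1.symm h2.symm (h3.trans h4.symm)

theorem Dg_fam (h : v ∈ Fam u) : Dg κ k v ↔ Dg κ k u := by rw [Dg, Dg, sw_iff, sw_iff, (mem_Fam.1 h).2]

theorem count_zz (κ : Kn) (u : Finset Pt) (x : ℕ) (b : Bool) :
    (zz κ u).count (x, b) = #{a ∈ u | x < a.1 ∧ (if κ = .U then a.2 else false) = b} := by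
  rw [zz, Multiset.count_sum', card_filter]
  refine sum_congr rfl fun a _ => ?_
  rw [Multiset.count_eq_of_nodup ((range a.1).nodup.map fun _ _ e => congrArg Prod.fst e)]
  refine if_congr ?_ rfl rfl
  rw [Multiset.mem_map]
  refine ⟨fun ⟨y, hy, e⟩ => ?_, fun h => ⟨x, mem_range.2 h.1, by rw [h.2]⟩⟩
  obtain ⟨e1, e2⟩ := Prod.mk.inj e
  exact ⟨e1 ▸ mem_range.1 hy, e2⟩

theorem card_at (q : Bool → Prop) [DecidablePred q] (h0 : #{a ∈ u | q a.2} = #{a ∈ v | q a.2})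
    (h : ∀ x, #{a ∈ u | x < a.1 ∧ q a.2} = #{a ∈ v | x < a.1 ∧ q a.2}) (x : ℕ) :
    (if (x, false) ∈ u ∧ q false then 1 else 0) + (if (x, true) ∈ u ∧ q true then 1 else 0) =
      (if (x, false) ∈ v ∧ q false then 1 else 0) + (if (x, true) ∈ v ∧ q true then 1 else 0 : ℕ) := by
  have h1 : #{a ∈ u | x ≤ a.1 ∧ q a.2} = #{a ∈ v | x ≤ a.1 ∧ q a.2} := by
    cases x with
    | zero => simpa using h0
    | succ x => exact h x
  have h2 : ∀ w : Finset Pt, #{a ∈ w | x ≤ a.1 ∧ q a.2} = (if (x, false) ∈ w ∧ q false then 1 else 0) +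
      (if (x, true) ∈ w ∧ q true then 1 else 0) + #{a ∈ w | x < a.1 ∧ q a.2} := fun w => by
    have h3 : ∀ b, ∑ y ∈ row w b, (if y = x ∧ q b then 1 else 0) = if (x, b) ∈ w ∧ q b then 1 else 0 := fun b => by
      by_cases e : q b
      · simp only [e, and_true, sum_ite_eq', mem_row]
      · simp only [e, and_false, if_false, sum_const_zero]
    rw [← h3, ← h3, ← sum_row w fun a => if a.1 = x ∧ q a.2 then 1 else 0, card_filter, card_filter, ← sum_add_distrib]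
    refine sum_congr rfl fun a _ => ?_
    by_cases e : q a.2
    · simp only [e, and_true]
      split_ifs <;> omega
    · simp only [e, and_false, if_false]
  rw [h2, h2, h x] at h1
  exact Nat.add_right_cancel h1

theorem fam_of_zz (hκ : κ ≠ .U) (hc : #u = #v) (h : zz κ u = zz κ v) : v ∈ Fam u := by
  have h1 := card_at (u := u) (v := v) (fun _ => True) (by simpa using hc) fun x => by
    have := count_zz κ u x false
    rw [h, count_zz] at this
    simpa [hκ] using this.symm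
  simp only [and_true] at h1
  refine mem_Fam.2 ⟨?_, ?_⟩ <;> ext x <;> have h3 := h1 x <;> simp only [mem_dbl, mem_sing] <;> split_ifs at h3 <;> simp_all

theorem zz_fam (hκ : κ ≠ .U) (h : v ∈ Fam u) : zz κ v = zz κ u := by
  simp only [zz, if_neg hκ]
  exact sum_pos_fam h fun y => (range y).val.map fun x => (x, false)

theorem eq_of_zz (hκ : κ = .A ∨ κ = .U) (hu : u ∈ Lab κ M k) (hv : v ∈ Lab κ M k) (hc : cl u = cl v) (h : zz κ u = zz κ v) :
    u = v := by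
  obtain ⟨h1, -, h2⟩ := mem_Lab.1 hu
  obtain ⟨h3, -, h4⟩ := mem_Lab.1 hv
  rcases hκ with rfl | rfl
  · obtain ⟨h5, h6⟩ := mem_Fam.1 (fam_of_zz (κ := .A) nofun (h1.trans h3.symm) h)
    refine eq_of_low h5.symm h6.symm ?_
    rw [eq_empty_of_forall_notMem (s := low u) fun x hx => Bool.noConfusion (h2 rfl _ (mem_low.1 hx).1),
      eq_empty_of_forall_notMem (s := low v) fun x hx => Bool.noConfusion (h4 rfl _ (mem_low.1 hx).1)]
  · have h5 : ∀ b, #(row u b) = #(row v b) := fun b => by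
      have := card_rows u
      have := card_rows v
      unfold cl at hc
      cases b <;> omega
    have h6 := fun b => card_at (u := u) (v := v) (· = b) (by
      have h7 := card_row u b fun _ => True
      have h8 := card_row v b fun _ => True
      simp only [filter_true, and_true] at h7 h8
      rw [← h7, ← h8, h5]) fun x => by
        have := count_zz .U u x b
        rw [h, count_zz] at this
        simpa using this.symm
    refine ext_row fun x => ⟨?_, ?_⟩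
    · have := h6 false x
      split_ifs at this <;> simp_all
    · have := h6 true x
      split_ifs at this <;> simp_all

theorem k2_inj {S S' : Finset ℕ} (h : k2 S = k2 S') : S = S' :=
  geomSum_injective le_rfl (congrArg Prod.snd (toLex.injective h))

theorem card_le_of_can (hκ : κ = .B ∨ κ = .D) (h : Can κ u) : #(row u true) ≤ #(row u false) := by
  rcases Prod.Lex.toLex_le_toLex.1 (h hκ) with e | e
  exacts [e.le, e.1.le]

theorem cl_bx {x : Pt} (hx : x ∈ rem u) (b : Bool) : #(row (bx u x) b) = #(row u b) := by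
  obtain ⟨h1, -, h2⟩ := mem_filter.1 hx
  have h3 : ∀ w : Finset Pt, #(row w b) = ∑ a ∈ w, if a.2 = b then 1 else 0 := fun w => by
    have h7 := card_row w b fun _ => True
    simp only [filter_true, and_true] at h7
    rw [h7, card_filter]
  rw [h3, h3, bx, rp, sum_insert fun e => h2 (mem_of_mem_erase e), ← add_sum_erase _ _ h1]

theorem cl_cv {k' : ℕ} (hu : u ∈ Lq κ ε M k) (hv : v ∈ Lq κ ε M k') (h : cv κ v u) : cl v = cl u := by
  obtain ⟨x, hx, rfl | ⟨hκ, e⟩⟩ := h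
  · exact cl_bx hx true
  · have h1 := cl_bx hx true
    have h2 := cl_bx hx false
    have h3 := card_le_of_can hκ (mem_Lq.1 hu).2.1
    have h4 := card_le_of_can hκ (mem_Lq.1 hv).2.1
    rw [e, row_sw] at h1 h2
    simp only [Bool.not_true, Bool.not_false] at h1 h2
    unfold cl
    omega

/-! ### sums over the coset -/

theorem sgn_on (h : g ∈ On T) : sgn g = ∏ j ∈ T, g.s j := (prod_subset (subset_univ T) fun j _ hj => (h j hj).2).symm

theorem sum_Om {f : SG n → ℂ} (h : ∀ g ∈ Gp κ T, κ = .D → f g ≠ 0 → sgn g = ε) (f' : SG n → ℂ) :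
    ∑ g ∈ Om κ ε T, f g * f' g = Nat.card (Gp κ T) * ip κ T f f' := by
  rw [ip_eq, mul_inv_cancel_left₀ (card_Gp_ne κ T), ← sum_subtype {g | g ∈ Gp κ T} (fun _ => by simp) fun g => f g * f' g]
  refine sum_subset (fun g hg => by simpa using (mem_Om.1 hg).1) fun g hg hg' => mul_eq_zero_of_left (by_contra fun e => hg' ?_) _
  have h1 : g ∈ Gp κ T := by simpa using hg
  exact mem_Om.2 ⟨h1, fun hκ => h g h1 hκ e⟩

theorem sum_Y (ho : Ok κ M #T) (hu : u ∈ Lq κ ε M #T) (f : SG n → ℂ) :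
    ∑ g ∈ Om κ ε T, Y κ M T u g * f g = Nat.card (Gp κ T) * ip κ T (fun g => Y κ M T u g) f := by
  refine sum_Om (f := fun g => Y κ M T u g) (fun g hg hκ e => ?_) f
  subst hκ
  have h1 := bZero.df M (sty T g) u (card_Lq hu) ho.1 (Int.cast_ne_zero.1 e)
  rw [sty_sign (stab_Gp hg), ← sgn_on hg, ← (mem_Lq.1 hu).2.2 rfl] at h1
  exact Units.ext h1

theorem De_sgn (hg : g ∈ On T) (h : De M T u g ≠ 0) : sgn g = 1 := by
  obtain ⟨x, hx, -⟩ := exists_ne_zero_of_sum_ne_zero (left_ne_zero_of_mul h)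
  obtain ⟨h1, -, h2⟩ := (mem_filter.1 hx).2
  have h3 := sgn_on (mul_mem (mul_mem h1 hg) (inv_mem h1))
  rwa [prod_eq_one h2, map_mul, map_mul, map_inv, mul_inv_cancel_comm] at h3

theorem eps_one (ho : Ok κ M k) (hu : u ∈ Lq κ ε M k) (h : Dg κ k u) : ε = 1 := by
  obtain ⟨rfl, -, h⟩ := h
  have h1 := (mem_Lq.1 hu).2.2 rfl
  have h2 := card_rows u
  have h3 := row_sw u true
  rw [h] at h3
  rw [card_Lq hu, h3, Bool.not_true] at h2
  rw [h3, Bool.not_true, show M / 2 = #(row u false) by omega, ← two_mul, pow_mul] at h1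
  exact Units.ext (by simpa only [_root_.Units.val_one, _root_.Units.val_eq_one, _root_.Int.reduceNeg, _root_.even_two, _root_.Even.neg_pow, _root_.one_pow] using h1)

theorem sum_De (ho : Ok κ M #T) (hu : u ∈ Lq κ ε M #T) (h : Dg κ #T u) (f : SG n → ℂ) :
    ∑ g ∈ Om κ ε T, De M T u g * f g = ∑ g : SG n with g ∈ On T, De M T u g * f g := by
  obtain rfl := eps_one ho hu h
  obtain rfl := h.1
  refine sum_subset (fun g hg => mem_filter.2 ⟨mem_univ _, (mem_Om.1 hg).1⟩) fun g hg hg' =>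
    mul_eq_zero_of_left (by_contra fun e => hg' ?_) _
  exact mem_Om.2 ⟨(mem_filter.1 hg).2, fun _ => De_sgn (mem_filter.1 hg).2 (Int.cast_ne_zero.1 e)⟩

theorem sum_De_sty (hA : BAn) (ho : Ok κ M #T) (hu : u ∈ Lq κ ε M #T) (h : Dg κ #T u) (F : Multiset Cy → ℂ) :
    ∑ g ∈ Om κ ε T, De M T u g * F (sty T g) = 0 := by
  obtain ⟨x, hx⟩ := card_pos.1 h.2.1
  have h1 : tt x ∈ On T := Cas.tt_on hx
  have h2 : sgn (tt x) = -1 := by rw [sgn_on h1, Cas.prod_tt, if_pos hx]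
  rw [sum_De ho hu h, ← CharZero.eq_neg_self_iff, ← sum_neg_distrib]
  refine (sum_equiv (MulAut.conj (tt x)).toEquiv (fun g => ?_) fun g hg => ?_).symm
  · simp only [mem_filter, mem_univ, true_and, MulEquiv.toEquiv_eq_coe, EquivLike.coe_coe, MulAut.conj_apply]
    rw [Subgroup.mul_mem_cancel_right _ (inv_mem h1), Subgroup.mul_mem_cancel_left _ h1]
  · simp only [MulEquiv.toEquiv_eq_coe, EquivLike.coe_coe, MulAut.conj_apply]
    rw [hA.anti M T u g _ (LV.Cl.Cj.stab_on (mem_filter.1 hg).2) h1, sty_conj' (LV.Cl.Cj.stab_on h1), h2]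
    simp

theorem sum_De_De (hA : BAn) (ho : Ok κ M #T) (hu : u ∈ Lq κ ε M #T) (hv : v ∈ Lq κ ε M #T) (h : Dg κ #T u) (h' : Dg κ #T v) :
    ∑ g ∈ Om κ ε T, (De M T u g : ℂ) * De M T v g = if u = v then (Nat.card (Gp κ T) : ℂ) else 0 := by
  rw [sum_De ho hu h]
  obtain rfl := h.1
  have h1 := congrArg (Int.cast : ℤ → ℂ) (hA.on M T ho u (mem_Lq.1 hu).1 v (mem_Lq.1 hv).1 h.2.2 h'.2.2)
  push_cast at h1
  exact h1

/-- the coefficient of `Y` -/
noncomputable def cz (κ : Kn) (k : ℕ) (u : Finset Pt) : ℂ := if Dg κ k u then 1 / 2 else 1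

/-- the coefficient of `De` -/
noncomputable def dz (κ : Kn) (k : ℕ) (a : Lb) : ℂ := if Dg κ k a.1 then (if a.2 then 1 else -1) / 2 else 0

theorem Z_eq : Z κ M T a g = cz κ #T a.1 * Y κ M T a.1 g + dz κ #T a * De M T a.1 g := by
  unfold Z cz dz
  split_ifs <;> ring

theorem sum_Z_sty (hA : BAn) (ho : Ok κ M #T) (ha : a ∈ LB κ ε M #T) (F : Multiset Cy → ℂ) :
    ∑ g ∈ Om κ ε T, Z κ M T a g * F (sty T g) = cz κ #T a.1 * ∑ g ∈ Om κ ε T, Y κ M T a.1 g * F (sty T g) := by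
  simp only [Z_eq, add_mul, sum_add_distrib, mul_assoc, ← mul_sum]
  refine add_eq_left.2 ?_
  by_cases h : Dg κ #T a.1
  · rw [sum_De_sty hA ho (mem_LB.1 ha).1 h, mul_zero]
  · rw [dz, if_neg h, zero_mul]

theorem sum_Z_Z (hA : BAn) (ho : Ok κ M #T) (ha : a ∈ LB κ ε M #T) (ha' : a' ∈ LB κ ε M #T) :
    ∑ g ∈ Om κ ε T, Z κ M T a g * Z κ M T a' g = Nat.card (Gp κ T) * (cz κ #T a.1 * cz κ #T a'.1 *
      ip κ T (fun g => Y κ M T a.1 g) (fun g => Y κ M T a'.1 g) + if a.1 = a'.1 then dz κ #T a * dz κ #T a' else 0) := by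
  have h1 := sum_Z_sty hA ho ha fun s => YK κ M s a'.1
  have h2 : dz κ #T a' * ∑ g ∈ Om κ ε T, Z κ M T a g * De M T a'.1 g =
      Nat.card (Gp κ T) * if a.1 = a'.1 then dz κ #T a * dz κ #T a' else 0 := by
    by_cases h : Dg κ #T a'.1
    swap
    · simp only [dz, if_neg h, _root_.MulZeroClass.zero_mul, _root_.Nat.card_eq_fintype_card, _root_.MulZeroClass.mul_zero, _root_.ite_self]
    have h3 := sum_De_sty hA ho (mem_LB.1 ha').1 h fun s => YK κ M s a.1
    simp only [mul_comm (De M T a'.1 _ : ℂ)] at h3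
    simp only [Z_eq, add_mul, sum_add_distrib, mul_assoc, ← mul_sum]
    rw [show ∑ g ∈ Om κ ε T, (Y κ M T a.1 g : ℂ) * De M T a'.1 g = 0 from h3, mul_zero, zero_add]
    by_cases h' : Dg κ #T a.1
    · rw [sum_De_De hA ho (mem_LB.1 ha).1 (mem_LB.1 ha').1 h' h]
      split_ifs <;> ring
    · simp only [dz, if_neg h', _root_.MulZeroClass.zero_mul, _root_.MulZeroClass.mul_zero, _root_.Nat.card_eq_fintype_card, _root_.mul_ite, _root_.ite_self]
  rw [mul_add, ← h2, mul_left_comm, ← sum_Y ho (mem_LB.1 ha).1, mul_right_comm, mul_comm _ (cz κ #T a'.1)]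
  rw [show cz κ #T a.1 * ∑ g ∈ Om κ ε T, (Y κ M T a.1 g : ℂ) * Y κ M T a'.1 g = _ from h1.symm, mul_sum, mul_sum,
    ← sum_add_distrib]
  refine sum_congr rfl fun g _ => ?_
  rw [Z_eq (a := a'), Y]
  ring

/-! ### the counting functional -/

theorem ne_U (hκ : κ = .B ∨ κ = .D) : κ ≠ .U := by rcases hκ with rfl | rfl <;> exact nofun

theorem cntY (ho : Ok κ M #T) (hu : u ∈ Lq κ ε M #T) : ∃ F : Multiset Cy → ℂ, ∀ v ∈ Lq κ ε M #T, cl v = cl u →
    ∑ g ∈ Om κ ε T, Y κ M T v g * F (sty T g) = if zz κ v = zz κ u then 1 else 0 := by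
  have h0 := card_Gp_ne κ T
  have h1 := (mem_Lq.1 hu).1
  rcases kn_cases κ with hκ | hκ
  · refine ⟨fun s => (Nat.card (Gp κ T) : ℂ)⁻¹ * YK κ M s u, fun v hv hc => ?_⟩
    simp only [mul_left_comm _ (Nat.card (Gp κ T) : ℂ)⁻¹, ← mul_sum]
    rw [show ∑ g ∈ Om κ ε T, (Y κ M T v g : ℂ) * YK κ M (sty T g) u = _ from sum_Y ho hv fun g => Y κ M T u g,
      inv_mul_cancel_left₀ h0, bGram2.au κ M T v u hκ ho (mem_Lq.1 hv).1 h1]
    exact if_congr ⟨fun e => e ▸ rfl, eq_of_zz hκ (mem_Lq.1 hv).1 h1 hc⟩ rfl rfl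
  have h2 := sp_mem_LabX hκ h1
  have h3 : #(sp u) = M := (card_fam (sp_mem u)).trans (card_Lq hu)
  have h4 : ∀ v, v ∈ Fam (sp u) ↔ v ∈ Fam u := fun v => by rw [mem_Fam, mem_Fam, (sp_spec u).1, (sp_spec u).2.1]
  have h5 : ((cc M * rho M u (sp u) : ℤ) : ℂ) ≠ 0 := Int.cast_ne_zero.2 (mul_ne_zero (cc_ne M) fun e => by
    have := rho_sq h3 ((h4 u).2 (mem_Fam.2 ⟨rfl, rfl⟩))
    rw [e, zero_mul] at this
    exact pow_ne_zero _ four_ne_zero this.symm)
  refine ⟨fun s => (Nat.card (Gp κ T) : ℂ)⁻¹ * (((cc M * rho M u (sp u) : ℤ) : ℂ)⁻¹ * 2 ^ M) * XK κ M s (sp u),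
    fun v hv hc => ?_⟩
  simp only [mul_left_comm (Y κ M T v _ : ℂ), ← mul_sum]
  rw [show ∑ g ∈ Om κ ε T, (Y κ M T v g : ℂ) * XK κ M (sty T g) (sp u) = _ from sum_Y ho hv fun g => X κ M T (sp u) g,
    mul_mul_mul_comm, inv_mul_cancel₀ h0, one_mul, mul_assoc, ip_comm, ip_Y hκ,
    sum_congr rfl fun w hw => by rw [bXo κ M T _ w h2 hw]]
  simp only [mul_ite, mul_one, mul_zero, sum_ite_eq, if_pos h2]
  split_ifs with e
  · have h6 := fam_of_zz (ne_U hκ) ((card_Lq hu).trans (card_Lq hv).symm) e.symm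
    obtain ⟨h7, h8⟩ := mem_Fam.1 h6
    have h9 : #(low v) = #(low u) := by
      unfold cl at hc
      rw [card_row_true, card_row_true, h7] at hc
      exact Nat.add_left_cancel hc
    have h10 := rho_sp (card_Lq hv)
    rw [sp_congr h6, h7, h8, h9, ← rho_sp (card_Lq hu)] at h10
    rw [h10, inv_mul_cancel₀ h5]
  · rw [by_contra fun e' : rho M v (sp u) ≠ 0 => e (zz_fam (ne_U hκ) ((h4 v).1 (rho_fam (card_Lq hv) h3 e'))), mul_zero,
      Int.cast_zero, mul_zero]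

theorem Dg_zz (hu : u ∈ Lq κ ε M k) (hv : v ∈ Lq κ ε M k) (h : zz κ u = zz κ v) : Dg κ k v ↔ Dg κ k u := by
  by_cases hκ : κ = .D
  · exact Dg_fam (fam_of_zz (ne_U (Or.inr hκ)) ((card_Lq hu).trans (card_Lq hv).symm) h)
  · exact iff_of_false (fun e => hκ e.1) fun e => hκ e.1

/-! ### the Gram matrix -/

theorem kr_lt {Z I : Finset ℕ} (h : I ⊆ Z) (h1 : I ≠ ∅) (h2 : I ≠ Z) : |kr Z I| < (#Z).choose (#Z / 2) := by
  have h3 := bKr.le Z I h h1 h2
  have h4 : (0 : ℤ) < (#Z).choose (#Z / 2) := Nat.cast_pos.2 (Nat.choose_pos (Nat.div_le_self _ _))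
  generalize (#Z - 1) / 2 = m at h3
  push_cast at h3
  by_contra e
  have h5 : (0 : ℤ) ≤ m := Nat.cast_nonneg m
  nlinarith only [h4, h3, e]

theorem symm_ne (hκ : κ = .B ∨ κ = .D) (hu : Can κ u) (hv : Can κ v) (h : v ∈ Fam u) (e : symmDiff (low u) (low v) = sing u) :
    sing u = ∅ := by
  obtain ⟨h1, h2⟩ := mem_Fam.1 h
  have h3 : v = sw' u := ext_row fun x => by
    have a1 := Finset.ext_iff.1 h1 x
    have a2 := Finset.ext_iff.1 h2 x
    have a3 := Finset.ext_iff.1 e x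
    simp only [mem_dbl, mem_sing, mem_symmDiff, mem_low] at a1 a2 a3
    simp only [mem_sw, Bool.not_true, Bool.not_false]
    by_cases b1 : (x, false) ∈ u <;> by_cases b2 : (x, true) ∈ u <;> by_cases b3 : (x, false) ∈ v <;>
      by_cases b4 : (x, true) ∈ v <;> simp_all
  have h4 := hv hκ
  rw [h3, row_sw, row_sw] at h4
  rw [sing, show row u false = row u true from k2_inj (le_antisymm h4 (hu hκ)), symmDiff_self, bot_eq_empty]

theorem ip_self (ho : Ok κ M #T) (hu : u ∈ Lab κ M #T) : ∃ c : ℕ, 0 < c ∧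
    ip κ T (fun g => Y κ M T u g) (fun g => Y κ M T u g) = c / 4 ^ (if κ = .A ∨ κ = .U then 0 else #(sing u) / 2) ∧
      (κ = .B ∨ κ = .D → c = (#(sing u)).choose (#(sing u) / 2)) := by
  rcases kn_cases κ with hκ | hκ
  · refine ⟨1, one_pos, by rw [bGram2.au κ M T u u hκ ho hu hu, if_pos rfl, if_pos hκ]; simp, fun h => ?_⟩
    rcases hκ with rfl | rfl <;> simp at h
  · refine ⟨_, Nat.choose_pos (Nat.div_le_self _ _), ?_, fun _ => rfl⟩
    rw [bGram2.bd κ M T u u hκ ho hu hu, if_pos ⟨rfl, rfl⟩, eu_sq, one_mul, symmDiff_self, bot_eq_empty, bKr.top, Int.cast_natCast,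
      if_neg (by rcases hκ with rfl | rfl <;> simp)]

theorem norm_ne (ho : Ok κ M #T) (ha : a ∈ LB κ ε M #T) : cz κ #T a.1 * cz κ #T a.1 *
    ip κ T (fun g => Y κ M T a.1 g) (fun g => Y κ M T a.1 g) + dz κ #T a * dz κ #T a ≠ 0 := by
  obtain ⟨c, h1, h2, h3⟩ := ip_self ho (mem_Lq.1 (mem_LB.1 ha).1).1
  rw [h2, cz, dz]
  by_cases h : Dg κ #T a.1
  · rw [h3 (Or.inr h.1), sw_iff.1 h.2.2, if_pos h, if_pos h]
    split_ifs <;> norm_num
  · rw [if_neg h, if_neg h, one_mul, one_mul, zero_mul, add_zero]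
    exact div_ne_zero (Nat.cast_ne_zero.2 h1.ne') (pow_ne_zero _ (by norm_num))

theorem ip_zero (ho : Ok κ M #T) (hu : u ∈ Lab κ M #T) (hv : v ∈ Lab κ M #T) (h : u ≠ v) (h' : κ = .B ∨ κ = .D → v ∉ Fam u) :
    ip κ T (fun g => Y κ M T u g) (fun g => Y κ M T v g) = 0 := by
  rcases kn_cases κ with hκ | hκ
  · rw [bGram2.au κ M T u v hκ ho hu hv, if_neg h]
  · rw [bGram2.bd κ M T u v hκ ho hu hv, if_neg fun e => h' hκ (mem_Fam.2 ⟨e.1.symm, e.2.symm⟩)]

theorem inj (hA : BAn) (ho : Ok κ M #T) (ha : a ∈ LB κ ε M #T) (ha' : a' ∈ LB κ ε M #T) {c : ℂ}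
    (h : ∀ g ∈ Om κ ε T, Z κ M T a g = c * Z κ M T a' g) : a = a' := by
  have h1 : ∑ g ∈ Om κ ε T, Z κ M T a g * Z κ M T a g = c * ∑ g ∈ Om κ ε T, Z κ M T a g * Z κ M T a' g := by
    rw [mul_sum]
    exact sum_congr rfl fun g hg => by rw [mul_left_comm, ← h g hg]
  have h2 : ∑ g ∈ Om κ ε T, Z κ M T a g * Z κ M T a' g = c * ∑ g ∈ Om κ ε T, Z κ M T a' g * Z κ M T a' g := by
    rw [mul_sum]
    exact sum_congr rfl fun g hg => by rw [← mul_assoc, ← h g hg]
  rw [sum_Z_Z hA ho ha ha, sum_Z_Z hA ho ha ha', mul_left_comm, mul_right_inj' (card_Gp_ne κ T), if_pos rfl] at h1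
  rw [sum_Z_Z hA ho ha ha', sum_Z_Z hA ho ha' ha', mul_left_comm, mul_right_inj' (card_Gp_ne κ T), if_pos rfl] at h2
  have h3 := norm_ne ho ha
  obtain ⟨⟨u, b⟩, ⟨v, b'⟩⟩ := a, a'
  obtain ⟨hu, hb⟩ := mem_LB.1 ha
  obtain ⟨hv, hb'⟩ := mem_LB.1 ha'
  dsimp only at *
  by_contra hne
  by_cases e : u = v
  · subst e
    have h4 : Dg κ #T u := by
      cases b <;> cases b'
      exacts [absurd rfl hne, hb' rfl, hb rfl, absurd rfl hne]
    obtain ⟨d, -, h5, h6⟩ := ip_self ho (mem_Lq.1 hu).1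
    refine h3 (h1.trans (mul_eq_zero_of_right _ ?_))
    rw [h5, h6 (Or.inr h4.1), sw_iff.1 h4.2.2, if_pos rfl, cz, dz, dz, if_pos h4, if_pos h4, if_pos h4]
    cases b <;> cases b'
    · exact absurd rfl hne
    · norm_num
    · norm_num
    · exact absurd rfl hne
  rw [if_neg e, add_zero] at h1 h2
  by_cases e' : (κ = .B ∨ κ = .D) ∧ v ∈ Fam u
  swap
  · rw [ip_zero ho (mem_Lq.1 hu).1 (mem_Lq.1 hv).1 e fun hκ hf => e' ⟨hκ, hf⟩, mul_zero, mul_zero] at h1
    exact h3 h1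
  obtain ⟨hκ, hf⟩ := e'
  obtain ⟨f1, f2⟩ := mem_Fam.1 hf
  have h4 : sing u ≠ ∅ := fun e' => e (eq_of_sing hf e')
  have h5 : ¬ Dg κ #T u := fun e' => h4 (sw_iff.1 e'.2.2)
  have h6 : ¬ Dg κ #T v := fun e' => h5 ((Dg_fam hf).1 e')
  have h7 := kr_lt (Z := sing u) (I := symmDiff (low u) (low v))
    (symmDiff_subset_union.trans (union_subset (low_subset u) (f2 ▸ low_subset v)))
    (fun e' => e (eq_of_low f1.symm f2.symm (symmDiff_eq_bot.1 e')))
    fun e' => h4 (symm_ne hκ (mem_Lq.1 hu).2.1 (mem_Lq.1 hv).2.1 hf e')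
  simp only [cz, dz, if_neg h5, if_neg h6, one_mul, mul_zero, add_zero, bGram2.bd κ M T _ _ hκ ho (mem_Lq.1 hu).1 (mem_Lq.1 hu).1,
    bGram2.bd κ M T _ _ hκ ho (mem_Lq.1 hu).1 (mem_Lq.1 hv).1, bGram2.bd κ M T _ _ hκ ho (mem_Lq.1 hv).1 (mem_Lq.1 hv).1, f1, f2,
    and_self, if_true, eu_sq, symmDiff_self, bot_eq_empty, bKr.top, ← mul_div_assoc,
    div_left_inj' (pow_ne_zero _ (show (4 : ℂ) ≠ 0 by norm_num))] at h1 h2
  have h8 : (((#(sing u)).choose (#(sing u) / 2) : ℤ) : ℂ) * ((#(sing u)).choose (#(sing u) / 2) : ℤ) =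
      (eu u * eu v * kr (sing u) (symmDiff (low u) (low v)) : ℤ) * (eu u * eu v * kr (sing u) (symmDiff (low u) (low v)) : ℤ) := by
    linear_combination ((((#(sing u)).choose (#(sing u) / 2) : ℤ) : ℂ)) * h1 -
      ((eu u * eu v * kr (sing u) (symmDiff (low u) (low v)) : ℤ) : ℂ) * h2
  rw [← Int.cast_mul, ← Int.cast_mul, Int.cast_inj, mul_mul_mul_comm, mul_mul_mul_comm (eu u), eu_sq, eu_sq, one_mul, one_mul,
    ← abs_mul_abs_self (kr _ _)] at h8
  nlinarith only [h7, h8, abs_nonneg (kr (sing u) (symmDiff (low u) (low v)))]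

end Fm

open Fm in
/-- **families** -/
theorem bFm (hP : BPo) (hA : BAn) (hZ : BZ) : BFm where
  orth κ ε M _ T ho a ha a' ha' h := by
    have e : a.1 ≠ a'.1 := fun e => h (e ▸ rfl)
    rw [sum_Z_Z hA ho.1 ha ha', if_neg e, ip_zero ho.1 (mem_Lq.1 (mem_LB.1 ha).1).1 (mem_Lq.1 (mem_LB.1 ha').1).1 e
      fun hκ hf => h (zz_fam (ne_U hκ) hf).symm, mul_zero, add_zero, mul_zero]
  inj κ ε M _ T ho a ha a' ha' c h := inj hA ho.1 ha ha' h
  cnt κ ε M _ T ho u hu := by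
    obtain ⟨F, hF⟩ := cntY ho.1 hu
    refine ⟨fun g => F (sty T g), fun a ha hc => ?_⟩
    rw [sum_Z_sty hA ho.1 ha, hF _ (mem_LB.1 ha).1 hc, mul_ite, mul_one, mul_zero]
    exact if_ctx_congr Iff.rfl (fun e => if_congr (Dg_zz (mem_LB.1 ha).1 hu e).symm rfl rfl) fun _ => rfl
  resne κ ε M _ T' T hs a ha hr := by
    obtain ⟨v, hv, hc⟩ := (hP.down κ ε M #T' a.1 (hs.card ▸ hs.ok) (hs.card ▸ (mem_LB.1 ha).1)).1 hr
    obtain ⟨F, hF⟩ := cntY (Pars.ok_le hs.ok (card_le_card hs.sub)) hv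
    by_contra e
    have h1 : ∑ g ∈ Om κ ε T', Z κ M T a (bo κ (T \ T') * g) * F (sty T' g) = 0 :=
      sum_eq_zero fun g hg => mul_eq_zero_of_left (by_contra fun e' => e ⟨g, hg, e'⟩) _
    rw [sum_congr rfl fun g hg => by rw [hZ.res κ ε M T' T hs a ha g hg, sum_mul], sum_comm, sum_congr rfl fun w hw =>
      hF w (mem_filter.1 hw).1 ((cl_cv (mem_LB.1 ha).1 (mem_filter.1 hw).1 (mem_filter.1 hw).2).trans
        (cl_cv (mem_LB.1 ha).1 hv hc).symm), sum_boole, Nat.cast_eq_zero, card_eq_zero] at h1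
    exact notMem_empty v (h1 ▸ mem_filter.2 ⟨mem_filter.2 ⟨hv, hc⟩, rfl⟩)
  dg κ ε M k u hu v hv h hd :=
    eq_of_sing (fam_of_zz (ne_U (Or.inr hd.1)) ((card_Lq hu).trans (card_Lq hv).symm) h) (sw_iff.1 hd.2.2)

end Cfsg.Agent.MO.UD
end

-- part: MO/UD/Po
section
/-!
# MO/UD: the combinatorial axioms of the labels of one block (helper90)

* `zz_bx`, `lab_bx`, `lev_zz`, `exists_can`, `can_ext` : boxes, levels, the order of the rows;
* `oc`, `sv` : occupation and sign vector of a label; `Cw`, `Rel`, `key` : two labels over the same lower label;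
* `bPo : BPo`.
-/

set_option autoImplicit false

namespace Cfsg.Agent.MO.UD

open Finset Classical Cfsg.Agent.MO.J

namespace PoP

variable {κ : Kn} {ε : ℤˣ} {M k : ℕ} {u v w a c : Finset Pt} {x : Pt} {t p : ℕ} {b : Bool}

/-! ### boxes -/

theorem mem_rem : x ∈ rem u ↔ x ∈ u ∧ 0 < x.1 ∧ (x.1 - 1, x.2) ∉ u := mem_filter

theorem mem_bx {z : Pt} : z ∈ bx u x ↔ z = (x.1 - 1, x.2) ∨ (z ≠ x ∧ z ∈ u) := by simp [bx, rp]

theorem sum_bx {A : Type*} [AddCommMonoid A] (hx : x ∈ rem u) (f : Pt → A) :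
    ∑ z ∈ bx u x, f z = f (x.1 - 1, x.2) + ∑ z ∈ u.erase x, f z :=
  sum_insert fun h => (mem_rem.1 hx).2.2 (mem_of_mem_erase h)

theorem zz_bx (κ : Kn) (hx : x ∈ rem u) : zz κ u = (x.1 - 1, if κ = .U then x.2 else false) ::ₘ zz κ (bx u x) := by
  obtain ⟨h1, h2, -⟩ := mem_rem.1 hx
  obtain ⟨q, d⟩ := x
  obtain ⟨q, rfl⟩ : ∃ r, q = r + 1 := ⟨q - 1, by simp at h2; omega⟩
  rw [zz, zz, sum_bx hx, ← add_sum_erase _ _ h1, ← Multiset.cons_add]
  simp only [range_val, Multiset.range_succ, Bool.if_false_right, Multiset.map_cons, Multiset.cons_add, add_tsub_cancel_right]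

theorem card_row_eq (u : Finset Pt) (b : Bool) : #(row u b) = ∑ z ∈ u, if z.2 = b then 1 else 0 := by
  simpa using card_row u b fun _ => True

theorem row_bx (hx : x ∈ rem u) (b : Bool) : #(row (bx u x) b) = #(row u b) := by
  rw [card_row_eq, card_row_eq, sum_bx hx, ← add_sum_erase _ _ (mem_rem.1 hx).1]

theorem card_bx (hx : x ∈ rem u) : #(bx u x) = #u := by rw [card_rows, card_rows u, row_bx hx, row_bx hx]

theorem ps_bx (κ : Kn) (hx : x ∈ rem u) : ∑ z ∈ bx u x, ps κ z + st κ = ∑ z ∈ u, ps κ z := by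
  have h := (mem_rem.1 hx).2.1
  rw [sum_bx hx, ← add_sum_erase _ _ (mem_rem.1 hx).1]
  cases κ <;> simp only [ps, st] <;> (clear * - h; omega)

theorem rowA_bx (hx : x ∈ rem u) (h : ∀ z ∈ u, z.2 = false) : ∀ z ∈ bx u x, z.2 = false := fun z hz => by
  rcases mem_bx.1 hz with rfl | h1
  · exact h x (mem_rem.1 hx).1
  · exact h z h1.2

theorem lab_bx (h : u ∈ Lab κ M (k + st κ)) (hx : x ∈ rem u) : bx u x ∈ Lab κ M k := by
  obtain ⟨h1, h2, h3⟩ := mem_Lab.1 h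
  have h4 := ps_bx κ hx
  exact mem_Lab.2 ⟨(card_bx hx).trans h1, by omega, fun e => rowA_bx hx (h3 e)⟩

theorem st_le (h : u ∈ Lab κ M k) (hx : x ∈ rem u) : st κ ≤ k := by
  obtain ⟨h1, h2, h3⟩ := mem_Lab.1 h
  have h4 := ps_bx κ hx
  have h5 := Cu.bs_le (κ := κ) ((card_bx hx).trans h1) fun e => rowA_bx hx (h3 e)
  omega

/-! ### the exchange of the rows -/

theorem mem_sw : (p, b) ∈ sw' u ↔ (p, !b) ∈ u := by
  simp only [sw', mem_image, Prod.mk.injEq]
  refine ⟨?_, fun h => ⟨_, h, rfl, Bool.not_not b⟩⟩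
  rintro ⟨z, h, rfl, rfl⟩
  rwa [Bool.not_not]

theorem sw_sw (u : Finset Pt) : sw' (sw' u) = u := by
  ext ⟨p, b⟩
  rw [mem_sw, mem_sw, Bool.not_not]

theorem row_sw (u : Finset Pt) (b : Bool) : row (sw' u) b = row u (!b) := by
  ext p
  rw [mem_row, mem_row, mem_sw]

theorem sum_sw {A : Type*} [AddCommMonoid A] (u : Finset Pt) (f : Pt → A) : ∑ z ∈ sw' u, f z = ∑ z ∈ u, f (z.1, !z.2) :=
  sum_image fun _ _ _ _ e => Prod.ext (Prod.mk.inj e).1 (Bool.not_inj (Prod.mk.inj e).2)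

theorem ne_U (hκ : κ = .B ∨ κ = .D) : κ ≠ .U := by rcases hκ with rfl | rfl <;> decide

theorem zz_sw (hκ : κ = .B ∨ κ = .D) (u : Finset Pt) : zz κ (sw' u) = zz κ u := by
  simp only [zz, sum_sw, if_neg (ne_U hκ)]

theorem lab_sw (hκ : κ = .B ∨ κ = .D) (h : u ∈ Lab κ M k) : sw' u ∈ Lab κ M k := by
  obtain ⟨h1, h2, -⟩ := mem_Lab.1 h
  refine mem_Lab.2 ⟨?_, ?_, by rcases hκ with rfl | rfl <;> simp only [reduceCtorEq, Prod.forall, Bool.forall_bool, implies_true, Bool.true_eq_false, imp_false, true_and, IsEmpty.forall_iff]⟩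
  · rw [card_rows, row_sw, row_sw, add_comm, ← h1, card_rows u]
    rfl
  · rw [← h2, sum_sw]
    rcases hκ with rfl | rfl <;> rfl

theorem k2_inj {S S' : Finset ℕ} (h : k2 S = k2 S') : S = S' :=
  geomSum_injective le_rfl (congrArg Prod.snd (toLex.injective h))

theorem can_ext (hκ : κ = .B ∨ κ = .D) (h : Can κ u) (h' : Can κ (sw' u)) : sw' u = u := by
  have h1 := h' hκ
  rw [row_sw, row_sw] at h1
  have h2 := k2_inj (le_antisymm (h hκ) h1)
  refine ext_row fun q => ?_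
  rw [mem_sw, mem_sw, ← mem_row, ← mem_row, ← mem_row, ← mem_row, Bool.not_false, Bool.not_true, h2]
  exact ⟨Iff.rfl, Iff.rfl⟩

theorem can_le (hκ : κ = .B ∨ κ = .D) (h : Can κ u) : #(row u true) ≤ #(row u false) := by
  rcases Prod.Lex.toLex_le_toLex.1 (h hκ) with h1 | h1
  · exact le_of_lt h1
  · exact le_of_eq h1.1

theorem mem_Lq : u ∈ Lq κ ε M k ↔ u ∈ Lab κ M k ∧ Can κ u ∧ (κ = .D → (ε : ℤ) = (-1) ^ (#(row u true) + M / 2)) := mem_filter

theorem mem_LB {z : Lb} : z ∈ LB κ ε M k ↔ z.1 ∈ Lq κ ε M k ∧ (z.2 = true → Dg κ k z.1) := by simp only [LB, Fintype.univ_bool, mem_filter, mem_product, mem_insert, mem_singleton, Bool.eq_true_or_eq_false_self, and_true]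

theorem card_Lq (h : u ∈ Lq κ ε M k) : #u = M := (mem_Lab.1 (mem_Lq.1 h).1).1

/-- a box gives a lower neighbour -/
theorem exists_can (hk : Ok κ M (k + st κ)) (h : u ∈ Lq κ ε M (k + st κ)) (hx : x ∈ rem u) :
    ∃ v ∈ Lq κ ε M k, bx u x = v ∨ ((κ = .B ∨ κ = .D) ∧ bx u x = sw' v) := by
  obtain ⟨h1, -, h3⟩ := mem_Lq.1 h
  by_cases hc : Can κ (bx u x)
  · exact ⟨_, mem_Lq.2 ⟨lab_bx h1 hx, hc, by rwa [row_bx hx]⟩, .inl rfl⟩
  have hκ : κ = .B ∨ κ = .D := by_contra fun e => hc fun e' => absurd e' e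
  refine ⟨sw' (bx u x), mem_Lq.2 ⟨lab_sw hκ (lab_bx h1 hx), fun _ => ?_, ?_⟩, .inr ⟨hκ, (sw_sw _).symm⟩⟩
  · rw [row_sw, row_sw]
    exact le_of_not_ge fun e => hc fun _ => e
  · rintro rfl
    have h4 := card_rows u
    have h5 : M % 2 = 0 := hk.1
    rw [card_Lq h] at h4
    rw [h3 rfl, row_sw, row_bx hx, neg_one_pow_eq_pow_mod_two, neg_one_pow_eq_pow_mod_two (n := #(row u (!true)) + M / 2)]
    (with_reducible congr 1)
    simp only [Bool.not_true]
    (clear * - h4 h5; (solve | lia | omega))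

theorem cv_zz (h : cv κ v u) : ∃ x, zz κ u = x ::ₘ zz κ v := by
  obtain ⟨x, hx, rfl | ⟨hκ, e⟩⟩ := h
  · exact ⟨_, zz_bx κ hx⟩
  · exact ⟨_, by rw [zz_bx κ hx, e, zz_sw hκ]⟩

theorem cv_cl (hv : Can κ v) (hu : Can κ u) (h : cv κ v u) : cl v = cl u := by
  obtain ⟨x, hx, rfl | ⟨hκ, e⟩⟩ := h
  · exact row_bx hx true
  · have h1 := row_bx hx true
    have h2 := row_bx hx false
    have h3 := can_le hκ hv
    have h4 := can_le hκ hu
    rw [e, row_sw] at h1 h2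
    simp only [Bool.not_true, Bool.not_false] at h1 h2
    unfold cl
    omega

/-! ### levels -/

/-- the level of a box -/
def wl (κ : Kn) (x : Pt) : ℤ := if κ = .U then 8 * x.1 + 4 * x.2.toNat + 4 else 2 * x.1 + 1

example := And.intro @wl.eq_def @wl.eq_1

theorem sum_wl (κ : Kn) (p : ℕ) (b : Bool) : ∑ q ∈ range p, wl κ (q, if κ = .U then b else false) +
    (if κ = .U then if b = true then 1 else 0 else 0) = (ps κ (p, b) : ℤ) ^ 2 := by
  induction p with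
  | zero => cases κ <;> cases b <;> simp only [range_zero, reduceCtorEq, ↓reduceIte, sum_empty, add_zero, ps, CharP.cast_eq_zero, ne_eq, OfNat.ofNat_ne_zero, not_false_eq_true, zero_pow, Bool.false_eq_true, mul_zero, Bool.toNat_false, zero_add, Bool.toNat_true, Nat.cast_one, one_pow]
  | succ p ih =>
    rw [sum_range_succ, add_right_comm, ih]
    cases κ <;> cases b <;> simp only [ps, wl, reduceCtorEq, ↓reduceIte, Nat.cast_add, Nat.cast_one, Bool.toNat_false, add_zero, Nat.cast_mul, Nat.cast_ofNat, CharP.cast_eq_zero, mul_zero, Bool.toNat_true, mul_one] <;> ring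

theorem lev_zz (κ : Kn) (u : Finset Pt) : lev κ u = ((zz κ u).map (wl κ)).sum + if κ = .U then (cl u : ℤ) else 0 := by
  have h : (if κ = .U then (cl u : ℤ) else 0) = ∑ z ∈ u, if κ = .U then if z.2 = true then 1 else 0 else 0 := by
    split_ifs
    · simp only [cl, card_row_eq, sum_boole, Nat.cast_id]
    · simp
  rw [h, zz, ← Multiset.coe_mapAddMonoidHom, map_sum, ← Multiset.coe_sumAddMonoidHom, map_sum, ← sum_add_distrib]
  refine sum_congr rfl fun z _ => ?_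
  rw [← sum_wl κ z.1 z.2]
  simp only [Multiset.coe_sumAddMonoidHom, Multiset.coe_mapAddMonoidHom, Multiset.map_map]
  rfl

theorem levz (h : zz κ u = zz κ v) (h' : cl u = cl v) : lev κ u = lev κ v := by rw [lev_zz, lev_zz, h, h']

theorem zz_row (hκ : κ ≠ .U) (h : x ∈ zz κ u) : x.2 = false := by
  simp only [zz, Multiset.mem_sum, Multiset.mem_map, if_neg hκ] at h
  obtain ⟨_, _, _, _, rfl⟩ := h
  rfl

theorem lev_inj {s : Multiset Pt} {x' : Pt} (h : zz κ u = x ::ₘ s) (h' : zz κ v = x' ::ₘ s) (hc : cl u = cl v)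
    (hl : lev κ u = lev κ v) : x = x' := by
  rw [lev_zz, lev_zz, h, h', hc, Multiset.map_cons, Multiset.map_cons, Multiset.sum_cons, Multiset.sum_cons] at hl
  have h1 : wl κ x = wl κ x' := by omega
  obtain ⟨q, d⟩ := x
  obtain ⟨q', d'⟩ := x'
  by_cases hκ : κ = .U
  · simp only [wl, if_pos hκ] at h1
    cases d <;> cases d' <;> simp only [Bool.toNat_false, CharP.cast_eq_zero, mul_zero, add_zero, add_left_inj, mul_eq_mul_left_iff, Nat.cast_inj, OfNat.ofNat_ne_zero, or_false, Prod.mk.injEq, and_true, Bool.toNat_true, Nat.cast_one, mul_one, Bool.false_eq_true, and_false, Bool.true_eq_false] at h1 ⊢ <;> (clear * - h1; omega)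
  · have h2 := zz_row hκ (h ▸ Multiset.mem_cons_self _ _)
    have h3 := zz_row hκ (h' ▸ Multiset.mem_cons_self _ _)
    simp only [wl, if_neg hκ] at h1 h2 h3
    rw [h2, h3, show q = q' by omega]

/-- two labels of the same level over the same label lie in the same family -/
theorem zz_eq (hv : Can κ v) (ha : Can κ a) (hc : Can κ c) (h : cv κ v a) (h' : cv κ v c) (hl : lev κ a = lev κ c) :
    zz κ a = zz κ c := by
  obtain ⟨x, e⟩ := cv_zz h
  obtain ⟨x', e'⟩ := cv_zz h'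
  rw [e, e', lev_inj e e' ((cv_cl hv ha h).symm.trans (cv_cl hv hc h')) hl]

/-! ### occupation numbers and sign vectors -/

/-- the indicator of a bead -/
def ch (u : Finset Pt) (p : ℕ) (b : Bool) : ℤ := if (p, b) ∈ u then 1 else 0

/-- the number of beads at a position -/
def oc (u : Finset Pt) (p : ℕ) : ℤ := ch u p false + ch u p true

/-- the sign vector -/
def sv (u : Finset Pt) (p : ℕ) : ℤ := ch u p false - ch u p true

/-- the move of a bead from `t + 1` to `t` -/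
def ev (t p : ℕ) : ℤ := (if p = t then 1 else 0) - if p = t + 1 then 1 else 0

example := And.intro @ch.eq_def @ch.eq_1
example := And.intro @oc.eq_def @oc.eq_1
example := And.intro @sv.eq_def @sv.eq_1
example := And.intro @ev.eq_def @ev.eq_1

theorem ch_01 (u : Finset Pt) (p : ℕ) (b : Bool) : ch u p b = 0 ∨ ch u p b = 1 := by
  unfold ch; split_ifs <;> simp

theorem ch_one : ch u p b = 1 ↔ (p, b) ∈ u := by
  unfold ch; split_ifs with h <;> simp [h]

theorem ext_ch (h : ∀ p b, ch u p b = ch v p b) : u = v := by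
  ext ⟨p, b⟩
  rw [← ch_one, ← ch_one, h]

theorem ch_sw (u : Finset Pt) (p : ℕ) (b : Bool) : ch (sw' u) p b = ch u p (!b) := by simp only [ch, mem_sw]

theorem ch_bx (hx : x ∈ rem u) (p : ℕ) (b : Bool) : ch (bx u x) p b = ch u p b + if x.2 = b then ev (x.1 - 1) p else 0 := by
  obtain ⟨h1, h2, h3⟩ := mem_rem.1 hx
  obtain ⟨q, d⟩ := x
  obtain ⟨q, rfl⟩ : ∃ r, q = r + 1 := ⟨q - 1, by simp at h2; omega⟩
  simp only [ch, mem_bx, ev, Nat.add_sub_cancel, ne_eq, Prod.mk.injEq] at h3 ⊢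
  by_cases e : d = b
  · subst e
    by_cases e1 : p = q
    · simp only [e1, and_self, Nat.left_eq_add, one_ne_zero, and_true, not_false_eq_true, h3, and_false, or_false, ↓reduceIte, sub_zero, zero_add]
    · by_cases e2 : p = q + 1 <;> simp only [e2, Nat.add_eq_left, one_ne_zero, and_true, Nat.add_left_cancel_iff, and_self, not_true_eq_false, h1, or_self, ↓reduceIte, zero_sub, Int.reduceNeg, add_neg_cancel, e1, not_false_eq_true, true_and, false_or, sub_self, add_zero]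
  · simp [e, Ne.symm e]

theorem count_zz (κ : Kn) (u : Finset Pt) (p : ℕ) (b : Bool) : (Multiset.count (p, b) (zz κ u) : ℤ) =
    ∑ z ∈ u, if p < z.1 ∧ (if κ = .U then z.2 else false) = b then 1 else 0 := by
  rw [zz, Multiset.count_sum', Nat.cast_sum]
  refine sum_congr rfl fun z _ => ?_
  rw [Multiset.count_eq_of_nodup ((range z.1).nodup.map fun _ _ e => (Prod.mk.inj e).1)]
  simp only [range_val, Bool.if_false_right, Multiset.mem_map, Multiset.mem_range, Prod.mk.injEq, ↓existsAndEq, true_and, Nat.cast_ite, Nat.cast_one, CharP.cast_eq_zero]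

theorem sum_ch (u : Finset Pt) (p : ℕ) (r : Bool → Bool) (b : Bool) : ∑ z ∈ u, (if z.1 = p ∧ r z.2 = b then 1 else 0) =
    (if r false = b then ch u p false else 0) + if r true = b then ch u p true else 0 := by
  rw [sum_row]
  congr 1 <;> split_ifs with h <;> simp only [h, and_true, sum_ite_eq', mem_row, ch, and_false, ↓reduceIte, sum_const_zero]

theorem zz_ch (h : zz κ u = zz κ v) (b : Bool) (h0 : ∑ z ∈ u, (if (if κ = .U then z.2 else false) = b then (1 : ℤ) else 0) =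
    ∑ z ∈ v, if (if κ = .U then z.2 else false) = b then 1 else 0) (p : ℕ) :
    ∑ z ∈ u, (if z.1 = p ∧ (if κ = .U then z.2 else false) = b then (1 : ℤ) else 0) =
      ∑ z ∈ v, if z.1 = p ∧ (if κ = .U then z.2 else false) = b then 1 else 0 := by
  have h1 : ∀ (u : Finset Pt) (p : ℕ), ∑ z ∈ u, (if z.1 = p ∧ (if κ = .U then z.2 else false) = b then (1 : ℤ) else 0) +
      Multiset.count (p, b) (zz κ u) = ∑ z ∈ u, if p ≤ z.1 ∧ (if κ = .U then z.2 else false) = b then 1 else 0 := fun u p => by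
    rw [count_zz, ← sum_add_distrib]
    refine sum_congr rfl fun z _ => ?_
    by_cases e : (if κ = .U then z.2 else false) = b
    · simp only [e, and_true]
      split_ifs <;> omega
    · simp only [e, and_false, if_false, add_zero]
  have h2 := h1 u p
  have h3 := h1 v p
  rw [← h] at h3
  cases p with
  | zero =>
    simp only [zero_le, true_and] at h2 h3
    omega
  | succ p =>
    have h4 := count_zz κ u p b
    have h5 := count_zz κ v p b
    rw [← h] at h5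
    simp only [Nat.succ_le_iff] at h2 h3
    omega

theorem zz_oc (hκ : κ ≠ .U) (h : zz κ u = zz κ v) (hc : #u = #v) (p : ℕ) : oc u p = oc v p := by
  have h1 := zz_ch h false (by simp [hκ, hc]) p
  rw [sum_ch _ p fun d => if κ = .U then d else false, sum_ch _ p fun d => if κ = .U then d else false] at h1
  simpa only [if_neg hκ, if_true, oc] using h1

/-- in the kinds `A` and `U` a family has one member in a series -/
theorem zz_inj (hκ : κ = .A ∨ κ = .U) {k' : ℕ} (hu : u ∈ Lab κ M k) (hv : v ∈ Lab κ M k') (h : zz κ u = zz κ v)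
    (hc : cl u = cl v) : u = v := by
  obtain ⟨h1, -, h2⟩ := mem_Lab.1 hu
  obtain ⟨h3, -, h4⟩ := mem_Lab.1 hv
  refine ext_ch fun p b => ?_
  rcases hκ with rfl | rfl
  · have h5 := zz_oc (by decide) h (h1.trans h3.symm) p
    have h6 : ch u p true = 0 := if_neg fun e => by simpa using h2 rfl _ e
    have h7 : ch v p true = 0 := if_neg fun e => by simpa using h4 rfl _ e
    unfold oc at h5
    cases b <;> omega
  · have h5 : #(row u b) = #(row v b) := by
      have h6 := card_rows u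
      have h7 := card_rows v
      unfold cl at hc
      cases b <;> omega
    rw [card_row_eq, card_row_eq] at h5
    have h6 := zz_ch h b (by exact_mod_cast h5) p
    rw [sum_ch _ p fun d => if Kn.U = .U then d else false, sum_ch _ p fun d => if Kn.U = .U then d else false] at h6
    cases b <;> simpa using h6

/-! ### the kinds `B` and `D` -/

/-- the two positions of a level -/
def Fl (t p : ℕ) : Prop := t ≤ p ∧ p ≤ t + 1

/-- single beads in different rows at the two positions of a level -/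
def Op (a : Finset Pt) (t : ℕ) : Prop := sv a t ≠ 0 ∧ sv a (t + 1) = - sv a t

/-- `c` arises from `a` by the change of the rows at the positions `F`, up to the exchange of the rows -/
def Rel (a c : Finset Pt) (F : ℕ → Prop) : Prop := (∀ p, oc c p = oc a p) ∧
  ((∀ p, (F p → sv c p = - sv a p) ∧ (¬ F p → sv c p = sv a p)) ∨ ∀ p, (F p → sv c p = sv a p) ∧ (¬ F p → sv c p = - sv a p))

/-- `v` lies under `a`, at the level `t`, in the row `σ` -/
def Cw (κ : Kn) (v a : Finset Pt) (t : ℕ) (σ : ℤ) : Prop := cv κ v a ∧ (∀ p, oc v p = oc a p + ev t p) ∧ (σ = 1 ∨ σ = -1) ∧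
  ((∀ p, sv v p = sv a p + σ * ev t p) ∨ ∀ p, sv v p = -(sv a p + σ * ev t p))

/-- a common upper neighbour of level `l` -/
def Adj (κ : Kn) (ε : ℤˣ) (M k : ℕ) (l : ℤ) (v w : Finset Pt) : Prop := ∃ c ∈ Lq κ ε M k, cv κ v c ∧ cv κ w c ∧ lev κ c = l

example := And.intro @Fl.eq_def @Fl.eq_1
example := And.intro @Op.eq_def @Op.eq_1
example := And.intro @Rel.eq_def @Rel.eq_1
example := And.intro @Cw.eq_def @Cw.eq_1
example := And.intro @Adj.eq_def @Adj.eq_1

variable {F G : ℕ → Prop} {σ σ' : ℤ} {t' : ℕ} {a' : Finset Pt}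

theorem sv_bd (u : Finset Pt) (p : ℕ) : -1 ≤ sv u p ∧ sv u p ≤ 1 := by
  have h := ch_01 u p false
  have h' := ch_01 u p true
  unfold sv
  omega

theorem ev_cases (t p : ℕ) : (p = t ∧ ev t p = 1) ∨ (p = t + 1 ∧ ev t p = -1) ∨ (p ≠ t ∧ p ≠ t + 1 ∧ ev t p = 0) := by
  unfold ev
  split_ifs <;> omega

theorem eq_of_sv (hκ : κ = .B ∨ κ = .D) (hu : Can κ u) (hv : Can κ v) (ho : ∀ p, oc v p = oc u p)
    (h : (∀ p, sv v p = sv u p) ∨ ∀ p, sv v p = - sv u p) : v = u := by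
  rcases h with h | h
  · refine ext_ch fun p b => ?_
    have h1 := ho p
    have h2 := h p
    unfold oc at h1
    unfold sv at h2
    cases b <;> omega
  · have h3 : v = sw' u := ext_ch fun p b => by
      have h1 := ho p
      have h2 := h p
      unfold oc at h1
      unfold sv at h2
      rw [ch_sw]
      cases b <;> simp only [Bool.not_false, Bool.not_true] <;> omega
    rw [h3, can_ext hκ hu (h3 ▸ hv)]

theorem Rel.symm (h : Rel a c F) : Rel c a F :=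
  ⟨fun p => (h.1 p).symm, h.2.imp (fun h p => ⟨fun e => by have := (h p).1 e; omega, fun e => ((h p).2 e).symm⟩)
    fun h p => ⟨fun e => ((h p).1 e).symm, fun e => by have := (h p).2 e; omega⟩⟩

theorem Rel.trans (h : Rel a a' F) (h' : Rel a' c G) : Rel a c fun p => ¬ (F p ↔ G p) := by
  refine ⟨fun p => (h'.1 p).trans (h.1 p), ?_⟩
  rcases h.2 with h1 | h1 <;> rcases h'.2 with h2 | h2 <;> [left; right; right; left] <;> intro p <;>
    have h3 := h1 p <;> have h4 := h2 p <;> by_cases e : F p <;> by_cases e' : G p <;>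
    simp only [e, e', not_true, not_false_iff, true_imp_iff, false_imp_iff, true_and, and_true, iff_true, iff_false] at h3 h4 ⊢ <;>
    (clear * - h3 h4; omega)

theorem Rel.ne (h : Rel a c F) (hp : sv a p ≠ 0) : sv c p ≠ 0 := by
  rcases h.2 with h1 | h1 <;> by_cases e : F p
  exacts [by have := (h1 p).1 e; omega, by have := (h1 p).2 e; omega, by have := (h1 p).1 e; omega,
    by have := (h1 p).2 e; omega]

theorem Rel.uniq (h : Rel a c F) (h' : Rel a c G) :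
    (∀ p, sv a p ≠ 0 → (F p ↔ G p)) ∨ ∀ p, sv a p ≠ 0 → ¬ (F p ↔ G p) := by
  rcases h.2 with h1 | h1 <;> rcases h'.2 with h2 | h2 <;> [left; right; right; left] <;> intro p hp <;>
    have h3 := h1 p <;> have h4 := h2 p <;> by_cases e : F p <;> by_cases e' : G p <;>
    simp only [e, e', not_true, not_false_iff, true_imp_iff, false_imp_iff, true_and, and_true, iff_true, iff_false] at h3 h4 ⊢ <;>
    (clear * - hp h3 h4; omega)

theorem Rel.eq (hκ : κ = .B ∨ κ = .D) (ha : Can κ a) (hc : Can κ c) (h : Rel a c F)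
    (hF : (∀ p, sv a p ≠ 0 → F p) ∨ ∀ p, sv a p ≠ 0 → ¬ F p) : c = a := by
  refine eq_of_sv hκ ha hc h.1 ?_
  rcases h.2 with h1 | h1 <;> rcases hF with h2 | h2 <;> [right; left; left; right] <;> intro p <;>
    have h3 := h1 p <;> have h4 := h2 p <;> by_cases e : F p <;>
    simp only [e, not_true, not_false_iff, true_imp_iff, false_imp_iff, true_and, and_true, imp_false] at h3 h4 <;> (clear * - h3 h4; omega)

theorem Rel.op (h : Rel a c F) (hF : F t ↔ F (t + 1)) (ho : Op a t) : Op c t := by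
  refine ⟨h.ne ho.1, ?_⟩
  have h0 := ho.2
  rcases h.2 with h1 | h1 <;> by_cases e : F t
  exacts [by have := (h1 t).1 e; have := (h1 _).1 (hF.1 e); omega, by have := (h1 t).2 e; have := (h1 _).2 (mt hF.2 e); omega,
    by have := (h1 t).1 e; have := (h1 _).1 (hF.1 e); omega, by have := (h1 t).2 e; have := (h1 _).2 (mt hF.2 e); omega]

theorem Op.ne (h : Op a t) : sv a (t + 1) ≠ 0 := by
  have := h.1
  have := h.2
  omega

theorem cw_bx {x : Pt} (hx : x ∈ rem a) (h : bx a x = v ∨ ((κ = .B ∨ κ = .D) ∧ bx a x = sw' v)) :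
    Cw κ v a (x.1 - 1) (if x.2 then -1 else 1) := by
  have h1 := fun p => ch_bx hx p false
  have h2 := fun p => ch_bx hx p true
  refine ⟨⟨x, hx, h⟩, fun p => ?_, by split_ifs <;> simp, ?_⟩
  · have h3 := h1 p
    have h4 := h2 p
    unfold oc
    rcases h with e | ⟨-, e⟩ <;> rw [e] at h3 h4 <;> (try simp only [ch_sw, Bool.not_false, Bool.not_true] at h3 h4) <;>
      cases hb : x.2 <;> simp only [hb, ↓reduceIte, Bool.false_eq_true, add_zero, Bool.true_eq_false] at h3 h4 <;> omega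
  · refine h.imp (fun e p => ?_) fun e p => ?_
    all_goals
      have h3 := h1 p
      have h4 := h2 p
      unfold sv
    · rw [e] at h3 h4
      cases hb : x.2 <;> simp only [hb, ↓reduceIte, Bool.false_eq_true, add_zero, one_mul, Bool.true_eq_false, Int.reduceNeg, neg_mul] at h3 h4 ⊢ <;> omega
    · rw [e.2] at h3 h4
      simp only [ch_sw, Bool.not_false, Bool.not_true] at h3 h4
      cases hb : x.2 <;> simp only [hb, ↓reduceIte, Bool.false_eq_true, add_zero, one_mul, neg_add_rev, neg_sub, Bool.true_eq_false, Int.reduceNeg, neg_mul, neg_neg] at h3 h4 ⊢ <;> (clear * - h3 h4; omega)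

theorem cv_cw (h : cv κ v a) : ∃ t σ, Cw κ v a t σ := by
  obtain ⟨x, hx, h⟩ := h
  exact ⟨_, _, cw_bx hx h⟩

theorem ev_inj (h : ∀ p, ev t p = ev t' p) : t = t' := by
  have h1 := h t
  have h2 := ev_cases t t
  have h3 := ev_cases t' t
  (clear * - h1 h2 h3; omega)

theorem exists_cw (hk : Ok κ M (k + st κ)) (ha : a ∈ Lq κ ε M (k + st κ)) {lo hi : ℕ} (hlt : lo < hi) (h0 : sv a lo ≠ 0)
    (h1 : sv a hi = - sv a lo) : ∃ v ∈ Lq κ ε M k, ∃ t σ, lo ≤ t ∧ t < hi ∧ Cw κ v a t σ := by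
  obtain ⟨b, h2, h3⟩ : ∃ b, (lo, b) ∉ a ∧ (hi, b) ∈ a := by
    have e1 := ch_01 a lo false
    have e2 := ch_01 a lo true
    have e3 := ch_01 a hi false
    have e4 := ch_01 a hi true
    unfold sv at h0 h1
    simp only [← ch_one, Bool.exists_bool]
    (clear * - h0 h1 e1 e2 e3 e4; omega)
  obtain ⟨t, h4, h5, h6, h7⟩ : ∃ t, lo ≤ t ∧ t < hi ∧ (t, b) ∉ a ∧ (t + 1, b) ∈ a := by
    clear h1
    induction hi with
    | zero => omega
    | succ hi ih =>
      by_cases e : (hi, b) ∈ a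
      · obtain ⟨t, h4, h5, h6⟩ := ih (lt_of_le_of_ne (by omega) fun e' => h2 (e' ▸ e)) e
        exact ⟨t, h4, by omega, h6⟩
      · exact ⟨hi, by omega, by omega, e, h3⟩
  have hx : (t + 1, b) ∈ rem a := mem_rem.2 ⟨h7, Nat.succ_pos t, h6⟩
  obtain ⟨v, hv, h⟩ := exists_can hk ha hx
  exact ⟨v, hv, t, _, h4, h5, cw_bx hx h⟩

theorem exists_op (hk : Ok κ M (k + st κ)) (ha : a ∈ Lq κ ε M (k + st κ)) (h : Op a t) : ∃ v ∈ Lq κ ε M k, ∃ σ, Cw κ v a t σ := by
  obtain ⟨v, hv, s, σ, h1, h2, h3⟩ := exists_cw hk ha (Nat.lt_succ_self t) h.1 h.2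
  exact ⟨v, hv, σ, (show s = t by omega) ▸ h3⟩

theorem key0 (h : Cw κ v a t σ) (h' : Cw κ v c t σ') :
    ((∀ p, sv c p = sv a p) ∨ ∀ p, sv c p = - sv a p) ∨ (Op a t ∧ Rel a c (Fl t)) := by
  obtain ⟨-, h1, hσ, h2⟩ := h
  obtain ⟨-, h1', hσ', h2'⟩ := h'
  have ho : ∀ p, oc c p = oc a p := fun p => by have := h1 p; have := h1' p; omega
  obtain ⟨d, hd, h3⟩ : ∃ d : ℤ, (d = 0 ∨ d = 2 ∨ d = -2) ∧
      ((∀ p, sv c p = sv a p + d * ev t p) ∨ ∀ p, sv c p = -(sv a p + d * ev t p)) := by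
    rcases h2 with h2 | h2 <;> rcases h2' with h2' | h2'
    · exact ⟨σ - σ', by (clear * - hσ hσ'; omega), .inl fun p => by linear_combination h2 p - h2' p⟩
    · exact ⟨σ + σ', by (clear * - hσ hσ'; omega), .inr fun p => by linear_combination h2' p - h2 p⟩
    · exact ⟨σ + σ', by (clear * - hσ hσ'; omega), .inr fun p => by linear_combination h2 p - h2' p⟩
    · exact ⟨σ - σ', by omega, .inl fun p => by linear_combination h2' p - h2 p⟩
  rcases hd with rfl | hd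
  · exact .inl (by simpa only [zero_mul, add_zero] using h3)
  have h4 : Op a t := by
    have e1 := ev_cases t t
    have e2 := ev_cases t (t + 1)
    have e3 := sv_bd a t
    have e4 := sv_bd a (t + 1)
    have e5 := sv_bd c t
    have e6 := sv_bd c (t + 1)
    unfold Op
    rcases h3 with h3 | h3 <;> have e7 := h3 t <;> have e8 := h3 (t + 1) <;> rcases hd with rfl | rfl <;> (clear * - e1 e2 e3 e4 e5 e6 e7 e8; (solve | lia | omega))
  refine .inr ⟨h4, ho, h3.imp (fun h3 p => ?_) fun h3 p => ?_⟩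
  all_goals
    have e1 := ev_cases t p
    have e2 := sv_bd a p
    have e3 := sv_bd c p
    have e4 := h3 p
    unfold Fl
    rcases hd with rfl | rfl <;> (clear * - e1 e2 e3 e4; omega)

/-- **two labels of the same family over the same label** -/
theorem key' (hκ : κ = .B ∨ κ = .D) (ha : Can κ a) (hc : Can κ c) (h : Cw κ v a t σ) (h' : cv κ v c)
    (ho : ∀ p, oc c p = oc a p) : c = a ∨ (Op a t ∧ Rel a c (Fl t)) := by
  obtain ⟨s, σ', h1⟩ := cv_cw h'
  obtain rfl : t = s := ev_inj fun p => by have := h.2.1 p; have := h1.2.1 p; have := ho p; omega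
  exact (key0 h h1).imp_left (eq_of_sv hκ ha hc ho)

theorem key (hκ : κ = .B ∨ κ = .D) {k' : ℕ} (hv : v ∈ Lq κ ε M k') (ha : a ∈ Lq κ ε M k) (hc : c ∈ Lq κ ε M k)
    (h : Cw κ v a t σ) (h' : cv κ v c) (hl : lev κ c = lev κ a) : c = a ∨ (Op a t ∧ Rel a c (Fl t)) :=
  key' hκ (mem_Lq.1 ha).2.1 (mem_Lq.1 hc).2.1 h h' (zz_oc (ne_U hκ) (zz_eq (mem_Lq.1 hv).2.1 (mem_Lq.1 hc).2.1
    (mem_Lq.1 ha).2.1 h' h.1 hl) ((card_Lq hc).trans (card_Lq ha).symm))

/-- two labels of the same family under the same label -/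
theorem low_eq (hκ : κ = .B ∨ κ = .D) (hv : v ∈ Lq κ ε M k) (hw : w ∈ Lq κ ε M k) (h : Cw κ v a t σ) (h' : Cw κ w a t' σ')
    (hz : zz κ w = zz κ v) : t' = t ∧ (σ' = σ ∨ Op a t ∨ (∀ p, sv a p = 0) → w = v) := by
  have ho := zz_oc (ne_U hκ) hz ((card_Lq hw).trans (card_Lq hv).symm)
  obtain rfl : t' = t := ev_inj fun p => by have := h.2.1 p; have := h'.2.1 p; have := ho p; omega
  refine ⟨rfl, fun hs => eq_of_sv hκ (mem_Lq.1 hv).2.1 (mem_Lq.1 hw).2.1 ho ?_⟩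
  obtain ⟨-, -, hσ, h2⟩ := h
  obtain ⟨-, -, hσ', h2'⟩ := h'
  by_cases e : σ' = σ
  · subst e
    rcases h2 with h2 | h2 <;> rcases h2' with h2' | h2' <;> [left; right; right; left] <;> intro p <;> rw [h2, h2']
    rw [neg_neg]
  rcases hs with hs | hs | hs
  · exact absurd hs e
  · have e1 := ev_cases t' t'
    have e2 := sv_bd v t'
    have e3 := sv_bd w t'
    have e4 := sv_bd a t'
    have e5 := hs.1
    rcases h2 with h2 | h2 <;> rcases h2' with h2' | h2' <;> have e6 := h2 t' <;> have e7 := h2' t' <;>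
      rcases hσ with rfl | rfl <;> rcases hσ' with rfl | rfl <;> (clear * - e e1 e2 e3 e4 e5 e6 e7; omega)
  · obtain rfl : σ' = -σ := by (clear * - hσ hσ' e; omega)
    rcases h2 with h2 | h2 <;> rcases h2' with h2' | h2' <;> [right; left; left; right] <;> intro p <;> rw [h2, h2', hs] <;> ring

theorem Rel.same {c' : Finset Pt} (hκ : κ = .B ∨ κ = .D) (hc : Can κ c) (hc' : Can κ c') (h : Rel a c F) (h' : Rel a c' G)
    (hF : (∀ p, sv a p ≠ 0 → ¬ (F p ↔ G p)) ∨ ∀ p, sv a p ≠ 0 → (F p ↔ G p)) : c' = c :=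
  (h.symm.trans h').eq hκ hc hc' (hF.imp (fun e p hp => e p (h.symm.ne hp)) fun e p hp => not_not.2 (e p (h.symm.ne hp)))

/-- two flips at distant levels without new lower neighbours -/
theorem nl_far (hκ : κ = .B ∨ κ = .D) (hk : Ok κ M (k + st κ)) {c' : Finset Pt} (ha : a ∈ Lq κ ε M (k + st κ))
    (hc : c ∈ Lq κ ε M (k + st κ)) (hc' : c' ∈ Lq κ ε M (k + st κ)) (hne : c ≠ a) (ho : Op a t) (h : Rel a c (Fl t))
    (ho' : Op a t') (h' : Rel a c' (Fl t')) (ht : t + 1 < t' ∨ t' + 1 < t ∨ t = t')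
    (hs : ∀ v ∈ Lq κ ε M k, cv κ v c → cv κ v a) : c' = c := by
  have e := (mem_Lq.1 hc).2.1
  have e' := (mem_Lq.1 hc').2.1
  by_cases htt : t = t'
  · exact h.same hκ e e' h' (.inr fun _ _ => htt ▸ Iff.rfl)
  obtain ⟨v, hv, σ, h1⟩ := exists_op hk hc (h.op (by unfold Fl; omega) ho')
  rcases key' hκ e (mem_Lq.1 ha).2.1 h1 (hs v hv h1.1) h.symm.1 with h2 | h2
  · exact absurd h2.symm hne
  rcases h.uniq h2.2.symm with h3 | h3
  · have h4 := h3 t ho.1
    unfold Fl at h4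
    omega
  · exact h.same hκ e e' h' (.inl h3)

theorem adj_rel (hκ : κ = .B ∨ κ = .D) {k' : ℕ} (ha : a ∈ Lq κ ε M k) (ha' : a' ∈ Lq κ ε M k) (hv : v ∈ Lq κ ε M k')
    (hw : w ∈ Lq κ ε M k') (hl : lev κ a = lev κ a') (hR : Rel a a' F) (h : Cw κ v a t σ) (hn : ¬ cv κ v a') (h' : Cw κ w a' t' σ')
    (hn' : ¬ cv κ w a) (hA : Adj κ ε M k (lev κ a) v w) : Op a t ∧ Op a' t' ∧
      ((∀ p, sv a p ≠ 0 → (Fl t p ↔ ¬ (F p ↔ Fl t' p))) ∨ ∀ p, sv a p ≠ 0 → ¬ (Fl t p ↔ ¬ (F p ↔ Fl t' p))) := by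
  obtain ⟨c, hc, h1, h2, h3⟩ := hA
  have h4 := (key hκ hv ha hc h h1 h3).resolve_left fun e => hn' (e ▸ h2)
  have h5 := (key hκ hw ha' hc h' h2 (h3.trans hl)).resolve_left fun e => hn (e ▸ h1)
  exact ⟨h4.1, h5.1, h4.2.uniq (hR.trans h5.2)⟩

theorem six {x y z : ℕ} (hx : Op a x) (hy : Op a y) (hz : Op a z) {P : ℕ → Prop} (h : ∀ p, sv a p ≠ 0 → P p) :
    P x ∧ P (x + 1) ∧ P y ∧ P (y + 1) ∧ P z ∧ P (z + 1) :=
  ⟨h _ hx.1, h _ hx.ne, h _ hy.1, h _ hy.ne, h _ hz.1, h _ hz.ne⟩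

theorem fl_self (t : ℕ) : Fl t t := ⟨le_rfl, Nat.le_succ t⟩

theorem fl_succ (t : ℕ) : Fl t (t + 1) := ⟨Nat.le_succ t, le_rfl⟩

private theorem fl_far {x y : ℕ} (h : x + 1 < y ∨ y + 1 < x) : ¬ Fl x y ∧ ¬ Fl x (y + 1) ∧ ¬ Fl y x ∧ ¬ Fl y (x + 1) := by
  dsimp only [Fl]
  omega

theorem tr_half (hκ : κ = .B ∨ κ = .D) (hk : Ok κ M (k + st κ)) {x y z : ℕ} {τ : ℤ} {e : Finset Pt} (ha : a ∈ Lq κ ε M (k + st κ))
    (ha' : a' ∈ Lq κ ε M (k + st κ)) (hv : v ∈ Lq κ ε M k) (hw : w ∈ Lq κ ε M k) (he : e ∈ Lq κ ε M k) (hl : lev κ a = lev κ a')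
    (hR : Rel a a' (Fl x)) (hx : Op a x) (hy : Op a y) (hz : Op a z) (d1 : x + 1 < y ∨ y + 1 < x) (d2 : x + 1 < z ∨ z + 1 < x)
    (d3 : y + 1 < z ∨ z + 1 < y) (h : Cw κ v a y σ) (hn : ¬ cv κ v a') (h' : Cw κ w a' z σ') (hn' : ¬ cv κ w a)
    (h'' : Cw κ e a t τ) (ht : t ≠ x ∧ t ≠ y ∧ t ≠ z) :
    ∃ v' ∈ Lq κ ε M k, ∃ w' ∈ Lq κ ε M k, cv κ v' a ∧ ¬ cv κ v' a' ∧ cv κ w' a' ∧ ¬ cv κ w' a ∧
      ¬ Adj κ ε M (k + st κ) (lev κ a) v' w ∧ ¬ Adj κ ε M (k + st κ) (lev κ a) v w' ∧ ¬ Adj κ ε M (k + st κ) (lev κ a) v' w' := by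
  have hne : a' ≠ a := fun e => hn (e ▸ h.1)
  obtain ⟨f, hf, τ', h1⟩ := exists_op hk ha' (hR.op (by unfold Fl; (clear * - d1 d2 d3 ht; omega)) hy)
  obtain ⟨q1, q2, q3, q4⟩ := fl_far d1
  obtain ⟨q5, q6, q7, q8⟩ := fl_far d2
  obtain ⟨q9, q10, q11, q12⟩ := fl_far d3
  clear d1 d2 d3
  have h2 : ¬ cv κ e a' := fun h2 => by
    rcases hR.uniq ((key hκ he ha ha' h'' h2 hl.symm).resolve_left hne).2 with h3 | h3 <;> have h4 := six hx hy hz h3 <;>
      simp only [fl_self, fl_succ, q1, q2, q3, q4, q5, q6, q7, q8, q9, q10, q11, q12, true_iff, iff_true, false_iff, iff_false,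
        not_true, not_false_iff, not_not, true_and, and_true, false_and, and_false] at h4 <;> dsimp only [Fl] at h4 <;> (clear * - ht h4; omega)
  have h3 : ¬ cv κ f a := fun h2 => by
    rcases hR.uniq ((key hκ hf ha' ha h1 h2 hl).resolve_left hne.symm).2.symm with h3 | h3 <;> have h4 := six hx hy hz h3 <;>
      simp only [fl_self, fl_succ, q1, q2, q3, q4, q5, q6, q7, q8, q9, q10, q11, q12, true_iff, iff_true, false_iff, iff_false,
        not_true, not_false_iff, not_not, true_and, and_true, false_and, and_false] at h4 <;> dsimp only [Fl] at h4 <;> omega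
  refine ⟨e, he, f, hf, h''.1, h2, h1.1, h3, fun hA => ?_, fun hA => ?_, fun hA => ?_⟩
  · rcases (adj_rel hκ ha ha' he hw hl hR h'' h2 h' hn' hA).2.2 with h5 | h5 <;> have h4 := six hx hy hz h5 <;>
      simp only [fl_self, fl_succ, q1, q2, q3, q4, q5, q6, q7, q8, q9, q10, q11, q12, true_iff, iff_true, false_iff, iff_false,
        not_true, not_false_iff, not_not, true_and, and_true, false_and, and_false] at h4 <;> dsimp only [Fl] at h4 <;> (clear * - ht h4; omega)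
  · rcases (adj_rel hκ ha ha' hv hf hl hR h hn h1 h3 hA).2.2 with h5 | h5 <;> have h4 := six hx hy hz h5 <;>
      simp only [fl_self, fl_succ, q1, q2, q3, q4, q5, q6, q7, q8, q9, q10, q11, q12, true_iff, iff_true, false_iff, iff_false,
        not_true, not_false_iff, not_not, true_and, and_true, false_and, and_false] at h4 <;> dsimp only [Fl] at h4 <;> omega
  · rcases (adj_rel hκ ha ha' he hf hl hR h'' h2 h1 h3 hA).2.2 with h5 | h5 <;> have h4 := six hx hy hz h5 <;>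
      simp only [fl_self, fl_succ, q1, q2, q3, q4, q5, q6, q7, q8, q9, q10, q11, q12, true_iff, iff_true, false_iff, iff_false,
        not_true, not_false_iff, not_not, true_and, and_true, false_and, and_false] at h4 <;> dsimp only [Fl] at h4 <;> (clear * - ht h4; omega)

theorem ar_even {x y z : ℕ} (h : ∀ p, Fl x p ∨ Fl y p ∨ Fl z p → (Fl y p ↔ ¬ (Fl x p ↔ Fl z p))) : False := by
  have e1 := h _ (.inl (fl_self x))
  have e2 := h _ (.inl (fl_succ x))
  have e3 := h _ (.inr (.inl (fl_self y)))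
  have e4 := h _ (.inr (.inl (fl_succ y)))
  have e5 := h _ (.inr (.inr (fl_self z)))
  have e6 := h _ (.inr (.inr (fl_succ z)))
  simp only [fl_self, fl_succ, true_iff, iff_true] at e1 e2 e3 e4 e5 e6
  unfold Fl at e1 e2 e3 e4 e5 e6
  (clear * - e2 e3 e4 e5 e6; omega)

theorem ar_odd {x y z : ℕ} (h : ∀ p, Fl x p ∨ Fl y p ∨ Fl z p → ¬ (Fl y p ↔ ¬ (Fl x p ↔ Fl z p))) :
    (x = y ∧ x = z) ∨ ((x + 1 < y ∨ y + 1 < x) ∧ (x + 1 < z ∨ z + 1 < x) ∧ (y + 1 < z ∨ z + 1 < y)) := by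
  have e1 := h _ (.inl (fl_self x))
  have e2 := h _ (.inl (fl_succ x))
  have e3 := h _ (.inr (.inl (fl_self y)))
  have e4 := h _ (.inr (.inl (fl_succ y)))
  have e5 := h _ (.inr (.inr (fl_self z)))
  have e6 := h _ (.inr (.inr (fl_succ z)))
  simp only [fl_self, fl_succ, true_iff, iff_true] at e1 e2 e3 e4 e5 e6
  unfold Fl at e1 e2 e3 e4 e5 e6
  (clear * - e3 e4 e5 e6; (solve | lia | omega))

theorem Adj.symm {l : ℤ} (h : Adj κ ε M k l v w) : Adj κ ε M k l w v := by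
  obtain ⟨c, hc, h1, h2, h3⟩ := h
  exact ⟨c, hc, h2, h1, h3⟩

theorem tr_all (hκ : κ = .B ∨ κ = .D) (hk : Ok κ M (k + st κ)) (ha : a ∈ Lq κ ε M (k + st κ)) (ha' : a' ∈ Lq κ ε M (k + st κ))
    (hu : u ∈ Lq κ ε M k) (hv : v ∈ Lq κ ε M k) (hw : w ∈ Lq κ ε M k) (hl : lev κ a = lev κ a') (h0 : cv κ u a) (h0' : cv κ u a')
    (h : cv κ v a) (hn : ¬ cv κ v a') (h' : cv κ w a') (hn' : ¬ cv κ w a) (hA : Adj κ ε M (k + st κ) (lev κ a) v w) :
    ∃ v' ∈ Lq κ ε M k, ∃ w' ∈ Lq κ ε M k, cv κ v' a ∧ ¬ cv κ v' a' ∧ cv κ w' a' ∧ ¬ cv κ w' a ∧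
      ¬ Adj κ ε M (k + st κ) (lev κ a) v' w ∧ ¬ Adj κ ε M (k + st κ) (lev κ a) v w' ∧ ¬ Adj κ ε M (k + st κ) (lev κ a) v' w' := by
  have hne : a' ≠ a := fun e => hn (e ▸ h)
  obtain ⟨x, τ, h1⟩ := cv_cw h0
  obtain ⟨y, σ, h2⟩ := cv_cw h
  obtain ⟨z, σ', h3⟩ := cv_cw h'
  obtain ⟨hx, hR⟩ := (key hκ hu ha ha' h1 h0' hl.symm).resolve_left hne
  obtain ⟨hy, hz', h4⟩ := adj_rel hκ ha ha' hv hw hl hR h2 hn h3 hn' hA
  have h5 : (x + 1 < y ∨ y + 1 < x) ∧ (x + 1 < z ∨ z + 1 < x) ∧ (y + 1 < z ∨ z + 1 < y) := by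
    have e1 : ∀ {c t p}, Op c t → Fl t p → sv c p ≠ 0 := fun {c t p} h h' => by
      obtain rfl | rfl : p = t ∨ p = t + 1 := by unfold Fl at h'; omega
      exacts [h.1, h.ne]
    have e2 : ∀ p, Fl x p ∨ Fl y p ∨ Fl z p → sv a p ≠ 0 := fun p hp =>
      hp.elim (e1 hx) fun hp => hp.elim (e1 hy) fun hp => hR.symm.ne (e1 hz' hp)
    rcases h4 with h4 | h4
    · exact (ar_even fun p hp => h4 p (e2 p hp)).elim
    · refine (ar_odd fun p hp => h4 p (e2 p hp)).resolve_left ?_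
      rintro ⟨rfl, rfl⟩
      exact hne (hR.eq hκ (mem_Lq.1 ha).2.1 (mem_Lq.1 ha').2.1 (.inl fun p hp => by_contra fun e =>
        h4 p hp ⟨fun h => absurd h e, fun h => absurd Iff.rfl h⟩))
  obtain ⟨d1, d2, d3⟩ := h5
  have hz : Op a z := hR.symm.op (by unfold Fl; (clear * - d2 d3; omega)) hz'
  have hx' : Op a' x := hR.op (by unfold Fl; omega) hx
  have hy' : Op a' y := hR.op (by unfold Fl; (clear * - d1 d2 d3; omega)) hy
  obtain ⟨lo, hi, h6, h7, h8, h9, h10⟩ : ∃ lo hi, lo < hi ∧ sv a lo ≠ 0 ∧ sv a hi ≠ 0 ∧ ¬ (Fl x lo ↔ Fl x hi) ∧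
      ∀ t, lo ≤ t → t < hi → t ≠ x ∧ t ≠ y ∧ t ≠ z := by
    unfold Fl
    by_cases e1 : x < y <;> by_cases e2 : x < z <;> by_cases e3 : y < z
    exacts [⟨x + 1, y, by omega, hx.ne, hy.1, by omega, fun _ _ _ => by omega⟩,
      ⟨x + 1, z, by omega, hx.ne, hz.1, by (clear * - d2 d3 e1 e2; omega), fun _ _ _ => by omega⟩,
      ⟨x + 1, y, by omega, hx.ne, hy.1, by omega, fun _ _ _ => by omega⟩,
      ⟨x + 1, y, by omega, hx.ne, hy.1, by omega, fun _ _ _ => by omega⟩,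
      ⟨x + 1, z, by omega, hx.ne, hz.1, by omega, fun _ _ _ => by omega⟩,
      ⟨x + 1, z, by omega, hx.ne, hz.1, by omega, fun _ _ _ => by omega⟩,
      ⟨z + 1, x, by omega, hz.ne, hx.1, by omega, fun _ _ _ => by omega⟩,
      ⟨y + 1, x, by omega, hy.ne, hx.1, by omega, fun _ _ _ => by omega⟩]
  by_cases e : sv a hi = - sv a lo
  · obtain ⟨f, hf, t, τ', e1, e2, e3⟩ := exists_cw hk ha h6 h7 e
    exact tr_half hκ hk ha ha' hv hw hf hl hR hx hy hz d1 d2 d3 h2 hn h3 hn' e3 (h10 t e1 e2)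
  · have e' : sv a' hi = - sv a' lo := by
      have b1 := sv_bd a lo
      have b2 := sv_bd a hi
      rcases hR.2 with r | r <;> have r1 := r lo <;> have r2 := r hi <;> by_cases c1 : Fl x lo <;> by_cases c2 : Fl x hi <;>
        simp only [c1, c2, not_true, not_false_iff, true_imp_iff, false_imp_iff, true_and, and_true] at r1 r2 h9 <;> (clear * - h7 h8 e b1 b2 r1 r2; (solve | lia | omega))
    obtain ⟨f, hf, t, τ', e1, e2, e3⟩ := exists_cw hk ha' h6 (hR.ne h7) e'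
    obtain ⟨w', hw', v', hv', g1, g2, g3, g4, g5, g6, g7⟩ := tr_half hκ hk ha' ha hw hv hf hl.symm hR.symm hx' hz' hy' d2 d1
      d3.symm h3 hn' h2 hn e3 (by have := h10 t e1 e2; (clear * - this; omega))
    rw [← hl] at g5 g6 g7
    exact ⟨v', hv', w', hw', g3, g4, g1, g2, fun e => g6 e.symm, fun e => g5 e.symm, fun e => g7 e.symm⟩

/-! ### the axioms -/

/-- the lower labels -/
abbrev LoT (κ : Kn) (ε : ℤˣ) (M k : ℕ) : Type := ↥{v ∈ LB κ ε M k | v.2 = false}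

theorem lo_Lq (v : LoT κ ε M k) : v.1.1 ∈ Lq κ ε M k := (mem_LB.1 (mem_filter.1 v.2).1).1

theorem lo_ext {v w : LoT κ ε M k} (h : v.1.1 = w.1.1) : v = w :=
  Subtype.ext (Prod.ext h ((mem_filter.1 v.2).2.trans (mem_filter.1 w.2).2.symm))

theorem lo_mem (h : v ∈ Lq κ ε M k) : (v, false) ∈ {v ∈ LB κ ε M k | v.2 = false} :=
  mem_filter.2 ⟨mem_LB.2 ⟨h, fun e => absurd e Bool.false_ne_true⟩, rfl⟩

theorem up_Lq (a : ↥(LB κ ε M k)) : a.1.1 ∈ Lq κ ε M k := (mem_LB.1 a.2).1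

theorem twin {a a' : ↥(LB κ ε M k)} (hne : a ≠ a') (h : a.1.1 = a'.1.1) : a.1.2 ≠ a'.1.2 ∧ κ = .D ∧ ∀ p, sv a.1.1 p = 0 := by
  have h1 : a.1.2 ≠ a'.1.2 := fun e => hne (Subtype.ext (Prod.ext h e))
  have h2 : Dg κ k a.1.1 := by
    by_cases e : a.1.2 = true
    · exact (mem_LB.1 a.2).2 e
    · exact h ▸ (mem_LB.1 a'.2).2 (by_contra fun e' => h1 (by rw [Bool.eq_false_iff.2 e, Bool.eq_false_iff.2 e']))
  refine ⟨h1, h2.1, fun p => ?_⟩
  have h3 := ch_sw a.1.1 p true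
  rw [h2.2.2] at h3
  exact sub_eq_zero.2 h3.symm

/-- in the kinds `A` and `U` there is one upper neighbour of a level -/
theorem up_AU (hκ : κ = .A ∨ κ = .U) {k' : ℕ} (hu : u ∈ Lq κ ε M k') {a a' : ↥(LB κ ε M k)} (h : cv κ u a.1.1) (h' : cv κ u a'.1.1)
    (hl : lev κ a.1.1 = lev κ a'.1.1) : a = a' := by
  have e := mem_Lq.1 (up_Lq a)
  have e' := mem_Lq.1 (up_Lq a')
  have e0 := (mem_Lq.1 hu).2.1
  by_contra hne
  have h1 := (twin hne (zz_inj hκ e.1 e'.1 (zz_eq e0 e.2.1 e'.2.1 h h' hl)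
    ((cv_cl e0 e.2.1 h).symm.trans (cv_cl e0 e'.2.1 h')))).2.1
  rcases hκ with rfl | rfl <;> cases h1

theorem po_adj {l : ℤ} {v w : LoT κ ε M k} :
    (po κ ε M k).adj (l : ℂ) v w ↔ Adj κ ε M (k + st κ) l v.1.1 w.1.1 :=
  ⟨fun ⟨c, h1, h2, h3⟩ => ⟨c.1.1, up_Lq c, h1, h2, Int.cast_injective (α := ℂ) h3⟩, fun ⟨c, hc, h1, h2, h3⟩ =>
    ⟨⟨(c, false), mem_LB.2 ⟨hc, fun e => absurd e Bool.false_ne_true⟩⟩, h1, h2, congrArg Int.cast h3⟩⟩

theorem po_two (u : LoT κ ε M k) (l : ℂ) : #((po κ ε M k).A u l) ≤ 2 := by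
  by_contra hc
  obtain ⟨a, ha, a', ha', c, hc, n1, n2, n3⟩ := two_lt_card.1 (not_le.1 hc)
  obtain ⟨h1, l1⟩ := (Po.mem_A _).1 ha
  obtain ⟨h2, l2⟩ := (Po.mem_A _).1 ha'
  obtain ⟨h3, l3⟩ := (Po.mem_A _).1 hc
  have e2 : lev κ a'.1.1 = lev κ a.1.1 := Int.cast_injective (α := ℂ) (l2.trans l1.symm)
  have e3 : lev κ c.1.1 = lev κ a.1.1 := Int.cast_injective (α := ℂ) (l3.trans l1.symm)
  rcases kn_cases κ with hκ | hκ
  · exact n1 (up_AU hκ (lo_Lq u) h1 h2 e2.symm)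
  obtain ⟨t, σ, h4⟩ := cv_cw h1
  rcases key hκ (lo_Lq u) (up_Lq a) (up_Lq a') h4 h2 e2 with f | f <;>
    rcases key hκ (lo_Lq u) (up_Lq a) (up_Lq c) h4 h3 e3 with g | g
  · have b1 := (twin n1 f.symm).1
    have b2 := (twin n2 g.symm).1
    have b3 := (twin n3 (f.trans g.symm)).1
    revert b1 b2 b3
    cases a.1.2 <;> cases a'.1.2 <;> cases c.1.2 <;> simp
  · exact g.1.1 ((twin n1 f.symm).2.2 t)
  · exact f.1.1 ((twin n2 g.symm).2.2 t)
  · exact f.2.ne f.1.1 ((twin n3 (f.2.same hκ (mem_Lq.1 (up_Lq a')).2.1 (mem_Lq.1 (up_Lq c)).2.1 g.2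
      (.inr fun _ _ => Iff.rfl)).symm).2.2 t)

theorem low_AU (hκ : κ = .A ∨ κ = .U) {k' : ℕ} (hv : v ∈ Lq κ ε M k) (hw : w ∈ Lq κ ε M k) (ha : a ∈ Lq κ ε M k') (h : cv κ v a)
    (h' : cv κ w a) (hz : zz κ v = zz κ w) : v = w :=
  zz_inj hκ (mem_Lq.1 hv).1 (mem_Lq.1 hw).1 hz
    ((cv_cl (mem_Lq.1 hv).2.1 (mem_Lq.1 ha).2.1 h).trans (cv_cl (mem_Lq.1 hw).2.1 (mem_Lq.1 ha).2.1 h').symm)

theorem po_low (a : ↥(LB κ ε M (k + st κ))) (u : LoT κ ε M k) :
    #{w ∈ (po κ ε M k).fm u | (po κ ε M k).cov w a} ≤ 2 := by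
  by_contra hc
  obtain ⟨v, hv, v', hv', w, hw, n1, n2, n3⟩ := two_lt_card.1 (not_le.1 hc)
  obtain ⟨z1, h1⟩ := mem_filter.1 hv
  obtain ⟨z2, h2⟩ := mem_filter.1 hv'
  obtain ⟨z3, h3⟩ := mem_filter.1 hw
  replace z1 : zz κ v.1.1 = zz κ u.1.1 := ((Po.mem_fm _).1 z1).2
  replace z2 : zz κ v'.1.1 = zz κ u.1.1 := ((Po.mem_fm _).1 z2).2
  replace z3 : zz κ w.1.1 = zz κ u.1.1 := ((Po.mem_fm _).1 z3).2
  rcases kn_cases κ with hκ | hκ
  · exact n1 (lo_ext (low_AU hκ (lo_Lq v) (lo_Lq v') (up_Lq a) h1 h2 (z1.trans z2.symm)))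
  obtain ⟨t1, σ1, g1⟩ := cv_cw h1
  obtain ⟨t2, σ2, g2⟩ := cv_cw h2
  obtain ⟨t3, σ3, g3⟩ := cv_cw h3
  have s1 := g1.2.2.1
  have s2 := g2.2.2.1
  have s3 := g3.2.2.1
  obtain e | e | e : σ1 = σ2 ∨ σ1 = σ3 ∨ σ2 = σ3 := by (clear * - s1 s2 s3; omega)
  · exact n1 (lo_ext ((low_eq hκ (lo_Lq v') (lo_Lq v) g2 g1 (z1.trans z2.symm)).2 (.inl e)))
  · exact n2 (lo_ext ((low_eq hκ (lo_Lq w) (lo_Lq v) g3 g1 (z1.trans z3.symm)).2 (.inl e)))
  · exact n3 (lo_ext ((low_eq hκ (lo_Lq w) (lo_Lq v') g3 g2 (z2.trans z3.symm)).2 (.inl e)))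

theorem po_ok (hk : Ok κ M (k + st κ)) : (po κ ε M k).Ok where
  step u a h := (cv_zz h).imp fun _ h => ⟨rfl, h⟩
  cls u a h := cv_cl (mem_Lq.1 (lo_Lq u)).2.1 (mem_Lq.1 (up_Lq a)).2.1 h
  lev a a' Z x x' hc _ h h' hl := lev_inj h h' hc (Int.cast_injective (α := ℂ) hl)
  levz a a' hc h := congrArg Int.cast (levz h hc)
  two := po_two
  dbl u a a' h h' hne hl w hw hf := by
    replace hl : lev κ a.1.1 = lev κ a'.1.1 := Int.cast_injective (α := ℂ) hl
    rcases kn_cases κ with hκ | hκ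
    · exact absurd (up_AU hκ (lo_Lq u) h h' hl) hne
    obtain ⟨t, σ, h1⟩ := cv_cw h
    obtain ⟨t', σ', h2⟩ := cv_cw hw
    refine lo_ext ((low_eq hκ (lo_Lq u) (lo_Lq w) h1 h2 ((Po.mem_fm _).1 hf).2).2 (.inr ?_))
    exact (key hκ (lo_Lq u) (up_Lq a) (up_Lq a') h1 h' hl.symm).symm.imp And.left fun e => (twin hne e.symm).2.2
  low := po_low
  nl a a₁ a₂ a₃ u₁ u₂ u₃ h1 h2 h3 g1 g2 g3 n1 n2 n3 l1 l2 l3 s1 s2 s3 := by
    replace l1 : lev κ a₁.1.1 = lev κ a.1.1 := Int.cast_injective (α := ℂ) l1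
    replace l2 : lev κ a₂.1.1 = lev κ a.1.1 := Int.cast_injective (α := ℂ) l2
    replace l3 : lev κ a₃.1.1 = lev κ a.1.1 := Int.cast_injective (α := ℂ) l3
    rcases kn_cases κ with hκ | hκ
    · exact absurd (up_AU hκ (lo_Lq u₁) g1 h1 l1) n1
    obtain ⟨t1, σ1, f1⟩ := cv_cw h1
    obtain ⟨t2, σ2, f2⟩ := cv_cw h2
    obtain ⟨t3, σ3, f3⟩ := cv_cw h3
    have k1 := key hκ (lo_Lq u₁) (up_Lq a) (up_Lq a₁) f1 g1 l1
    have k2 := key hκ (lo_Lq u₂) (up_Lq a) (up_Lq a₂) f2 g2 l2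
    have k3 := key hκ (lo_Lq u₃) (up_Lq a) (up_Lq a₃) f3 g3 l3
    by_cases hd : ∀ p, sv a.1.1 p = 0
    · have e1 := k1.resolve_right fun e => e.1.1 (hd _)
      have e2 := k2.resolve_right fun e => e.1.1 (hd _)
      have b1 := (twin n1 e1).1
      have b2 := (twin n2 e2).1
      refine .inl (Subtype.ext (Prod.ext (e1.trans e2.symm) ?_))
      revert b1 b2
      cases a.1.2 <;> cases a₁.1.2 <;> cases a₂.1.2 <;> simp only [ne_eq, not_true_eq_false, implies_true, Bool.true_eq_false, not_false_eq_true, Bool.false_eq_true, imp_false, imp_self]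
    have m : ∀ {c : ↥(LB κ ε M (k + st κ))}, c ≠ a → c.1.1 ≠ a.1.1 := fun n e => hd (twin n.symm e.symm).2.2
    have far : ∀ {c c' : ↥(LB κ ε M (k + st κ))} {t t'}, c ≠ a → Op a.1.1 t ∧ Rel a.1.1 c.1.1 (Fl t) →
        Op a.1.1 t' ∧ Rel a.1.1 c'.1.1 (Fl t') → (t + 1 < t' ∨ t' + 1 < t ∨ t = t') →
        (∀ v, (po κ ε M k).cov v c → (po κ ε M k).cov v a) → c = c' := fun {c c' t t'} n r r' ht s => by_contra fun hne =>
      r.2.ne r.1.1 ((twin hne (nl_far hκ hk (up_Lq a) (up_Lq c) (up_Lq c') (m n) r.1 r.2 r'.1 r'.2 ht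
        fun v hv => s ⟨_, lo_mem hv⟩).symm).2.2 t)
    have r1 := k1.resolve_left (m n1)
    have r2 := k2.resolve_left (m n2)
    have r3 := k3.resolve_left (m n3)
    obtain e | e | e : (t1 + 1 < t2 ∨ t2 + 1 < t1 ∨ t1 = t2) ∨ (t1 + 1 < t3 ∨ t3 + 1 < t1 ∨ t1 = t3) ∨
      (t2 + 1 < t3 ∨ t3 + 1 < t2 ∨ t2 = t3) := by omega
    exacts [.inl (far n1 r1 r2 e s1), .inr (.inl (far n1 r1 r3 e s1)), .inr (.inr (far n2 r2 r3 e s2))]
  tr u a a' h h' hne hl v w h1 n1 h2 n2 hA := by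
    replace hl : lev κ a.1.1 = lev κ a'.1.1 := Int.cast_injective (α := ℂ) hl
    rcases kn_cases κ with hκ | hκ
    · exact absurd (up_AU hκ (lo_Lq u) h h' hl) hne
    obtain ⟨v', hv', w', hw', g1, g2, g3, g4, g5, g6, g7⟩ := tr_all hκ hk (up_Lq a) (up_Lq a') (lo_Lq u) (lo_Lq v) (lo_Lq w) hl
      h h' h1 n1 h2 n2 (po_adj.1 hA)
    exact ⟨⟨_, lo_mem hv'⟩, ⟨_, lo_mem hw'⟩, g1, g2, g3, g4, fun e => g5 (po_adj.1 e), fun e => g6 (po_adj.1 e),
      fun e => g7 (po_adj.1 e)⟩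

theorem base (hk : Ok κ M k) (hb : Bas κ ε k) (hu : u ∈ Lq κ ε M k) : rem u = ∅ := by
  refine eq_empty_of_forall_notMem fun x hx => ?_
  obtain ⟨h1, -, h3⟩ := mem_Lq.1 hu
  rcases hb with hb | ⟨rfl, hε, rfl⟩
  · exact absurd (st_le h1 hx) (not_le.2 hb)
  have h4 : bx u x ∈ Lab .D M 0 := lab_bx h1 hx
  have h5 := bZero.df M 0 _ (mem_Lab.1 h4).1 hk.1 (by
    rcases bZero.zero .D M _ ⟨hk.1, Nat.zero_le _⟩ h4 with e | e <;> rw [e] <;> decide)
  rw [row_bx hx, ← h3 rfl] at h5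
  exact hε (Units.ext (by simpa using h5.symm))

end PoP

/-- **the combinatorial axioms** -/
theorem bPo : BPo where
  ok _ _ _ _ := PoP.po_ok
  levz _ _ _ := PoP.levz
  lev _ _ _ _ _ _ := PoP.lev_inj
  down _ _ _ _ _ hk hu := ⟨fun h => by
    obtain ⟨x, hx⟩ := nonempty_iff_ne_empty.2 h
    obtain ⟨v, hv, e⟩ := PoP.exists_can hk hu hx
    exact ⟨v, hv, x, hx, e⟩, fun ⟨_, _, _, hx, _⟩ => ne_empty_of_mem hx⟩
  base _ _ _ _ _ := PoP.base

end Cfsg.Agent.MO.UD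
end

-- part: MO/J/K
section
/-!
# MO-J: the kernel (helper17)

An eigenfunction of the sum of the reflections which vanishes on the elements with a box: its coefficients in the orthonormal
system `X` live on one level and are killed by the addition of a box.  `bK : BK`.
-/

set_option autoImplicit false

namespace Cfsg.Agent.MO.J

open Equiv Finset Cfsg.Agent.H614
open Cfsg.Agent.LV.Cl (SG On Stab cyc sw tt)
open Cfsg.Agent.LV.Cl.Cj

namespace Kl

variable {n M : ℕ} {κ : Kn} {T : Finset (Fin n)} {g : SG n} {u v w : Finset Pt} {f f' : SG n → ℂ}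

theorem sw_mem {x y : Fin n} (hx : x ∈ T) (hy : y ∈ T) (e : ℤˣ) : sw x y e ∈ On T := fun j hj => by
  have h1 : j ≠ x := fun e => hj (e ▸ hx)
  have h2 : j ≠ y := fun e => hj (e ▸ hy)
  exact ⟨swap_apply_of_ne_of_ne h1 h2, if_neg (not_or.2 ⟨h1, h2⟩)⟩

theorem sw_sw (x y : Fin n) (e : ℤˣ) : sw x y e * sw x y e = 1 := SG.ext (swap_mul_self x y) (funext fun j => by
  show (if swap x y j = x ∨ swap x y j = y then e else 1) * (if j = x ∨ j = y then e else 1) = 1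
  simp only [swap_apply_eq_iff, swap_apply_left, swap_apply_right, or_comm (a := j = y), Int.units_mul_self])

/-- adjoint pairs -/
def Ad (G : Subgroup (SG n)) (f f' F F' : SG n → ℂ) : Prop := ∑ᶠ g : G, F g * f' g = ∑ᶠ g : G, f g * F' g

section

variable {G : Subgroup (SG n)} {F F' H H' : SG n → ℂ}

theorem ad_mul {t : SG n} (ht : t ∈ G) (h : t * t = 1) : Ad G f f' (fun g => f (t * g)) fun g => f' (t * g) :=
  (finsum_comp_equiv (Equiv.mulLeft (⟨t, ht⟩ : G))).symm.trans (finsum_congr fun g => by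
    show f (t * (t * g)) * f' (t * g) = _
    rw [← mul_assoc t t, h, one_mul])

theorem ad_add (a : Ad G f f' F F') (b : Ad G f f' H H') : Ad G f f' (fun g => F g + H g) fun g => F' g + H' g := by
  have := Fintype.ofFinite G
  simp only [Ad, finsum_eq_sum_of_fintype, add_mul, mul_add, sum_add_distrib] at a b ⊢
  rw [a, b]

theorem ad_sum {s : Finset (Fin n)} {F F' : Fin n → SG n → ℂ} (a : ∀ i ∈ s, Ad G f f' (F i) (F' i)) :
    Ad G f f' (fun g => ∑ i ∈ s, F i g) fun g => ∑ i ∈ s, F' i g := by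
  have := Fintype.ofFinite G
  simp only [Ad, finsum_eq_sum_of_fintype, sum_mul, mul_sum] at a ⊢
  rw [sum_comm, sum_congr rfl a, sum_comm]

end

/-- the sum of the reflections is self-adjoint -/
theorem ip_cas (f f' : SG n → ℂ) : ip κ T (cas κ T f) f' = ip κ T f (cas κ T f') := by
  have h1 : Ad (On T ⊓ Ps n) f f' (cas .A T f) (cas .A T f') := ad_sum fun x hx => ad_sum fun y hy =>
    ad_mul ⟨sw_mem hx (mem_filter.1 hy).1 1, funext fun _ => ite_self _⟩ (sw_sw _ _ _)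
  have h2 : Ad (On T) f f' (cas .D T f) (cas .D T f') := ad_sum fun x hx => ad_sum fun y hy =>
    ad_add (ad_mul (sw_mem hx (mem_filter.1 hy).1 _) (sw_sw _ _ _)) (ad_mul (sw_mem hx (mem_filter.1 hy).1 _) (sw_sw _ _ _))
  have h3 : Ad (On T) f f' (cas .B T f) (cas .B T f') := ad_add h2 (ad_sum fun x hx => ad_mul (t := tt x)
    (fun j hj => ⟨rfl, if_neg fun e : j = x => hj (e ▸ hx)⟩) (SG.ext (mul_one _) (funext fun _ => Int.units_mul_self _)))
  cases κ
  exacts [congrArg _ h1, congrArg _ h1, congrArg _ h3, congrArg _ h2]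

theorem cas_cast (f : SG n → ℤ) (g : SG n) : cas κ T (fun x => (f x : ℂ)) g = (cas κ T f g : ℤ) :=
  cas_map κ (Int.castAddHom ℂ) f g

theorem ip_smul {F F' : SG n → ℂ} {c c' : ℂ} (h : ∀ g ∈ Gp κ T, c * F g = c' * F' g) : c * ip κ T f F = c' * ip κ T f F' :=
  (ip_sum (s := {()}) (a := fun _ => c') (F := fun _ => F') fun g hg => (h g hg).trans (sum_singleton _ _).symm).trans
    (sum_singleton _ _)

theorem fix_iff {x : Fin n} : #(cyc g.π x) = 1 ↔ g.π x = x := by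
  refine ⟨fun h => card_le_one.1 h.le _ ((stab_cyc g.π x x).2 (self_mem _ _)) _ (self_mem _ _), fun h => ?_⟩
  refine card_eq_one.2 ⟨x, eq_singleton_iff_unique_mem.2 ⟨self_mem _ _, fun y hy => ?_⟩⟩
  obtain ⟨i, rfl⟩ := mem_cyc'.1 hy
  exact Perm.pow_apply_eq_self_of_apply_eq_self h i

theorem prod_fix {x : Fin n} (h : g.π x = x) : ∏ j ∈ cyc g.π x, g.s j = g.s x := by
  obtain ⟨y, hy⟩ := card_eq_one.1 (fix_iff.2 h)
  have h1 := self_mem g.π x
  rw [hy] at h1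
  rw [hy, prod_singleton, mem_singleton.1 h1]

theorem box_of_mem (h : bc κ ∈ sty T g) : ∃ C, IsBox κ T g C := by
  obtain ⟨C, hC, e⟩ := Multiset.mem_map.1 h
  obtain ⟨x, hx, rfl⟩ := mem_image.1 hC
  obtain ⟨h1, h2⟩ := Prod.ext_iff.1 e
  cases κ
  · exact ⟨_, x, hx, rfl, fix_iff.1 h1⟩
  · exact ⟨_, x, hx, rfl, h1⟩
  · exact ⟨_, x, hx, rfl, fix_iff.1 h1, (prod_fix (fix_iff.1 h1)).symm.trans h2⟩
  · exact ⟨_, x, hx, rfl, fix_iff.1 h1, (prod_fix (fix_iff.1 h1)).symm.trans h2⟩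

theorem raise_X (ho : Ok κ M #T) (hg : g ∈ Gp κ T) (h : bc κ ∉ sty T g) (hv : #v = M) :
    ∑ a ∈ add v, X κ M T (ux v a) g = 0 := by
  have h1 : ∀ τ : Fin M → Pt, ∑ j, YT κ (sty T g) (Function.update τ j ((τ j).1 + 1, (τ j).2)) = 0 := fun τ => by
    have h2 := Pars.raise (κ := κ) (d := bc κ) (sty_pos T g) (by rwa [sty_size (stab_Gp hg)]) (by cases κ <;> decide)
      (by rintro (rfl | rfl) <;> exact ⟨rfl, Pars.sty_one hg.2⟩) τ
    simpa only [Pars.uk_bc, Multiset.count_eq_zero.2 h, Nat.cast_zero, mul_zero, zero_mul] using h2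
  rcases kn_cases κ with hκ | hκ
  · rw [← h1 (tup M v), alt_up (YT_alt κ _) hv]
    rcases hκ with rfl | rfl <;> rfl
  have h2 : ∑ a ∈ add v, XM (sty T g) (tup M (ux v a)) = 0 := by
    refine mul_left_cancel₀ (cc_ne M) ?_
    have h3 : ∀ j, R (YM (sty T g)) (Function.update (tup M v) j ((tup M v j).1 + 1, (tup M v j).2)) =
        R (fun x => YM (sty T g) (Function.update x j ((x j).1 + 1, (x j).2))) (tup M v) := fun j =>
      ((R_step (YM (sty T g)) (tup M v) j (· + 1) 1).trans ((congrArg (· * _) (ite_self _)).trans (one_mul _))).symm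
    rw [← alt_up (XM_alt _) hv, mul_sum, mul_zero]
    simp only [← R_YM, h3]
    rw [← R_sum]
    refine sum_eq_zero fun e _ => mul_eq_zero_of_right _ ?_
    rcases hκ with rfl | rfl <;> exact h1 _
  rcases hκ with rfl | rfl <;> exact h2

/-- the hypotheses -/
structure Kf (κ : Kn) (T : Finset (Fin n)) (f : SG n → ℂ) : Prop where
  cf : Cf κ T f
  ev : ∃ e : ℂ, ∀ g ∈ Gp κ T, cas κ T f g = e * f g
  bx : ∀ g ∈ Gp κ T, ∀ C, IsBox κ T g C → f g = 0

/-- the coefficients -/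
noncomputable def co (κ : Kn) (M : ℕ) (T : Finset (Fin n)) (f : SG n → ℂ) (w : Finset Pt) : ℂ := ip κ T f fun g => X κ M T w g

theorem co_mem (hw : #w = M) (hA : κ = .A → ∀ a ∈ w, a.2 = false) (h : co κ M T f w ≠ 0) : w ∈ LabX κ M #T := by
  obtain ⟨g, hg⟩ : ∃ g : Gp κ T, X κ M T w g ≠ 0 := by
    by_contra e
    refine h (mul_eq_zero_of_right _ (finsum_eq_zero_of_forall_eq_zero fun g => ?_))
    exact mul_eq_zero_of_right _ (Int.cast_eq_zero.2 (not_not.1 (not_exists.1 e g)))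
  rw [← sty_size (stab_Gp g.2)]
  rcases kn_cases κ with hκ | hκ
  · rw [X_eq_Y hκ] at hg
    have h1 := mem_Lab.2 ⟨hw, bZero.rk κ M _ w hw hg, hA⟩
    rcases hκ with rfl | rfl <;> exact h1
  · rw [← image_tup hw]
    refine XK_ne hκ ?_
    rcases hκ with rfl | rfl <;> exact hg

theorem co_lev (ho : Ok κ M #T) (hf : Kf κ T f) (hv : v ∈ LabX κ M #T) (hw : w ∈ LabX κ M #T) (h : co κ M T f v ≠ 0)
    (h' : co κ M T f w ≠ 0) : lev κ v = lev κ w := by
  obtain ⟨e, he⟩ := hf.ev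
  have h1 : ∀ w ∈ LabX κ M #T, co κ M T f w ≠ 0 → (wc κ : ℂ) * e = (lev κ w - cst κ M #T : ℤ) := fun w hw h => by
    refine mul_right_cancel₀ h ?_
    have h2 : (1 : ℂ) * ip κ T (fun g => X κ M T w g) (cas κ T f) = e * ip κ T (fun g => X κ M T w g) f :=
      ip_smul fun g hg => (one_mul _).trans (he g hg)
    rw [one_mul, ip_comm, ip_cas, ip_comm _ f] at h2
    rw [mul_assoc, co, ← h2]
    refine ip_smul fun g hg => ?_
    rw [cas_cast]
    exact_mod_cast bXcas κ M T w g ho hw (stab_Gp hg)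
  exact sub_left_inj.1 (Int.cast_injective ((h1 v hv h).symm.trans (h1 w hw h')))

theorem mem_add {a : Pt} : a ∈ add v ↔ a ∈ v ∧ (a.1 + 1, a.2) ∉ v := mem_filter

theorem card_ux {a : Pt} (ha : a ∈ add v) : #(ux v a) = #v :=
  card_rp (mem_filter.1 ha).1 fun h => (mem_filter.1 ha).2 (mem_of_mem_erase h)

theorem lev_ux {a : Pt} (ha : a ∈ add v) : lev κ (ux v a) = lev κ v + (bc κ).1 * (2 * ps κ a + (bc κ).1) := by
  show ∑ z ∈ insert _ _, _ = ∑ z ∈ _, _ + _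
  rw [sum_insert fun h => (mem_filter.1 ha).2 (mem_of_mem_erase h), ← add_sum_erase _ _ (mem_filter.1 ha).1, ← Pars.uk_bc κ,
    Pars.ps_uk]
  push_cast
  ring

/-- the additions of a box at one position -/
theorem co_add (ho : Ok κ M #T) (hf : Kf κ T f) (hv : #v = M) (hA : κ = .A → ∀ a ∈ v, a.2 = false) (y : ℕ) :
    ∑ a ∈ add v with ps κ a = y, co κ M T f (ux v a) = 0 := by
  have h1 : ∑ a ∈ add v, co κ M T f (ux v a) = 0 := by
    have := Fintype.ofFinite (Gp κ T)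
    simp only [co, ip_eq, ← mul_sum]
    rw [sum_comm]
    refine mul_eq_zero_of_right _ (sum_eq_zero fun g _ => ?_)
    rw [← mul_sum]
    by_cases e : bc κ ∈ sty T g
    · obtain ⟨C, hC⟩ := box_of_mem e
      rw [hf.bx g g.2 C hC, zero_mul]
    · rw [← Int.cast_sum, raise_X ho g.2 e hv, Int.cast_zero, mul_zero]
  have h2 : ∀ a ∈ add v, co κ M T f (ux v a) ≠ 0 → ux v a ∈ LabX κ M #T := fun a ha => co_mem ((card_ux ha).trans hv) fun e z hz => by
    rcases mem_insert.1 hz with rfl | hz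
    exacts [hA e a (mem_filter.1 ha).1, hA e z (mem_of_mem_erase hz)]
  by_contra h
  obtain ⟨a, ha', h3⟩ := exists_ne_zero_of_sum_ne_zero h
  obtain ⟨ha, rfl⟩ := mem_filter.1 ha'
  refine h ((sum_filter_of_ne fun b hb h4 => ?_).trans h1)
  have h5 := co_lev ho hf (h2 b hb h4) (h2 a ha h3) h4 h3
  rw [lev_ux hb, lev_ux ha, add_right_inj, mul_right_inj' (by cases κ <;> decide)] at h5
  omega

theorem exists_other (ho : Ok κ M #T) (hf : Kf κ T f) (hw : w ∈ LabX κ M #T) (h : co κ M T f w ≠ 0) {y : ℕ} {c : Bool}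
    (h1 : (y + 1, c) ∈ w) (h2 : (y, c) ∉ w) : ∃ b ∈ add (bx w (y + 1, c)), b ≠ (y, c) ∧ ps κ b = ps κ (y, c) := by
  obtain ⟨h3, -, h4⟩ := mem_Lab.1 (LabX_subset _ _ _ hw)
  have h5 := co_add ho hf (v := bx w (y + 1, c)) ((card_rp h1 fun e => h2 (mem_of_mem_erase e)).trans h3) (fun e z hz => by
    rcases mem_insert.1 hz with rfl | hz
    exacts [h4 e (y + 1, c) h1, h4 e z (mem_of_mem_erase hz)]) (ps κ (y, c))
  by_contra e
  have h6 : (y, c) ∈ add (bx w (y + 1, c)) := mem_filter.2 ⟨mem_insert_self _ _, by simp only [bx, rp, _root_.add_tsub_cancel_right, _root_.Finset.mem_insert, _root_.Prod.mk.injEq, _root_.Nat.add_eq_left, _root_.one_ne_zero, _root_.and_true, _root_.Finset.mem_erase, _root_.ne_eq, _root_.not_true_eq_false, _root_.false_and, _root_.or_self, _root_.not_false_eq_true]⟩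
  rw [sum_eq_single_of_mem (s := {a ∈ add (bx w (y + 1, c)) | ps κ a = ps κ (y, c)}) (y, c) (mem_filter.2 ⟨h6, rfl⟩)
    fun b hb e' => absurd ⟨b, (mem_filter.1 hb).1, e', (mem_filter.1 hb).2⟩ e] at h5
  refine h (Eq.trans (congrArg _ ?_) h5)
  show w = insert (y + 1, c) ((insert (y, c) (w.erase (y + 1, c))).erase (y, c))
  rw [erase_insert fun e => h2 (mem_of_mem_erase e), insert_erase h1]

theorem rem_AU (hκ : κ = .A ∨ κ = .U) (ho : Ok κ M #T) (hf : Kf κ T f) (hw : w ∈ LabX κ M #T) (h : co κ M T f w ≠ 0) :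
    rem w = ∅ := filter_false_of_mem fun ⟨y, c⟩ h1 ⟨h2, h3⟩ => by
  obtain ⟨y, rfl⟩ := Nat.exists_eq_add_one_of_ne_zero h2.ne'
  obtain ⟨b, hb, h4, h5⟩ := exists_other ho hf hw h h1 h3
  rcases hκ with rfl | rfl
  · have h6 := (mem_Lab.1 hw).2.2 rfl
    rcases mem_insert.1 (mem_filter.1 hb).1 with e | e
    exacts [h4 e, h4 (Prod.ext h5 ((h6 b (mem_of_mem_erase e)).trans (h6 _ h1).symm))]
  · exact h4 (Cu.ps_U_inj h5)

theorem shape (hκ : κ = .B ∨ κ = .D) (ho : Ok κ M #T) (hf : Kf κ T f) (hw : w ∈ LabX κ M #T) (h : co κ M T f w ≠ 0) :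
    ∃ p r, 2 * p + r = M ∧ #T = r ^ 2 / 4 ∧ ∃ I ⊆ Ico p (p + r), #I = r / 2 ∧ w = cu p r I := by
  have h1 : ∀ y c, (y + 1, c) ∈ w → (y, c) ∉ w → (y, !c) ∈ w ∧ (y + 1, !c) ∉ w := fun y c a1 a2 => by
    obtain ⟨⟨x, d⟩, hb, a3, a4⟩ := exists_other ho hf hw h a1 a2
    rw [Cu.ps_B hκ, Cu.ps_B hκ] at a4
    obtain rfl : x = y := a4
    obtain rfl : d = !c := by cases c <;> cases d <;> simp at a3 ⊢
    simpa only [mem_add, bx, rp, _root_.add_tsub_cancel_right, _root_.Finset.mem_insert, _root_.Prod.mk.injEq, _root_.Bool.not_eq_eq_eq_not, _root_.Bool.eq_not_self, _root_.and_false, _root_.Finset.mem_erase, _root_.ne_eq, _root_.Nat.left_eq_add, _root_.one_ne_zero, _root_.and_self, _root_.not_false_eq_true, _root_.true_and, _root_.false_or, _root_.Nat.add_eq_left, _root_.Nat.add_left_cancel_iff] using hb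
  obtain ⟨p, hp⟩ := Cu.exists_range (R := dbl w) fun x hx => by
    rw [mem_dbl] at hx ⊢
    exact ⟨by_contra fun e => (h1 x false hx.1 e).2 hx.2, by_contra fun e => (h1 x true hx.2 e).2 hx.1⟩
  obtain ⟨q, hq⟩ := Cu.exists_range (R := dbl w ∪ sing w) fun x hx => by
    have a1 := h1 x false
    have a2 := h1 x true
    simp only [mem_union, mem_dbl, mem_sing, Bool.not_false, Bool.not_true] at hx a1 a2 ⊢
    (clear * - hx a1 a2; tauto)
  obtain ⟨r, rfl⟩ := Nat.exists_eq_add_of_le (show p ≤ q from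
    not_lt.1 fun e => lt_irrefl q ((hq q).1 (mem_union_left _ ((hp q).2 e))))
  have h2 : dbl w = range p := Finset.ext fun x => by rw [hp, mem_range]
  have h3 : sing w = Ico p (p + r) := Finset.ext fun x => by
    have a1 := @disjoint_left.1 (disj_dbl w) x
    rw [mem_Ico, ← hq, ← not_lt, ← hp, mem_union]
    (clear * - a1; tauto)
  obtain ⟨h4, h5⟩ := (mem_LabX hκ).1 hw
  obtain ⟨h6, h7, -⟩ := mem_Lab.1 h4
  have h8 := card_eq w
  rw [card_row_true, h2, card_range] at h5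
  rw [h6, h2, h3, card_range, Nat.card_Ico] at h8
  refine ⟨p, r, by omega, Cu.rank_B (p := p) (M := M) hκ (by omega) ?_, low w, h3 ▸ low_subset w, by omega, by rw [cu_eq, ← h2, ← h3, fm_self]⟩
  simp only [Cu.ps_B hκ] at h7
  rw [← h7, sum_pos w fun x => x, h2, h3, ← sum_range_add_sum_Ico _ (Nat.le_add_right p r), two_nsmul, add_right_comm]

theorem co_swap (hκ : κ = .B ∨ κ = .D) (ho : Ok κ M #T) (hf : Kf κ T f) {p r x : ℕ} {I : Finset ℕ} (hM : 2 * p + r = M)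
    (hI : I ⊆ Ico p (p + r)) (h1 : x ∈ I) (h2 : x + 1 ∉ I) (h3 : x + 1 < p + r) :
    co κ M T f (cu p r (insert (x + 1) (I.erase x))) = -co κ M T f (cu p r I) := by
  have h4 := mem_Ico.1 (hI h1)
  have h5 : #(cu p r I) = M := by
    obtain ⟨a1, a2, -⟩ := fm_spec (D := range p) (disjoint_left.2 fun x h h' => by
      simp only [mem_range, mem_Ico] at h h'; omega) hI
    rw [card_eq, cu_eq, a1, a2, card_range, Nat.card_Ico]
    omega
  have h6 := co_add ho hf (v := insert (x, false) ((cu p r I).erase (x + 1, false)))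
    ((card_rp (by simp [Cu.mem_cu, h2]; omega) (by simp only [Cu.mem_cu, h1, _root_.Finset.mem_erase, _root_.ne_eq, _root_.Prod.mk.injEq, _root_.Nat.left_eq_add, _root_.one_ne_zero, _root_.and_true, _root_.not_false_eq_true, _root_.Bool.false_eq_true, ↓ _root_.reduceIte, _root_.not_true_eq_false, _root_.and_false, _root_.or_false, _root_.true_and, _root_.not_lt]; omega)).trans h5)
    (by rintro rfl; simp at hκ) x
  rw [show {a ∈ add _ | ps κ a = x} = {(x, false), (x, true)} from Finset.ext fun ⟨y, c⟩ => ?_, sum_pair (by simp)] at h6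
  · refine eq_neg_of_add_eq_zero_right (Eq.trans ?_ h6)
    congr 2 <;> ext ⟨y, c⟩ <;> by_cases a : y = x <;> by_cases b : y = x + 1 <;> cases c <;>
      simp only [ux, rp, Cu.mem_cu, a, b, h1, h2, _root_.Bool.false_eq_true, ↓ _root_.reduceIte, _root_.not_true_eq_false, _root_.and_false, _root_.or_false, _root_.Finset.erase_insert_eq_erase, _root_.Finset.mem_insert, _root_.Prod.mk.injEq, _root_.Nat.left_eq_add, _root_.one_ne_zero, _root_.and_true, _root_.Finset.mem_erase, _root_.ne_eq, _root_.not_false_eq_true, _root_.true_and, _root_.false_and, _root_.or_self, _root_.iff_false, _root_.not_lt, _root_.or_true, _root_.Bool.true_eq_false, _root_.and_self, _root_.Nat.add_eq_left, _root_.iff_true, _root_.Nat.add_left_cancel_iff, _root_.false_or, _root_.true_or] <;> (clear * - a b h4 hM h3 h5; omega)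
  · by_cases a : y = x <;> cases c <;> simp only [mem_add, Cu.ps_B hκ, Cu.mem_cu, a, h1, h2, _root_.Finset.mem_filter, _root_.Finset.mem_insert, _root_.Finset.mem_erase, _root_.ne_eq, _root_.Prod.mk.injEq, _root_.Nat.left_eq_add, _root_.one_ne_zero, _root_.and_true, _root_.not_false_eq_true, _root_.Bool.false_eq_true, ↓ _root_.reduceIte, _root_.not_true_eq_false, _root_.and_false, _root_.or_false, _root_.true_and, _root_.true_or, _root_.Nat.add_eq_left, _root_.false_and, _root_.or_self, _root_.and_self, _root_.Finset.mem_singleton, _root_.Bool.true_eq_false, _root_.or_true, _root_.Nat.add_left_cancel_iff, _root_.false_or, _root_.not_lt, _root_.iff_true, _root_.Nat.add_right_cancel_iff, _root_.not_or, _root_.not_and, _root_.Decidable.not_not] <;> omega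

theorem sq_inj {r s : ℕ} (h : r % 2 = s % 2) (h' : r ^ 2 / 4 = s ^ 2 / 4) : r = s := by
  have h1 : ∀ {r s : ℕ}, r + 2 ≤ s → r ^ 2 / 4 < s ^ 2 / 4 := fun {r s} h => by
    have : r ^ 2 + 4 ≤ s ^ 2 := by nlinarith only [h]
    omega
  rcases lt_trichotomy r s with e | e | e
  exacts [absurd h' (h1 (by omega)).ne, e, absurd h' (h1 (by omega)).ne']

theorem kf_Y (hκ : κ = .B ∨ κ = .D) (ho : Ok κ M #T) (hu : u ∈ Lab κ M #T) (hr : rem u = ∅) :
    Kf κ T fun g => Y κ M T u g := by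
  refine ⟨fun g _ h hh => congrArg (fun s => (YK κ M s u : ℂ)) (sty_conj' (stab_Gp hh) g),
    ⟨(lev κ u - cst κ M #T : ℤ), fun g hg => ?_⟩, fun g hg C hC => ?_⟩
  · have h := bCas κ M T u g ho hu (stab_Gp hg)
    rw [show wc κ = 1 by rcases hκ with rfl | rfl <;> rfl, one_mul] at h
    rw [cas_cast, h]
    exact Int.cast_mul _ _
  · obtain ⟨x, hx, -, h1, h2⟩ : ∃ x ∈ T, C = {x} ∧ g.π x = x ∧ g.s x = 1 := by rcases hκ with rfl | rfl <;> exact hC
    have h3 := YK_box κ (sty (T \ cyc g.π x) g) (mem_Lab.1 hu).1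
    rw [hr, sum_empty, show bc κ = (#(cyc g.π x), ∏ j ∈ cyc g.π x, g.s j) by
      rw [fix_iff.2 h1, prod_fix h1, h2]; rcases hκ with rfl | rfl <;> rfl, ← sty_step (stab_Gp hg) hx] at h3
    exact Int.cast_eq_zero.2 h3

theorem exists_co (ho : Ok κ M #T) (hf : Cf κ T f) (hg : g ∈ Gp κ T) (h : f g ≠ 0) : ∃ w ∈ LabX κ M #T, co κ M T f w ≠ 0 := by
  obtain ⟨w, hw, h1⟩ := exists_ne_zero_of_sum_ne_zero (bXc_of bPars κ M T f ho hf g hg ▸ h)
  exact ⟨w, hw, left_ne_zero_of_mul h1⟩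

theorem ker (ho : Ok κ M #T) (hf : Kf κ T f) (hg : g ∈ Gp κ T) (h : f g ≠ 0) :
    ∃ u ∈ Lab κ M #T, rem u = ∅ ∧ ∃ t : ℂ, ∀ g ∈ Gp κ T, f g = t * Y κ M T u g := by
  obtain ⟨w, hw, h1⟩ := exists_co ho hf.cf hg h
  rcases kn_cases κ with hκ | hκ
  · refine ⟨w, LabX_subset _ _ _ hw, rem_AU hκ ho hf hw h1, co κ M T f w, fun g hg => ?_⟩
    rw [← X_eq_Y hκ]
    refine (bXc_of bPars κ M T f ho hf.cf g hg).trans (sum_eq_single_of_mem w hw fun v hv e => mul_eq_zero_of_left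
      (by_contra fun h2 => e ?_) _)
    have h3 := rem_AU hκ ho hf hv h2
    have h4 := rem_AU hκ ho hf hw h1
    rcases hκ with rfl | rfl
    · have h5 : ∀ u ∈ Lab .A M #T, rem u = ∅ → u = Cu.tw false M 0 := fun u hu hr => by
        obtain ⟨a, b, rfl⟩ := Cu.exists_tw hr
        obtain ⟨a1, -, a2⟩ := mem_Lab.1 hu
        obtain rfl : b = 0 := by_contra fun e => by simpa using a2 rfl (0, true) (Cu.mem_tw.2 (Nat.pos_of_ne_zero e))
        rw [← a1, Cu.card_tw, add_zero]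
      rw [h5 v hv h3, h5 w hw h4]
    · exact cuspU hv hw h3 h4
  obtain ⟨p, r, a1, a2, I, a3, a4, rfl⟩ := shape hκ ho hf hw h1
  have b0 : Disjoint (range p) (Ico p (p + r)) := disjoint_left.2 fun x h h' => by
    simp only [mem_range, mem_Ico] at h h'; omega
  have b1 : cu p r ∅ ∈ Lab κ M #T := Fam_subset hκ (LabX_subset _ _ _ hw) (mem_Fam.2
    ⟨(fm_spec b0 (empty_subset _)).1.trans (fm_spec b0 a3).1.symm, (fm_spec b0 (empty_subset _)).2.1.trans (fm_spec b0 a3).2.1.symm⟩)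
  have b2 : rem (cu p r ∅) = ∅ := Cu.cu_empty p r ▸ Cu.rem_tw
  have b3 := kf_Y hκ ho b1 b2
  have b4 : ∀ {f : SG n → ℂ}, Kf κ T f → ∀ v ∈ LabX κ M #T, co κ M T f v ≠ 0 →
      ∃ J ⊆ Ico p (p + r), #J = #I ∧ v = cu p r J := fun hf v hv e => by
    obtain ⟨p', r', c1, c2, J, c3, c4, c5⟩ := shape hκ ho hf hv e
    obtain rfl : r' = r := sq_inj (by omega) (c2.symm.trans a2)
    obtain rfl : p' = p := by omega
    exact ⟨J, c3, c4.trans a4.symm, c5⟩
  obtain ⟨x, hx, b5⟩ := unit bZero ho b1 b2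
  obtain ⟨v, hv, b6⟩ := exists_co ho b3.cf hx (by rcases b5 with e | e <;> simp [e])
  obtain ⟨J, c1, c2, rfl⟩ := b4 b3 v hv b6
  generalize hY : (fun g => (Y κ M T (cu p r ∅) g : ℂ)) = F at b3 b6
  have b7 : ∀ L ⊆ Ico p (p + r), #L = #J →
      co κ M T f (cu p r L) = co κ M T f (cu p r J) / co κ M T F (cu p r J) * co κ M T F (cu p r L) := fun L c3 c4 => by
    refine (bConn p r (fun L => co κ M T f (cu p r L) = co κ M T f (cu p r J) / co κ M T F (cu p r J) * co κ M T F (cu p r L))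
      (fun L x d1 d2 d3 d4 => ?_) L J c3 c1 c4).symm ▸ (div_mul_cancel₀ _ b6).symm
    rw [co_swap hκ ho hf a1 d1 d2 d3 d4, co_swap hκ ho b3 a1 d1 d2 d3 d4, mul_neg, neg_inj]
  refine ⟨_, b1, b2, co κ M T f (cu p r J) / co κ M T F (cu p r J), fun g hg => ?_⟩
  rw [show (Y κ M T (cu p r ∅) g : ℂ) = F g from congrFun hY g, bXc_of bPars κ M T f ho hf.cf g hg,
    bXc_of bPars κ M T F ho b3.cf g hg, mul_sum]
  refine sum_congr rfl fun v hv => ?_
  rw [← mul_assoc]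
  congr 1
  by_cases e : co κ M T f v = 0 ∧ co κ M T F v = 0
  · exact e.1.trans (mul_eq_zero_of_right _ e.2).symm
  · obtain ⟨L, d1, d2, rfl⟩ := (not_and_or.1 e).elim (b4 hf v hv) (b4 b3 v hv)
    exact b7 L d1 (d2.trans c2.symm)

end Kl

/-- **the kernel** -/
theorem bK : BK where
  ker _ _ _ _ f e ho h1 h2 h3 := or_iff_not_imp_left.2 fun h => by
    obtain ⟨g, hg, h4⟩ : ∃ g ∈ _, f g ≠ 0 := by simpa using h
    exact Kl.ker ho ⟨h1, ⟨e, h2⟩, h3⟩ hg h4
  cusp _ _ _ _ hκ _ := cusp hκ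
  cuspA _ _ _ := cuspA
  cuspU _ _ _ _ _ := cuspU
  unit _ _ _ _ _ := unit bZero

end Cfsg.Agent.MO.J
end

-- part: MO/UD/Kq
section
/-!
# MO/UD: the kernel and the labels without boxes (helper17)

The symmetrised function is extended by zero and split along the eigenvalues of the sum of the reflections; every part is
given by `bK`.  `bKq : BKq`.
-/

set_option autoImplicit false

namespace Cfsg.Agent.MO.UD

open Finset Classical Cfsg.Agent.MO.J
open Cfsg.Agent.LV.Cl (SG On Stab cyc sw tt sgn)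
open Cfsg.Agent.LV.Cl.Cj (self_mem stab_on)

namespace Kq

variable {n M k : ℕ} {κ : Kn} {ε : ℤˣ} {T T' : Finset (Fin n)} {g h r : SG n} {x y : Fin n} {c c' : Finset Pt}

/-! ### the cosets -/

theorem mem_Om : g ∈ Om κ ε T ↔ g ∈ Gp κ T ∧ (κ = .D → sgn g = ε) := mem_filter.trans (and_iff_right (mem_univ _))

theorem mem_Gp : g ∈ Gp κ T ↔ g ∈ On T ∧ (κ = .A ∨ κ = .U → g.s = 1) := by
  cases κ
  exacts [⟨fun h => ⟨h.1, fun _ => h.2⟩, fun h => ⟨h.1, h.2 (Or.inl rfl)⟩⟩,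
    ⟨fun h => ⟨h.1, fun _ => h.2⟩, fun h => ⟨h.1, h.2 (Or.inr rfl)⟩⟩, (and_iff_left (by simp)).symm, (and_iff_left (by simp)).symm]

theorem On_mono (h : T' ⊆ T) (hg : g ∈ On T') : g ∈ On T := fun j hj => hg j fun e => hj (h e)

theorem Om_mono (h : T' ⊆ T) (hg : g ∈ Om κ ε T') : g ∈ Om κ ε T := by
  rw [mem_Om, mem_Gp] at hg ⊢
  exact ⟨⟨On_mono h hg.1.1, hg.1.2⟩, hg.2⟩

theorem mul_Om (hr : r ∈ Om κ 1 T) : r * g ∈ Om κ ε T ↔ g ∈ Om κ ε T := by
  rw [mem_Om] at hr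
  rw [mem_Om, mem_Om, mul_mem_cancel_left hr.1, map_mul]
  exact and_congr_right fun _ => imp_congr_right fun e => by rw [hr.2 e, one_mul]

theorem conj_Om (hh : h ∈ Gp κ T) : h * g * h⁻¹ ∈ Om κ ε T ↔ g ∈ Om κ ε T := by
  rw [mem_Om, mem_Om, mul_mem_cancel_right (inv_mem hh), mul_mem_cancel_left hh, map_mul, map_mul, map_inv, mul_inv_cancel_comm]

theorem sw_Om (hx : x ∈ T) (hy : y ∈ T) (hxy : x ≠ y) {e : ℤˣ} (he : κ = .A ∨ κ = .U → e = 1) : sw x y e ∈ Om κ 1 T :=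
  mem_Om.2 ⟨mem_Gp.2 ⟨Kl.sw_mem hx hy e, fun h => he h ▸ funext fun _ => ite_self _⟩, fun _ =>
    (Cas.prod_sw (A := univ) hxy e).trans (by rw [if_pos (mem_univ _), if_pos (mem_univ _), Int.units_mul_self])⟩

theorem sgn_on (hg : g ∈ On T) : sgn g = ((sty T g).map Prod.snd).prod := by
  rw [sty_sign (stab_on hg)]
  exact (prod_subset (subset_univ T) fun j _ hj => (hg j hj).2).symm

/-- the sum of the reflections is local -/
theorem cas_loc {f f' : SG n → ℂ} {g' : SG n} (h : ∀ r ∈ Om κ 1 T, f (r * g) = f' (r * g')) : cas κ T f g = cas κ T f' g' := by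
  have h1 : ∀ e, (κ = .A ∨ κ = .U → e = 1) → ∀ x ∈ T, ∀ y ∈ T.filter (x < ·), f (sw x y e * g) = f' (sw x y e * g') :=
    fun e he x hx y hy => h _ (sw_Om hx (mem_filter.1 hy).1 (mem_filter.1 hy).2.ne he)
  have h2 := sum_congr rfl fun x hx => sum_congr rfl (h1 1 (fun _ => rfl) x hx)
  have h3 := fun (e : ¬ (κ = .A ∨ κ = .U)) => sum_congr rfl fun x hx => sum_congr rfl fun y hy =>
    congrArg₂ (· + ·) (h1 1 (fun _ => rfl) x hx y hy) (h1 (-1) (absurd · e) x hx y hy)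
  cases κ
  · exact h2
  · exact h2
  · exact congrArg₂ (· + ·) (h3 (by simp)) (sum_congr rfl fun x hx => h _ (mem_Om.2 ⟨Cas.tt_on hx, fun e => nomatch e⟩))
  · exact h3 (by simp)

theorem cas_add (f f' : SG n → ℂ) (g : SG n) : cas κ T (fun x => f x + f' x) g = cas κ T f g + cas κ T f' g := by
  cases κ <;> simp only [cas, sum_add_distrib] <;> ring

/-! ### the graph automorphism -/

theorem tt_tt (x : Fin n) : tt x * tt x = 1 := LV.Cl.SG.ext (mul_one _) (funext fun _ => Int.units_mul_self _)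

theorem sgn_tt (x : Fin n) : sgn (tt x) = -1 := (Cas.prod_tt univ x).trans (if_pos (mem_univ _))

theorem tt_sw (m x y : Fin n) (e : ℤˣ) : tt m * sw x y e = sw x y (e * ((tt m).s x * (tt m).s y)) * tt m ∨ x = y := by
  refine or_iff_not_imp_right.2 fun hxy => LV.Cl.SG.ext ((one_mul _).trans (mul_one _).symm) (funext fun j => ?_)
  show (tt m).s (Equiv.swap x y j) * (if j = x ∨ j = y then e else 1) = (if j = x ∨ j = y then _ else 1) * (tt m).s j
  generalize (tt m).s = s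
  by_cases h1 : j = x
  · rw [h1, Equiv.swap_apply_left, if_pos (Or.inl rfl), if_pos (Or.inl rfl), mul_assoc, mul_right_comm, Int.units_mul_self, one_mul,
      mul_comm]
  by_cases h2 : j = y
  · rw [h2, Equiv.swap_apply_right, if_pos (Or.inr rfl), if_pos (Or.inr rfl), mul_assoc, mul_assoc, Int.units_mul_self, mul_one,
      mul_comm]
  · rw [Equiv.swap_apply_of_ne_of_ne h1 h2, if_neg (not_or.2 ⟨h1, h2⟩), if_neg (not_or.2 ⟨h1, h2⟩), mul_comm]

theorem gf_cases (κ : Kn) (T : Finset (Fin n)) : ((∀ g, gf κ T g = g) ∧ ∀ h ∈ Gp κ T, h ∈ Om κ 1 T) ∨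
    κ = .D ∧ ∃ m ∈ T, ∀ g, gf κ T g = tt m * g * tt m := by
  by_cases e : κ = .D ∧ T.Nonempty
  · exact Or.inr ⟨e.1, _, min'_mem T e.2, fun _ => dif_pos e⟩
  · refine Or.inl ⟨fun _ => dif_neg e, fun h hh => mem_Om.2 ⟨hh, fun e' => ?_⟩⟩
    rw [sgn_on (Gp_le κ T hh), not_nonempty_iff_eq_empty.1 (not_and.1 e e'), sty_empty]
    rfl

theorem gf_Om (hg : g ∈ Om κ ε T') : gf κ T g ∈ Om κ ε T' := by
  rcases gf_cases κ T with ⟨e, -⟩ | ⟨rfl, m, -, e⟩ <;> rw [e]
  · exact hg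
  · obtain ⟨h1, h2⟩ := mem_Om.1 hg
    refine mem_Om.2 ⟨fun j hj => ⟨(h1 j hj).1, ?_⟩, fun e => by rw [map_mul, map_mul, h2 e, sgn_tt, mul_neg_one, neg_mul, neg_neg, one_mul]⟩
    show (tt m).s (g.π j) * g.s j * (tt m).s j = 1
    rw [(h1 j hj).1, (h1 j hj).2, mul_one, Int.units_mul_self]

theorem cas_gf (φ : SG n → ℂ) (g : SG n) : cas κ T (fun x => φ (gf κ T x)) g = cas κ T φ (gf κ T g) := by
  rcases gf_cases κ T with ⟨e, -⟩ | ⟨rfl, m, -, e⟩ <;> simp only [e]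
  refine sum_congr rfl fun x _ => sum_congr rfl fun y hy => ?_
  have h1 := fun e => (tt_sw m x y e).resolve_right (mem_filter.1 hy).2.ne
  beta_reduce
  rw [← mul_assoc, ← mul_assoc, h1, h1]
  rcases Int.units_eq_one_or ((tt m).s x * (tt m).s y) with e | e <;> rw [e] <;> simp only [mul_assoc, mul_one, mul_neg, neg_neg]
  exact add_comm _ _

/-- the symmetrised function, extended by zero -/
noncomputable def ex (κ : Kn) (ε : ℤˣ) (T : Finset (Fin n)) (φ : SG n → ℂ) (g : SG n) : ℂ :=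
  if g ∈ Om κ ε T then φ g + φ (gf κ T g) else 0

variable {φ f : SG n → ℂ}

theorem cas_ex (φ : SG n → ℂ) : cas κ T (ex κ ε T φ) = ex κ ε T (cas κ T φ) := funext fun g => by
  by_cases e : g ∈ Om κ ε T
  · rw [ex, if_pos e, ← cas_gf, ← cas_add]
    exact cas_loc fun r hr => if_pos ((mul_Om hr).2 e)
  · rw [ex, if_neg e, cas_loc (f' := fun x => 0 * φ x) (g' := g) fun r hr => by rw [ex, if_neg (mt (mul_Om hr).1 e), zero_mul],
      cas_mul, zero_mul]

theorem cf_ex (hφ : Iv κ ε T φ) : Cf κ T (ex κ ε T φ) := fun g _ h hh => by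
  refine if_ctx_congr (conj_Om hh) (fun hg => ?_) fun _ => rfl
  rcases gf_cases κ T with ⟨e, e'⟩ | ⟨rfl, m, hm, e⟩
  · rw [e, e, hφ g hg h (e' h hh)]
  have h1 := gf_Om (T := T) hg
  have h2 : (tt m)⁻¹ = tt m := inv_eq_of_mul_eq_one_right (tt_tt m)
  have h3 : tt m ∈ Gp .D T := Cas.tt_on hm
  rw [e] at h1
  rw [e, e]
  rcases Int.units_eq_one_or (sgn h) with e' | e'
  · rw [hφ g hg h (mem_Om.2 ⟨hh, fun _ => e'⟩), ← hφ _ h1 (tt m * h * tt m) (mem_Om.2 ⟨mul_mem (mul_mem h3 hh) h3, fun _ => by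
      rw [map_mul, map_mul, e', sgn_tt, mul_one, Int.units_mul_self]⟩)]
    simp only [mul_inv_rev, h2, mul_assoc, ← mul_assoc (tt m) (tt m), tt_tt, one_mul]
  · rw [add_comm, ← hφ g hg (tt m * h) (mem_Om.2 ⟨mul_mem h3 hh, fun _ => by rw [map_mul, e', sgn_tt, Int.units_mul_self]⟩),
      ← hφ _ h1 (h * tt m) (mem_Om.2 ⟨mul_mem hh h3, fun _ => by rw [map_mul, e', sgn_tt, Int.units_mul_self]⟩)]
    simp only [mul_inv_rev, h2, mul_assoc, ← mul_assoc (tt m) (tt m), tt_tt, one_mul]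

/-! ### boxes -/

theorem cyc_fix (hg : g.π x = x) : cyc g.π x = {x} :=
  eq_singleton_iff_unique_mem.2 ⟨self_mem _ _, fun _ hy => card_le_one.1 (Kl.fix_iff.2 hg).le _ hy _ (self_mem _ _)⟩

theorem cy_fix (hg : g ∈ On T') (hx : x ∉ T') : Cas.cy g x = (1, 1) :=
  Prod.ext (Kl.fix_iff.2 (hg x hx).1) ((Kl.prod_fix (hg x hx).1).trans (hg x hx).2)

theorem exists_two (h : T' ⊆ T) (hc : #T = #T' + 2) :
    ∃ x y, x ≠ y ∧ T \ T' = {x, y} ∧ bo .U (T \ T') = sw x y 1 := by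
  have h1 : #(T \ T') = 2 := by rw [card_sdiff_of_subset h, hc, Nat.add_sub_cancel_left]
  have h2 : (T \ T').Nonempty := card_pos.1 (by omega)
  have h3 := (min'_lt_max'_of_card _ (show 1 < #(T \ T') by omega)).ne
  exact ⟨_, _, h3, (eq_of_subset_of_card_le (insert_subset (min'_mem _ h2) (singleton_subset_iff.2 (max'_mem _ h2)))
    (by rw [card_pair h3, h1])).symm, dif_pos ⟨rfl, h2⟩⟩

theorem bo_two (h : T' ⊆ T) (hc : #T = #T' + 2) :
    bo .U (T \ T') ∈ Om κ 1 T ∧ ∀ g ∈ On T', sty T (bo .U (T \ T') * g) = (2, 1) ::ₘ sty T' g := by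
  obtain ⟨x, y, h1, h2, h3⟩ := exists_two h hc
  obtain ⟨h4, h5⟩ := mem_sdiff.1 (h2 ▸ mem_insert_self x {y})
  obtain ⟨h6, h7⟩ := mem_sdiff.1 (h2 ▸ mem_insert_of_mem (mem_singleton_self y) : y ∈ T \ T')
  rw [h3]
  refine ⟨sw_Om h4 h6 h1 fun _ => rfl, fun g hg => ?_⟩
  rw [Cas.sty_join (stab_on (On_mono h hg)) h4 (by rw [cyc_fix (hg x h5).1, mem_singleton]; exact h1.symm), cy_fix hg h5, cy_fix hg h7,
    cyc_fix (hg x h5).1, cyc_fix (hg y h7).1, sdiff_sdiff_left, sup_eq_union, ← insert_eq, ← h2, Finset.sdiff_sdiff_eq_self h]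
  rfl

theorem bo_one (hκ : κ ≠ .U) (C : Finset (Fin n)) : bo κ C = 1 := dif_neg fun e => hκ e.1

theorem st_eq (κ : Kn) : st κ = (bc κ).1 := by cases κ <;> rfl

theorem bo_st (h : T' ⊆ T) (hc : #T = #T' + st κ) :
    bo κ (T \ T') ∈ Om κ 1 T ∧ ∀ g ∈ On T', sty T (bo κ (T \ T') * g) = bc κ ::ₘ sty T' g := by
  by_cases e : κ = .U
  · subst e
    exact bo_two h hc
  obtain ⟨h1, h2⟩ : st κ = 1 ∧ bc κ = (1, 1) := by cases κ <;> first | exact ⟨rfl, rfl⟩ | exact absurd rfl e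
  obtain ⟨x, hx⟩ := card_eq_one.1 (show #(T \ T') = 1 by rw [card_sdiff_of_subset h, hc, h1, Nat.add_sub_cancel_left])
  obtain ⟨h3, h4⟩ := mem_sdiff.1 (hx ▸ mem_singleton_self x)
  rw [bo_one e, h2]
  refine ⟨mem_Om.2 ⟨one_mem _, fun _ => map_one _⟩, fun g hg => ?_⟩
  rw [one_mul, Cas.step h3, cy_fix hg h4, cyc_fix (hg x h4).1, ← hx, Finset.sdiff_sdiff_eq_self h]

theorem mem_of_box (hg : g ∈ Gp κ T) {C : Finset (Fin n)} (hC : IsBox κ T g C) : bc κ ∈ sty T g := by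
  have h1 : ∀ x ∈ T, Cas.cy g x ∈ sty T g := fun x hx => Cas.step hx ▸ Multiset.mem_cons_self _ _
  cases κ
  · obtain ⟨x, hx, -, e⟩ := hC
    exact (Prod.ext (Kl.fix_iff.2 e) (Pars.sty_one hg.2 _ (h1 x hx)) : Cas.cy g x = bc .A) ▸ h1 x hx
  · obtain ⟨x, hx, rfl, e⟩ := hC
    exact (Prod.ext e (Pars.sty_one hg.2 _ (h1 x hx)) : Cas.cy g x = bc .U) ▸ h1 x hx
  all_goals
    obtain ⟨x, hx, -, e, e'⟩ := hC
    exact (congrArg (· ∈ _) (Prod.ext (Kl.fix_iff.2 e) ((Kl.prod_fix e).trans e') : Cas.cy g x = (1, 1))).mp (h1 x hx)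

theorem exists_Gp {s : Multiset Cy} (h0 : ∀ c ∈ s, 0 < c.1) (h : #T = (s.map Prod.fst).sum) (h1 : κ = .A ∨ κ = .U → ∀ c ∈ s, c.2 = 1) :
    ∃ g ∈ Gp κ T, sty T g = s := by
  obtain ⟨g, hg, rfl⟩ := exists_sty h0 h
  by_cases e : κ = .A ∨ κ = .U
  · have h2 : ∀ s : Multiset Cy, (∀ c ∈ s, c.2 = 1) → s = (s.map Prod.fst).map fun x => (x, 1) := fun s hs => by
      rw [Multiset.map_map]
      exact (Multiset.map_id s).symm.trans (Multiset.map_congr rfl fun c hc => Prod.ext rfl (hs c hc))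
    exact ⟨⟨g.π, 1⟩, mem_Gp.2 ⟨fun j hj => ⟨(hg j hj).1, rfl⟩, fun _ => rfl⟩, by
      rw [h2 _ (h1 e), sty_fst T g, ← h2 _ (Pars.sty_one rfl)]⟩
  · exact ⟨g, mem_Gp.2 ⟨hg, (absurd · e)⟩, rfl⟩

/-- an element with a box has the type of an element of the standard form -/
theorem box_std (hg : g ∈ Om κ ε T) (hb : bc κ ∈ sty T g) : ¬ Bas κ ε #T ∧ ∀ T' ⊆ T, #T = #T' + st κ →
    ∃ g' ∈ Om κ ε T', sty T (bo κ (T \ T') * g') = sty T g := by
  obtain ⟨h1, h2⟩ := mem_Om.1 hg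
  obtain ⟨s, hs⟩ := Multiset.exists_cons_of_mem hb
  have h3 := sty_size (stab_Gp h1)
  have h4 := sgn_on (Gp_le κ T h1)
  have h5 : ∀ c ∈ s, c ∈ sty T g := fun c hc => hs ▸ Multiset.mem_cons_of_mem hc
  rw [hs, Multiset.map_cons, Multiset.sum_cons, ← st_eq] at h3
  rw [hs, Multiset.map_cons, Multiset.prod_cons, show (bc κ).2 = 1 by cases κ <;> rfl, one_mul] at h4
  refine ⟨?_, fun T' h6 h7 => ?_⟩
  · rintro (e | ⟨rfl, e1, e2⟩)
    · omega
    · obtain rfl : s = 0 := Multiset.eq_zero_of_forall_notMem fun c hc => by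
        have a1 := sty_pos T g c (h5 c hc)
        have a2 := Multiset.single_le_sum (fun _ _ => Nat.zero_le _) _ (Multiset.mem_map_of_mem Prod.fst hc)
        have a3 : st .D = 1 := rfl
        omega
      exact e1 ((h2 rfl).symm.trans h4)
  · obtain ⟨g', h8, h9⟩ := exists_Gp (κ := κ) (T := T') (fun c hc => sty_pos T g c (h5 c hc)) (by omega)
      fun e c hc => Pars.sty_one ((mem_Gp.1 h1).2 e) c (h5 c hc)
    exact ⟨g', mem_Om.2 ⟨h8, fun e => by rw [sgn_on (Gp_le _ _ h8), h9, ← h4, h2 e]⟩,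
      by rw [(bo_st h6 h7).2 g' (Gp_le _ _ h8), h9, hs]⟩

/-! ### the labels without boxes -/

open Cu

theorem mem_Lq : c ∈ Lq κ ε M k ↔ c ∈ Lab κ M k ∧ Can κ c ∧ (κ = .D → (ε : ℤ) = (-1) ^ (#(row c true) + M / 2)) := mem_filter

theorem row_tw (a b : ℕ) (d : Bool) : row (tw false a b) d = range (if d then b else a) := by
  ext x
  cases d <;> simp [Cu.mem_row, mem_tw]

theorem sw_tw (a b : ℕ) : sw' (tw false a b) = tw false b a := by
  rw [sw', tw, tw, image_union, image_image, image_image, union_comm]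
  rfl

theorem can_tw {a b : ℕ} : Can κ (tw false a b) ↔ (κ = .B ∨ κ = .D → b ≤ a) := imp_congr_right fun _ => by
  rw [row_tw, row_tw]
  show toLex (_, _) ≤ toLex (_, _) ↔ _
  rw [Prod.Lex.toLex_le_toLex, card_range, card_range]
  exact ⟨fun h => h.elim le_of_lt fun h => h.1.le, fun h => h.lt_or_eq.imp_right fun e => ⟨e, by obtain rfl : b = a := e; rfl⟩⟩

theorem uniq (h : c ∈ Lab κ M k) (h' : c' ∈ Lab κ M k) (e : Can κ c) (e' : Can κ c') (hr : rem c = ∅) (hr' : rem c' = ∅) : c = c' := by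
  by_cases hU : κ = .U
  · subst hU
    exact cuspU h h' hr hr'
  obtain ⟨a, b, rfl⟩ := exists_tw hr
  obtain ⟨a', b', rfl⟩ := exists_tw hr'
  obtain ⟨h1, h2, h3⟩ := mem_Lab.1 h
  obtain ⟨h4, h5, h6⟩ := mem_Lab.1 h'
  rw [card_tw] at h1 h4
  rcases kn_cases κ with (rfl | hκ) | hκ
  · have h7 : ∀ {a b}, (∀ z ∈ tw false a b, z.2 = false) → b = 0 := fun h => by_contra fun e => by
      simpa using h (0, true) (mem_tw.2 (Nat.pos_of_ne_zero e))
    obtain rfl := h7 (h3 rfl)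
    obtain rfl := h7 (h6 rfl)
    rw [show a = a' by omega]
  · exact absurd hκ hU
  have h7 := can_tw.1 e hκ
  have h8 := can_tw.1 e' hκ
  simp only [sum_tw, ps_B hκ] at h2 h5
  have := tri a
  have := tri b
  have := tri a'
  have := tri b'
  have h9 : 2 * (((a : ℤ) - a') * (a - b')) = 0 := by
    have e1 : (b : ℤ) = a' + b' - a := by omega
    have e2 : (a : ℤ) * a + b * b = a' * a' + b' * b' := by omega
    rw [e1] at e2
    linear_combination e2
  obtain rfl : a = a' := by rcases mul_eq_zero.1 ((mul_eq_zero.1 h9).resolve_left two_ne_zero) with e | e <;> (clear * - e h1 h4 h7 h8; omega)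
  rw [show b = b' by (clear * - h1 h4; omega)]

theorem sign_D (ho : Ok .D M #T) (h : c ∈ Lab .D M #T) (hg : g ∈ On T) (e : Y .D M T c g ≠ 0) :
    (sgn g : ℤ) = (-1) ^ (#(row c true) + M / 2) := sgn_on hg ▸ bZero.df M _ c (mem_Lab.1 h).1 ho.1 e

theorem exists_can (h : c ∈ Lab κ M k) (hr : rem c = ∅) :
    ∃ c' ∈ Lab κ M k, rem c' = ∅ ∧ Can κ c' ∧ ∃ σ : ℤ, ∀ s, YK κ M s c = σ * YK κ M s c' := by
  by_cases e : Can κ c
  · exact ⟨c, h, hr, e, 1, fun _ => (one_mul _).symm⟩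
  obtain ⟨a, b, rfl⟩ := exists_tw hr
  obtain ⟨hκ, e⟩ := Classical.not_imp.1 (mt can_tw.2 e)
  obtain ⟨h1, h2, -⟩ := mem_Lab.1 h
  rw [card_tw] at h1
  have h3 : #(tw false b a) = M := card_tw.trans (by omega)
  refine ⟨tw false b a, mem_Lab.2 ⟨h3, ?_, by rintro rfl; simp at hκ⟩, rem_tw, can_tw.2 fun _ => by omega, _,
    fun s => sw_tw b a ▸ bSwap κ M s _ hκ h3⟩
  simp only [sum_tw, ps_B hκ] at h2 ⊢
  omega

theorem ell (h : c ∈ Lab κ M #T) (hr : rem c = ∅) (e : Y κ M T c g ≠ 0) : El κ T g := fun ⟨l, σ⟩ hl => by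
  obtain ⟨h1, -, -⟩ := mem_Lab.1 h
  have h2 : 0 < l := sty_pos T g _ hl
  obtain ⟨s, hs⟩ := Multiset.exists_cons_of_mem hl
  rw [Y, hs, YK_cons κ _ s h1] at e
  obtain ⟨⟨x, d⟩, hz, -⟩ := exists_ne_zero_of_sum_ne_zero e
  obtain ⟨h3, h4, h5⟩ := mem_filter.1 hz
  have h6 : (J.mk κ (l, σ) (x, d)).2 ≠ d := fun e => by
    obtain ⟨a, b, rfl⟩ := exists_tw hr
    have a1 := ps_mk κ (l, σ) (x, d)
    generalize J.mk κ (l, σ) (x, d) = z at *
    obtain ⟨y, d⟩ := z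
    obtain rfl := e
    have a2 := (ps_lt κ (x := y) (y := x) d).1 (by simp only at a1 h4; omega)
    exact h5 (mem_erase.2 ⟨fun e => a2.ne (congrArg Prod.fst e), mem_tw.2 (a2.trans (mem_tw.1 h3))⟩)
  have h7 : fl σ d ≠ d → σ = -1 := fun e => (Int.units_eq_one_or σ).resolve_left fun e' => e (if_pos e')
  cases κ
  · exact absurd rfl h6
  · refine ⟨nofun, fun _ => ?_, (absurd rfl ·)⟩
    cases d <;> simp only [J.mk, ps, _root_.Bool.toNat_false, _root_.add_zero, _root_.ne_eq, _root_.decide_eq_false_iff_not, _root_.Nat.mod_two_not_eq_one, _root_.Nat.mod_two_not_eq_zero, _root_.Bool.toNat_true, _root_.Bool.not_eq_true] at h4 h6 ⊢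
    · omega
    · have := of_decide_eq_false h6
      omega
  · exact ⟨nofun, nofun, fun _ => h7 h6⟩
  · exact ⟨nofun, nofun, fun _ => h7 h6⟩

/-! ### the kernel -/

theorem vand {I : Type} (s : Finset I) (a l : I → ℂ) (h : ∀ i : ℕ, ∑ w ∈ s, l w ^ i * a w = 0) (e : ℂ) :
    ∑ w ∈ s with l w = e, a w = 0 := by
  have h1 : ∀ t : Finset ℂ, ∀ i : ℕ, ∑ w ∈ s, (∏ z ∈ t, (l w - z)) * (l w ^ i * a w) = 0 := fun t => by
    induction t using Finset.induction_on with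
    | empty => simpa only [_root_.Finset.prod_empty, _root_.one_mul] using h
    | insert z t hz ih =>
      intro i
      rw [sum_congr rfl fun w _ => show _ = (∏ z ∈ t, (l w - z)) * (l w ^ (i + 1) * a w) -
        z * ((∏ z ∈ t, (l w - z)) * (l w ^ i * a w)) by rw [prod_insert hz]; ring, sum_sub_distrib, ← mul_sum, ih, ih, mul_zero, sub_zero]
  refine mul_left_cancel₀ (a := ∏ z ∈ (s.image l).erase e, (e - z))
    (prod_ne_zero_iff.2 fun z hz => sub_ne_zero.2 (ne_of_mem_erase hz).symm) ?_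
  rw [mul_zero, ← h1 ((s.image l).erase e) 0, mul_sum, sum_filter]
  refine sum_congr rfl fun w hw => ?_
  split_ifs with h2
  · rw [h2, pow_zero, one_mul]
  · rw [prod_eq_zero (mem_erase.2 ⟨h2, mem_image_of_mem _ hw⟩) (sub_self _), zero_mul]

theorem cas_X (ho : Ok κ M #T) {s : Finset (Finset Pt)} (hs : s ⊆ LabX κ M #T) (a : Finset Pt → ℂ) (hg : g ∈ Gp κ T) :
    cas κ T (fun x => ∑ w ∈ s, a w * X κ M T w x) g = ∑ w ∈ s, lv κ M #T w * (a w * X κ M T w g) := by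
  rw [cas_sum]
  refine sum_congr rfl fun w hw => ?_
  have h1 : ((wc κ : ℤ) : ℂ) ≠ 0 := Int.cast_ne_zero.2 (by cases κ <;> decide)
  rw [cas_mul, Kl.cas_cast, mul_left_comm]
  refine congrArg _ (mul_left_cancel₀ h1 ?_)
  rw [← mul_assoc, show lv κ M #T w = _ / _ from rfl, mul_div_cancel₀ _ h1]
  exact_mod_cast bXcas κ M T w g ho (hs hw) (stab_Gp hg)

theorem iter (ho : Ok κ M #T) (hf : Cf κ T f) (i : ℕ) : ∀ g ∈ Gp κ T,
    (cas κ T)^[i] f g = ∑ w ∈ LabX κ M #T, lv κ M #T w ^ i * (Kl.co κ M T f w * X κ M T w g) := by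
  induction i with
  | zero => exact fun g hg => (bXc_of bPars κ M T f ho hf g hg).trans (sum_congr rfl fun w _ => (one_mul _).symm)
  | succ i ih =>
    intro g hg
    rw [Function.iterate_succ_apply', cas_loc (f' := fun x => ∑ w ∈ _, lv κ M #T w ^ i * Kl.co κ M T f w * X κ M T w x) (g' := g)
      fun r hr => (ih _ (mul_mem (mem_Om.1 hr).1 hg)).trans (sum_congr rfl fun w _ => (mul_assoc _ _ _).symm), cas_X ho Subset.rfl _ hg]
    exact sum_congr rfl fun w _ => by ring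

theorem ker (ho : Ok κ M #T) (hφ : Iv κ ε T φ)
    (hb : Bas κ ε #T ∨ ∃ T', St κ ε M T' T ∧ ∀ i, ∀ g ∈ Om κ ε T', (cas κ T)^[i] φ (bo κ (T \ T') * g) = 0)
    (hg : g ∈ Om κ ε T) (h : φ g + φ (gf κ T g) ≠ 0) :
    ∃ c ∈ Lq κ ε M #T, rem c = ∅ ∧ ∃ t : ℂ, ∀ g ∈ Om κ ε T, φ g + φ (gf κ T g) = t * Y κ M T c g := by
  have hf := cf_ex hφ
  have h1 : ∀ i, (cas κ T)^[i] (ex κ ε T φ) = ex κ ε T ((cas κ T)^[i] φ) := fun i =>
    ((Function.Semiconj.iterate_right (fun φ => (cas_ex φ).symm) i) φ).symm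
  set! F : ℂ → SG n → ℂ := fun e g => ∑ w ∈ LabX κ M #T with lv κ M #T w = e, Kl.co κ M T (ex κ ε T φ) w * X κ M T w g
  have h2 : ∀ g ∈ Gp κ T, (∀ i, ex κ ε T ((cas κ T)^[i] φ) g = 0) → ∀ e, F e g = 0 := fun g hg h =>
    vand _ _ _ fun i => by rw [← iter ho hf i g hg, h1, h]
  have h3 : ∀ g ∈ Gp κ T, g ∉ Om κ ε T → ∀ e, F e g = 0 := fun g hg e => h2 g hg fun _ => if_neg e
  have h4 : ∀ e, Kl.Kf κ T (F e) := fun e => by
    refine ⟨fun g _ h hh => sum_congr rfl fun w _ => congrArg (fun s => _ * (XK κ M s w : ℂ)) (sty_conj' (stab_Gp hh) g),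
      ⟨e, fun g hg => (cas_X ho (filter_subset _ _) _ hg).trans ?_⟩, fun g hg C hC => ?_⟩
    · rw [mul_sum]
      exact sum_congr rfl fun w hw => by rw [(mem_filter.1 hw).2]
    by_cases a : g ∈ Om κ ε T
    swap
    · exact h3 g hg a e
    obtain ⟨a1, a2⟩ := box_std a (mem_of_box hg hC)
    obtain ⟨T', a3, a4⟩ := hb.resolve_left a1
    obtain ⟨g', a5, a6⟩ := a2 T' a3.sub a3.card
    have a7 := (mul_Om (bo_st a3.sub a3.card).1).2 (Om_mono a3.sub a5)
    refine Eq.trans (sum_congr rfl fun w _ => congrArg (fun s => _ * (XK κ M s w : ℂ)) a6.symm) (h2 _ (mem_Om.1 a7).1 (fun i => ?_) e)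
    rw [ex, if_pos a7, a4 i g' a5, zero_add]
    rcases gf_cases κ T with ⟨a8, -⟩ | ⟨rfl, -⟩
    · rw [a8, a4 i g' a5]
    · have a9 := a4 i _ (gf_Om (T := T) a5)
      rwa [bo_one (by decide), one_mul] at a9 ⊢
  have h5 : ∀ g ∈ Om κ ε T, φ g + φ (gf κ T g) = ∑ e ∈ (LabX κ M #T).image (lv κ M #T), F e g := fun g hg => by
    rw [sum_fiberwise_of_maps_to fun w hw => mem_image_of_mem _ hw]
    exact (if_pos hg).symm.trans (bXc_of bPars κ M T _ ho hf g (mem_Om.1 hg).1)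
  have h6 : ∀ e, ∀ g ∈ Gp κ T, F e g ≠ 0 → ∃ c ∈ Lq κ ε M #T, rem c = ∅ ∧ ∃ t : ℂ, ∀ g ∈ Gp κ T, F e g = t * Y κ M T c g :=
    fun e g hg h => by
    obtain ⟨u, a1, a2, t, a3⟩ := Kl.ker ho (h4 e) hg h
    obtain ⟨c, a4, a5, a6, σ, a7⟩ := exists_can a1 a2
    have a8 : ∀ g ∈ Gp κ T, F e g = t * σ * Y κ M T c g := fun g hg => by rw [a3 g hg, Y, a7, Int.cast_mul, mul_assoc]; rfl
    refine ⟨c, mem_Lq.2 ⟨a4, a6, ?_⟩, a5, _, a8⟩
    rintro rfl
    rw [← (mem_Om.1 (by_contra fun a => h (h3 g hg a e))).2 rfl]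
    exact sign_D ho a4 hg (Int.cast_ne_zero.1 (right_ne_zero_of_mul (a8 g hg ▸ h)))
  obtain ⟨e, -, h7⟩ := exists_ne_zero_of_sum_ne_zero (h5 g hg ▸ h)
  obtain ⟨c, h8, h9, -⟩ := h6 e g (mem_Om.1 hg).1 h7
  have h10 : ∀ e, ∃ t : ℂ, ∀ g ∈ Gp κ T, F e g = t * Y κ M T c g := fun e => by
    by_cases a : ∀ g ∈ Gp κ T, F e g = 0
    · exact ⟨0, fun g hg => (a g hg).trans (zero_mul _).symm⟩
    · obtain ⟨g, hg, a⟩ : ∃ g ∈ Gp κ T, F e g ≠ 0 := by simpa using a
      obtain ⟨c', a1, a2, a3⟩ := h6 e g hg a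
      rwa [uniq (mem_Lq.1 h8).1 (mem_Lq.1 a1).1 (mem_Lq.1 h8).2.1 (mem_Lq.1 a1).2.1 h9 a2]
  choose t ht using h10
  exact ⟨c, h8, h9, _, fun g hg => by rw [h5 g hg, sum_congr rfl fun e _ => ht e g (mem_Om.1 hg).1, sum_mul]⟩

end Kq

open Kq Cu

/-- **the kernel and the labels without boxes** -/
theorem bKq : BKq where
  ker _ _ _ _ _ ho _ hφ hb := or_iff_not_imp_left.2 fun h => by
    obtain ⟨g, hg, h⟩ : ∃ g ∈ _, _ ≠ (0 : ℂ) := by simpa only [not_forall, exists_prop] using h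
    exact ker ho.1 hφ hb hg h
  uniq _ _ _ _ _ _ h _ h' := uniq (mem_Lq.1 h).1 (mem_Lq.1 h').1 (mem_Lq.1 h).2.1 (mem_Lq.1 h').2.1
  ndg κ _ M k _ c h hr := by
    rintro ⟨rfl, h1, h2⟩
    obtain ⟨a, b, rfl⟩ := exists_tw hr
    obtain ⟨h3, h4, -⟩ := mem_Lab.1 (mem_Lq.1 h).1
    have h5 := congrArg (fun u => #(row u true)) h2
    simp only [sw_tw, row_tw, card_range, if_true] at h5
    subst h5
    simp only [sum_tw, ps_B (Or.inr rfl)] at h4
    exact h1.ne' (rank_B (r := 0) (Or.inr rfl) (card_tw.symm.trans h3 ▸ two_mul a) h4)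
  cls κ _ M k k' c h c' h' hr hr' e := by
    obtain ⟨a, b, rfl⟩ := exists_tw hr
    obtain ⟨a', b', rfl⟩ := exists_tw hr'
    obtain ⟨h1, h2, -⟩ := mem_Lab.1 (mem_Lq.1 h).1
    obtain ⟨h3, h4, -⟩ := mem_Lab.1 (mem_Lq.1 h').1
    have h5 : #(row _ true) = #(row _ true) := e
    simp only [row_tw, card_range, if_true] at h5
    rw [card_tw] at h1 h3
    obtain rfl : a = a' := by omega
    subst h5
    exact ⟨rfl, by omega⟩
  unit κ _ M _ T ho c h hr := by
    obtain ⟨h1, -, h2⟩ := mem_Lq.1 h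
    obtain ⟨g, hg, e⟩ := unit bZero ho h1 hr
    refine ⟨g, mem_Om.2 ⟨hg, ?_⟩, e⟩
    rintro rfl
    exact Units.ext ((sign_D ho h1 hg (by omega)).trans (h2 rfl).symm)
  two _ _ h hc g hg := ⟨(mul_Om (bo_two h hc).1).2 (Om_mono h hg), fun e => absurd
    ((e (2, 1) ((bo_two (κ := .D) h hc).2 g (mem_Om.1 hg).1 ▸ Multiset.mem_cons_self _ _)).2.2 nofun) (by decide)⟩
  ell _ _ _ _ _ _ h hr _ := ell h hr

end Cfsg.Agent.MO.UD
end

private theorem dce_4de1e5363cef : _root_.True := by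
  try have : _root_.True := by simp only [_root_.Cfsg.Agent.MO.UD.Dg.eq_1]
  try have : _root_.True := by simp only [_root_.Cfsg.Agent.MO.UD.Kq.ex.eq_1]
  try have : _root_.True := by simp only [_root_.Cfsg.Agent.MO.J.Cas.Fk.mk.congr_simp]
  try have : _root_.True := by simp only [_root_.Cfsg.Agent.MO.UD.bo.eq_1]
  try have : _root_.True := by simp only [_root_.Cfsg.Agent.MO.UD.Om.eq_1]
  try have : _root_.True := by simp only [_root_.Cfsg.Agent.MO.UD.PoP.ev.eq_1]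
  try have : _root_.True := by simp only [_root_.Cfsg.Agent.MO.J.Kl.co.eq_1]
  try have : _root_.True := by simp only [_root_.Cfsg.Agent.MO.UD.An.mi.eq_1]
  try have : _root_.True := by simp only [_root_.Cfsg.Agent.MO.UD.LB.eq_1]
  try have : _root_.True := by simp only [_root_.Cfsg.Agent.MO.UD.De.eq_1]
  try have : _root_.True := by simp only [_root_.Cfsg.Agent.MO.J.nl.eq_1]
  try have : _root_.True := by simp only [_root_.Cfsg.Agent.MO.J.bs.eq_1]
  try have : _root_.True := by simp only [_root_.Cfsg.Agent.MO.J.od.eq_1]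
  try have : _root_.True := by simp only [_root_.Cfsg.Agent.MO.J.Kl.Ad.eq_1]
  try have : _root_.True := by simp only [_root_.Cfsg.Agent.MO.J.Cas.Sys.fk.eq_1]
  try have : _root_.True := by simp only [_root_.Cfsg.Agent.MO.UD.PoP.wl.eq_1]
  try have : _root_.True := by simp only [_root_.Cfsg.Agent.MO.J.Cas.fkA.eq_1]
  try have : _root_.True := by simp only [_root_.Cfsg.Agent.MO.UD.An.P.eq_1]
  try have : _root_.True := by simp only [_root_.Cfsg.Agent.MO.J.sp.eq_1]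
  try have : _root_.True := by simp only [_root_.Cfsg.Agent.MO.UD.An.hf.eq_1]
  try have : _root_.True := by simp only [_root_.Cfsg.Agent.MO.UD.An.F.eq_1]
  try have : _root_.True := by simp only [_root_.Cfsg.Agent.MO.UD.zz.eq_1]
  try have : _root_.True := by simp only [_root_.Cfsg.Agent.MO.UD.dl.eq_1]
  try have : _root_.True := by simp only [_root_.Cfsg.Agent.MO.J.bs.eq_2]
  try have : _root_.True := by simp only [_root_.Cfsg.Agent.MO.UD.An.Ve.eq_1]
  try have : _root_.True := by simp only [_root_.Cfsg.Agent.MO.UD.PoP.oc.eq_1]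
  try have : _root_.True := by simp only [_root_.Cfsg.Agent.MO.UD.PoP.ch.eq_1]
  try have : _root_.True := by simp only [_root_.Cfsg.Agent.MO.J.bs.eq_3]
  try have : _root_.True := by simp only [_root_.Cfsg.Agent.MO.UD.Fm.cz.eq_1]
  try have : _root_.True := by simp only [_root_.Cfsg.Agent.MO.J.rem.eq_1]
  try have : _root_.True := by simp only [_root_.Cfsg.Agent.MO.UD.Fm.dz.eq_1]
  try have : _root_.True := by simp only [_root_.Cfsg.Agent.MO.UD.cl.eq_1]
  try have : _root_.True := by simp only [_root_.Cfsg.Agent.MO.UD.An.Kk.eq_1]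
  try have : _root_.True := by simp only [_root_.Cfsg.Agent.MO.UD.An.r0.eq_1]
  exact _root_.True.intro
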