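import Mathlib.LinearAlgebra.Matrix.Charpoly.Coeff
import Mathlib.LinearAlgebra.Eigenspace.Basic
import Mathlib.LinearAlgebra.Matrix.ToLin
import Mathlib.RingTheory.IntegralClosure.IsIntegral.Basic
import Mathlib.Algebra.Polynomial.FieldDivision
import Mathlib.Algebra.BigOperators.Finprod
import Mathlib.GroupTheory.Index
import Mathlib.LinearAlgebra.Eigenspace.Semisimple
import Mathlib.LinearAlgebra.Eigenspace.Zero
import Mathlib.LinearAlgebra.Matrix.Basis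
import Mathlib.LinearAlgebra.Eigenspace.Charpoly
import Mathlib.LinearAlgebra.Matrix.Charpoly.Eigs
import Mathlib.RingTheory.IntegralClosure.IsIntegralClosure.Basic
import Mathlib.LinearAlgebra.Matrix.Cartan
import Mathlib.Data.Matrix.Mul
import Mathlib.Analysis.Complex.Basic
import Mathlib.LinearAlgebra.Eigenspace.Minpoly
import Mathlib.Algebra.BigOperators.Group.Finset.Basic
import Mathlib.Tactic
import Cfsg.Agent.Lib.FinFast
import Cfsg.Agent.Prune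
set_option linter.all false
prune_inst 0x7fffadfcffaff3ffff7f7fbda7dfeff833878fffa4fffd43ffe1ebbf9bbf17db8dc56fa589e4b8fedfd7c21454a8fb43fb7eefffe86fdc7ffffddff41ffbee4ff5f73508519c8cb41f302fff83f077886f3fffffffffffffffffffffffffffffffbfffffffff
open scoped Cfsg.Agent.FastGrp

-- part: MO/Sp/Defs
section
/-!
# MO/Sp: Springer theory of reflection cosets, the interface (helper69)

* `Co ρ M` : `ρ(W)` is generated by pseudo-reflections, `M` normalises it and a power of `M` is a non-zero scalar;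
* `IsP ρ M P c` : `c w * det (1 - X ρ(w) M) = P` and the mean value of the `c w` is `1`; `ordP ρ M`, `cf ρ M w` are the solution;
* `dg ρ M y` : the mean value of `y w * cf w` (the degree polynomial of a function `y` on the coset `ρ(W) M`);
* `Es A s` : the eigenspace, `Top ρ M s w` : the eigenspace of `ρ(w) M` for `s` has the largest dimension;
* `Cn ρ E`, `Nm ρ E` : the centraliser and the normaliser of a subspace;
* `Cl ρ M y` : `y` is a class function on the coset;  `Vc ρ M y` : its products with characters are algebraic integers;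
* `Gd l M s` : the algebraic integer `s` is `1` modulo a prime over `l` and `M / s` has finite order;  `Cg s a b` : `a = b` modulo `s - 1`.
-/

set_option autoImplicit false

namespace Cfsg.Agent.MO.Sp

open Matrix Polynomial

variable {K : Type} [Field K] {n : Type} [Fintype n] [DecidableEq n] {W : Type} [Group W]

/-- a pseudo-reflection or the identity -/
def IsRf (A : Matrix n n K) : Prop := ∃ a b : n → K, A = 1 - vecMulVec a b

/-- the eigenspace of a matrix -/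
def Es (A : Matrix n n K) (s : K) : Submodule K (n → K) := Module.End.eigenspace (Matrix.toLin' A) s

theorem mem_Es {A : Matrix n n K} {s : K} {v : n → K} : v ∈ Es A s ↔ A *ᵥ v = s • v := by
  rw [Es, Module.End.mem_eigenspace_iff, Matrix.toLin'_apply]

variable (ρ : W →* Matrix n n K) (M : Matrix n n K)

/-- **a reflection coset** -/
structure Co : Prop where
  inj : Function.Injective ρ
  gen : Subgroup.closure {s | IsRf (ρ s)} = ⊤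
  nrm : ∀ w, ∃ w', M * ρ w = ρ w' * M
  pw : ∃ (d : ℕ) (c : K), 0 < d ∧ c ≠ 0 ∧ M ^ d = c • (1 : Matrix n n K)

/-- `P` is the order polynomial, `c w` is the graded trace of `ρ(w) M` on the coinvariants -/
structure IsP (P : K[X]) (c : W → K[X]) : Prop where
  mul : ∀ w, c w * (ρ w * M).charpolyRev = P
  sum : ∑ᶠ w, c w = C (Nat.card W : K)

/-- the order polynomial -/
noncomputable def ordP : K[X] := Classical.epsilon fun P => ∃ c, IsP ρ M P c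

/-- the graded trace on the coinvariants -/
noncomputable def cf (w : W) : K[X] := ordP ρ M / (ρ w * M).charpolyRev

/-- the degree polynomial of a function on the coset -/
noncomputable def dg (y : W → K) : K[X] := C (Nat.card W : K)⁻¹ * ∑ᶠ w, C (y w) * cf ρ M w

/-- the eigenspace of `ρ(w) M` has the largest dimension -/
def Top (s : K) (w : W) : Prop := ∀ w', Module.finrank K (Es (ρ w' * M) s) ≤ Module.finrank K (Es (ρ w * M) s)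

/-- `v` conjugates `ρ(w) M` to `ρ(w') M` -/
def Tc (v w w' : W) : Prop := ρ w' * M * ρ v = ρ v * (ρ w * M)

/-- class functions on the coset -/
def Cl {β : Type} (y : W → β) : Prop := ∀ v w w', Tc ρ M v w w' → y w = y w'

/-- the products of `y` with the characters of `W ⋊ ⟨M⟩` on the coset are algebraic integers -/
def Vc (y : W → K) : Prop :=
  ∀ (m : Type) [Fintype m] [DecidableEq m] (T : W →* Matrix m m K) (N : Matrix m m K), (∃ e, 0 < e ∧ N ^ e = 1) →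
    (∀ w w', M * ρ w = ρ w' * M → N * T w = T w' * N) → IsIntegral ℤ ((Nat.card W : K)⁻¹ * ∑ᶠ w, y w * (T w * N).trace)

/-- the centraliser of a subspace -/
def Cn (E : Submodule K (n → K)) : Subgroup W where
  carrier := {u | ∀ v ∈ E, ρ u *ᵥ v = v}
  one_mem' := fun v _ => by rw [map_one, one_mulVec]
  mul_mem' := fun {a b} ha hb v hv => by rw [map_mul, ← mulVec_mulVec, hb v hv, ha v hv]
  inv_mem' := fun {a} ha v hv => by
    conv_lhs => rw [← ha v hv, mulVec_mulVec, ← map_mul, inv_mul_cancel, map_one, one_mulVec]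

/-- the normaliser of a subspace -/
def Nm (E : Submodule K (n → K)) : Subgroup W where
  carrier := {u | ∀ v, v ∈ E ↔ ρ u *ᵥ v ∈ E}
  one_mem' := fun v => by rw [map_one, one_mulVec]
  mul_mem' := fun {a b} ha hb v => by rw [map_mul, ← mulVec_mulVec, ← ha, ← hb]
  inv_mem' := fun {a} ha v => by rw [ha (ρ a⁻¹ *ᵥ v), mulVec_mulVec, ← map_mul, mul_inv_cancel, map_one, one_mulVec]

theorem mem_Cn {E : Submodule K (n → K)} {u : W} : u ∈ Cn ρ E ↔ ∀ v ∈ E, ρ u *ᵥ v = v := Iff.rfl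

theorem mem_Nm {E : Submodule K (n → K)} {u : W} : u ∈ Nm ρ E ↔ ∀ v, v ∈ E ↔ ρ u *ᵥ v ∈ E := Iff.rfl

/-- `s` is an algebraic integer which is `1` modulo a prime over `l`, and `M / s` has finite order -/
structure Gd (l : ℕ) (s : K) : Prop where
  ne : s ≠ 0
  int : IsIntegral ℤ s
  ord : ∃ e, 0 < e ∧ M ^ e = s ^ e • (1 : Matrix n n K)
  cg : ∀ (a : ℤ) (z : K), IsIntegral ℤ z → (a : K) = (s - 1) * z → (l : ℤ) ∣ a

/-- congruence modulo `s - 1` -/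
def Cg (s a b : K) : Prop := ∃ z, IsIntegral ℤ z ∧ a - b = (s - 1) * z

end Cfsg.Agent.MO.Sp
end

-- part: MO/Sp/Lin
section
/-!
# MO/Sp: matrices with a scalar power (helper69)
-/

set_option autoImplicit false
set_option linter.unusedSectionVars false

namespace Cfsg.Agent.MO.Sp

open Matrix Polynomial

variable {K : Type} [Field K] {n : Type} [Fintype n] [DecidableEq n] {W : Type} [Group W]

/-- a power is a non-zero scalar -/
def Ss (A : Matrix n n K) : Prop := ∃ (d : ℕ) (c : K), 0 < d ∧ c ≠ 0 ∧ A ^ d = c • (1 : Matrix n n K)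

theorem Ss.isUnit {A : Matrix n n K} (h : Ss A) : IsUnit A := by
  obtain ⟨d, c, h1, h2, h3⟩ := h
  obtain ⟨e, rfl⟩ := Nat.exists_eq_succ_of_ne_zero h1.ne'
  refine IsUnit.of_mul_eq_one (c⁻¹ • A ^ e) ?_
  rw [mul_smul_comm, ← pow_succ', h3, smul_smul, inv_mul_cancel₀ h2, one_smul]

theorem crev_ne (A : Matrix n n K) : A.charpolyRev ≠ 0 := fun h => by
  have := A.eval_charpolyRev
  rw [h, eval_zero] at this
  exact zero_ne_one this

theorem eval_crev (A : Matrix n n K) (t : K) : A.charpolyRev.eval t = (1 - t • A).det := by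
  rw [charpolyRev, ← coe_evalRingHom, RingHom.map_det]
  congr 1
  ext i j
  by_cases h : i = j
  · subst h
    simpa using mul_comm _ _
  · simpa [h] using mul_comm _ _

theorem crev_mul_comm (A B : Matrix n n K) : (A * B).charpolyRev = (B * A).charpolyRev := by
  rw [← reverse_charpoly, ← reverse_charpoly, charpoly_mul_comm]

theorem crev_diagonal (l : n → K) : (diagonal l).charpolyRev = ∏ i, (1 - C (l i) * X) := by
  rw [charpolyRev, ← det_diagonal]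
  congr 1
  ext i j : 1
  by_cases h : i = j
  · subst h
    simp [X_mul_C]
  · simp [h]

theorem rm_prod {J : Type} (s : Finset J) (f : J → K[X]) (h : ∀ j, f j ≠ 0) (x : K) :
    rootMultiplicity x (∏ j ∈ s, f j) = ∑ j ∈ s, rootMultiplicity x (f j) := by
  classical
  induction s using Finset.induction_on with
  | empty => rw [Finset.prod_empty, Finset.sum_empty, ← C_1, rootMultiplicity_C]
  | insert i s hi ih =>
    rw [Finset.prod_insert hi, Finset.sum_insert hi,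
      rootMultiplicity_mul (mul_ne_zero (h i) (Finset.prod_ne_zero_iff.2 fun j _ => h j)), ih]

theorem rm_lin {s : K} (hs : s ≠ 0) (l : K) : rootMultiplicity s⁻¹ (1 - C l * X) = rootMultiplicity s (X - C l) := by
  classical
  rw [rootMultiplicity_X_sub_C]
  split_ifs with h
  · subst h
    have h1 : (1 - C s * X : K[X]) = C (-s) * (X - C s⁻¹) := by
      rw [mul_sub, ← C_mul, neg_mul, mul_inv_cancel₀ hs, map_neg, map_neg, C_1]
      ring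
    rw [h1, rootMultiplicity_mul (mul_ne_zero (C_ne_zero.2 (neg_ne_zero.2 hs)) (X_sub_C_ne_zero _)), rootMultiplicity_C,
      rootMultiplicity_X_sub_C_self]
  · refine rootMultiplicity_eq_zero fun h1 => h ?_
    simp only [IsRoot.def, eval_sub, eval_one, eval_mul, eval_C, eval_X, sub_eq_zero] at h1
    exact ((mul_inv_eq_one₀ hs).1 h1.symm).symm

theorem lin_ne (l : K) : (1 - C l * X : K[X]) ≠ 0 := fun h => by
  have := congrArg (eval 0) h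
  simp at this

variable [CharZero K] [IsAlgClosed K]

theorem Ss.semi {A : Matrix n n K} (h : Ss A) : Module.End.IsSemisimple (Matrix.toLin' A) := by
  obtain ⟨d, c, h1, h2, h3⟩ := h
  refine Module.End.isSemisimple_of_squarefree_aeval_eq_zero
    (separable_X_pow_sub_C c (Nat.cast_ne_zero.2 h1.ne') h2).squarefree ?_
  rw [map_sub, map_pow, aeval_X, aeval_C, ← toLin'_pow, h3, map_smul, toLin'_one, Algebra.algebraMap_eq_smul_one, sub_eq_zero]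
  rfl

theorem Ss.diag {A : Matrix n n K} (h : Ss A) :
    ∃ (Q Q' : Matrix n n K) (l : n → K), Q' * Q = 1 ∧ A = Q * (diagonal l * Q') := by
  have hspan : ⊤ ≤ Submodule.span K {v : n → K | ∃ c : K, A *ᵥ v = c • v} := by
    rw [← h.semi.iSup_eigenspace_eq_top]
    exact iSup_le fun c v hv => Submodule.subset_span ⟨c, mem_Es.1 hv⟩
  obtain ⟨κ, b, hb⟩ : ∃ (κ : Type) (b : Module.Basis κ K (n → K)), ∀ i, ∃ c : K, A *ᵥ b i = c • b i :=
    ⟨_, Module.Basis.ofSpan hspan, fun i => Module.Basis.ofSpan_subset hspan ⟨i, rfl⟩⟩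
  have hfin : Fintype κ := FiniteDimensional.fintypeBasisIndex b
  let e : κ ≃ n := Fintype.equivOfCardEq (by rw [← Module.finrank_eq_card_basis b, Module.finrank_fintype_fun_eq_card])
  have hb' : ∀ i, ∃ c : K, A *ᵥ b.reindex e i = c • b.reindex e i := fun i => by
    rw [Module.Basis.reindex_apply]
    exact hb _
  choose l hl using hb'
  refine ⟨(Pi.basisFun K n).toMatrix (b.reindex e), (b.reindex e).toMatrix (Pi.basisFun K n), l,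
    Module.Basis.toMatrix_mul_toMatrix_flip _ _, ?_⟩
  have h1 : A * (Pi.basisFun K n).toMatrix (b.reindex e) = (Pi.basisFun K n).toMatrix (b.reindex e) * diagonal l := by
    ext i j
    have := congrFun (hl j) i
    rw [mul_diagonal, Module.Basis.toMatrix_apply, Pi.basisFun_repr, mul_comm]
    exact this
  rw [← mul_assoc, ← h1, mul_assoc, Module.Basis.toMatrix_mul_toMatrix_flip, mul_one]

theorem Ss.rk_eq' {A : Matrix n n K} (h : Ss A) (s : K) : Module.finrank K (Es A s) = rootMultiplicity s A.charpoly := by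
  rw [Es, ← h.semi.isFinitelySemisimple.maxGenEigenspace_eq_eigenspace, LinearMap.finrank_maxGenEigenspace_eq,
    charpoly_toLin']

theorem Ss.rk_eq {A : Matrix n n K} (h : Ss A) {s : K} (hs : s ≠ 0) :
    Module.finrank K (Es A s) = rootMultiplicity s⁻¹ A.charpolyRev := by
  rw [h.rk_eq']
  obtain ⟨Q, Q', l, h1, rfl⟩ := h.diag
  rw [charpoly_mul_comm, crev_mul_comm, mul_assoc, h1, mul_one, charpoly_diagonal, crev_diagonal,
    rm_prod _ _ (fun _ => X_sub_C_ne_zero _), rm_prod _ _ fun _ => lin_ne _]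
  exact Finset.sum_congr rfl fun i _ => (rm_lin hs _).symm

theorem isIntegral_trace {A : Matrix n n K} {e : ℕ} (he : 0 < e) (h : A ^ (e + 1) = A) : IsIntegral ℤ A.trace := by
  rw [trace_eq_sum_roots_charpoly]
  refine IsIntegral.multiset_sum fun x hx => ?_
  have h1 : Module.End.HasEigenvalue (Matrix.toLin' A) x := by
    rw [Module.End.hasEigenvalue_iff_isRoot_charpoly, charpoly_toLin']
    exact isRoot_of_mem_roots hx
  obtain ⟨v, hv⟩ := h1.exists_hasEigenvector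
  have h2 := hv.pow_apply (e + 1)
  rw [← toLin'_pow, h, hv.apply_eq_smul] at h2
  refine ⟨X ^ (e + 1) - X, ?_, ?_⟩
  · exact monic_X_pow_sub (by rw [degree_X]; exact_mod_cast Nat.succ_lt_succ he)
  · rw [eval₂_sub, eval₂_X_pow, eval₂_X, smul_left_injective K hv.2 h2.symm, sub_self]

end Cfsg.Agent.MO.Sp
end

-- part: MO/Sh/Ct
section
/-!
# MO/Sh: elements of the exceptional Weyl groups with large eigenspaces (helper31)

`Ct C M L K U c` : the word `L` acts on the blocks `K t` (coordinates of the simple coroots) by the matrix `M`.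
-/

set_option autoImplicit false

namespace Cfsg.Agent.MO.Sh

open Matrix

variable {n a f : ℕ} (C : Matrix (Fin n) (Fin n) ℤ)

/-- a simple reflection -/
def rv (k : Fin n) (x : Fin n → ℤ) : Fin n → ℤ := fun i => if i = k then x k - ∑ l, C l k * x l else x i

/-- the certificates -/
def Ct (M : Matrix (Fin f) (Fin f) ℤ) (L : List (Fin n)) (K U : Fin a → Fin f → Fin n → ℤ) (c : ℤ) : Prop :=
  (∀ t j i, L.foldr (rv C) (K t j) i = ∑ l, M l j * K t l i) ∧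
    (∀ i i', C.mulVec^[5] 1 i = C.mulVec^[5] 1 i' → ∀ t j, K t j i = K t j i') ∧
    (∀ t i t' j, ∑ l, K t' j l * ∑ l', C l l' * U t i l' = if t = t' ∧ i = j then c else 0) ∧ c ≠ 0

instance instDecidableCt (M : Matrix (Fin f) (Fin f) ℤ) (L : List (Fin n)) (K U : Fin a → Fin f → Fin n → ℤ) (c : ℤ) :
    Decidable (Ct C M L K U c) := instDecidableAnd

/-- the companion matrices of the cyclotomic polynomials -/
def cm1 : Matrix (Fin 1) (Fin 1) ℤ := !![1]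
def cm2 : Matrix (Fin 1) (Fin 1) ℤ := !![-1]
def cm3 : Matrix (Fin 2) (Fin 2) ℤ := !![0, 1; -1, -1]
def cm4 : Matrix (Fin 2) (Fin 2) ℤ := !![0, 1; -1, 0]
def cm6 : Matrix (Fin 2) (Fin 2) ℤ := !![0, 1; -1, 1]
def cm5 : Matrix (Fin 4) (Fin 4) ℤ := !![0, 1, 0, 0; 0, 0, 1, 0; 0, 0, 0, 1; -1, -1, -1, -1]
def cm8 : Matrix (Fin 4) (Fin 4) ℤ := !![0, 1, 0, 0; 0, 0, 1, 0; 0, 0, 0, 1; -1, 0, 0, 0]
def cm10 : Matrix (Fin 4) (Fin 4) ℤ := !![0, 1, 0, 0; 0, 0, 1, 0; 0, 0, 0, 1; -1, 1, -1, 1]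
def cm12 : Matrix (Fin 4) (Fin 4) ℤ := !![0, 1, 0, 0; 0, 0, 1, 0; 0, 0, 0, 1; -1, 0, 1, 0]

theorem ct_F4_1 : Ct CartanMatrix.F₄ cm1 []
    ![![![1, 0, 0, 0]], ![![0, 1, 0, 0]], ![![0, 0, 1, 0]], ![![0, 0, 0, 1]]]
    ![![![2, 3, 2, 1]], ![![3, 6, 4, 2]], ![![4, 8, 6, 3]], ![![2, 4, 3, 2]]] 1 := by decide +kernel

theorem ct_F4_2 : Ct CartanMatrix.F₄ cm2 [3, 2, 1, 2, 0, 1, 2, 3, 2, 1, 2, 0, 1, 2, 3, 2, 1, 2, 0, 1, 2, 0, 1, 0]
    ![![![1, 0, 0, 0]], ![![0, 1, 0, 0]], ![![0, 0, 1, 0]], ![![0, 0, 0, 1]]]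
    ![![![2, 3, 2, 1]], ![![3, 6, 4, 2]], ![![4, 8, 6, 3]], ![![2, 4, 3, 2]]] 1 := by decide +kernel

theorem ct_F4_3 : Ct CartanMatrix.F₄ cm3 [2, 1, 2, 0, 1, 2, 3, 2, 1, 2, 0, 1, 2, 3, 1, 0]
    ![![![0, -1, 0, 0], ![1, 0, 0, 0]], ![![0, 1, 2, 1], ![0, 0, 1, 0]]]
    ![![![-1, -2, -1, 0], ![2, 3, 2, 1]], ![![2, 4, 3, 2], ![0, 0, 0, -1]]] 1 := by decide +kernel

theorem ct_F4_4 : Ct CartanMatrix.F₄ cm4 [1, 2, 3, 1, 2, 0, 1, 2, 3, 1, 2, 0]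
    ![![![-1, -2, -2, -2], ![1, 0, 0, 0]], ![![2, 3, 4, 2], ![0, 1, 0, 0]]]
    ![![![0, 0, 0, -1], ![0, -2, -2, -1]], ![![2, 4, 3, 1], ![0, 0, -1, -1]]] 2 := by decide +kernel

theorem ct_F4_6 : Ct CartanMatrix.F₄ cm6 [3, 2, 1, 2, 0, 1, 2, 0]
    ![![![-1, -1, 0, 0], ![1, 0, 0, 0]], ![![-1, -1, -2, -1], ![0, 0, 1, 0]]]
    ![![![-1, -2, -1, 0], ![-1, -3, -2, -1]], ![![-2, -4, -3, -2], ![0, 0, 0, -1]]] 1 := by decide +kernel

theorem ct_E6_1 : Ct CartanMatrix.E₆ cm1 []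
    ![![![0, 1, 0, 0, 0, 0]], ![![0, 0, 0, 1, 0, 0]], ![![0, 0, 1, 0, 1, 0]]]
    ![![![-2, 1, -1, 0, 0, 0]], ![![-4, 0, -2, 0, 0, 0]], ![![-2, 0, 0, 0, 0, 0]]] 2 := by decide +kernel

theorem ct_E6_2 : Ct CartanMatrix.E₆ cm2 [4, 3, 2, 1, 3, 4, 3, 2, 1, 3, 2, 1]
    ![![![0, 1, 0, 0, 0, 0]], ![![0, 0, 0, 1, 0, 0]], ![![0, 0, 1, 0, 1, 0]]]
    ![![![-2, 1, -1, 0, 0, 0]], ![![-4, 0, -2, 0, 0, 0]], ![![-2, 0, 0, 0, 0, 0]]] 2 := by decide +kernel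

theorem ct_E6_3 : Ct CartanMatrix.E₆ cm3 [5, 3, 4, 2, 3, 0, 2, 1, 3, 4, 5, 4, 2, 3, 0, 2, 1, 3, 4, 2, 3, 0, 2, 1]
    ![![![-1, 0, -1, -1, -1, -1], ![0, 1, 0, 0, 0, 0]], ![![1, 1, 2, 3, 2, 1], ![0, 0, 0, 1, 0, 0]]]
    ![![![-1, 0, 0, 0, 0, 0], ![1, 1, 1, 1, 0, 0]], ![![1, 1, 3, 2, 0, 0], ![0, 0, -1, 0, 0, 0]]] 1 := by decide +kernel

theorem ct_E6_4 : Ct CartanMatrix.E₆ cm4 [1, 3, 4, 2, 3, 0, 2, 1, 3, 4, 5, 2, 3, 4, 3, 0, 2, 0]
    ![![![1, 1, 1, 2, 1, 1], ![0, 1, 0, 0, 0, 0]], ![![0, 0, 1, 1, 1, 0], ![0, 0, 0, 1, 0, 0]]]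
    ![![![2, 1, 3, 2, 0, 0], ![0, 1, 1, 1, 0, 0]], ![![1, 1, 3, 2, 0, 0], ![-1, 0, -1, 0, 0, 0]]] 1 := by decide +kernel

theorem ct_E6_6 : Ct CartanMatrix.E₆ cm6 [3, 4, 5, 0, 2, 3, 4, 0, 2, 3, 2, 1]
    ![![![-1, -2, -2, -3, -2, -1], ![0, 1, 0, 0, 0, 0]], ![![1, 1, 1, 1, 1, 1], ![0, 0, 0, 1, 0, 0]]]
    ![![![-1, -1, -3, -2, 0, 0], ![-1, 0, -2, -1, 0, 0]], ![![1, 0, 0, 0, 0, 0], ![0, 0, -1, 0, 0, 0]]] 1 := by decide +kernel

theorem ct_E7_1 : Ct CartanMatrix.E₇ cm1 []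
    ![![![1, 0, 0, 0, 0, 0, 0]], ![![0, 1, 0, 0, 0, 0, 0]], ![![0, 0, 1, 0, 0, 0, 0]], ![![0, 0, 0, 1, 0, 0, 0]]]
    ![![![4, 1, 3, 2, 0, 0, 0]], ![![1, 4, 2, 3, 0, 0, 0]], ![![3, 2, 6, 4, 0, 0, 0]], ![![2, 3, 4, 6, 0, 0, 0]]] 5 := by decide +kernel

theorem ct_E7_2 : Ct CartanMatrix.E₇ cm2 [6, 4, 1, 0]
    ![![![1, 0, 0, 0, 0, 0, 0]], ![![0, 1, 0, 0, 0, 0, 0]], ![![0, 0, 0, 0, 1, 0, 0]], ![![0, 0, 0, 0, 0, 0, 1]]]
    ![![![1, 0, 0, 0, 0, 0, 0]], ![![0, 1, 0, 0, 0, 0, 0]], ![![0, -1, 0, -2, 0, 0, 0]], ![![0, 1, 0, 2, 0, -2, 0]]] 2 := by decide +kernel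

theorem ct_E7_3 : Ct CartanMatrix.E₇ cm3 [6, 5, 3, 1]
    ![![![0, 0, 0, -1, 0, 0, 0], ![0, 1, 0, 0, 0, 0, 0]], ![![0, 0, 0, 0, 0, 0, -1], ![0, 0, 0, 0, 0, 1, 0]]]
    ![![![0, 0, 2, 0, 0, 0, 0], ![0, 1, -1, 0, 0, 0, 0]], ![![0, 0, -4, 0, 4, 2, 0], ![0, 0, 2, 0, -2, 0, 0]]] 2 := by decide +kernel

theorem ct_E7_4 : Ct CartanMatrix.E₇ cm4 [2, 3, 4, 2, 3, 1]
    ![![![0, -1, -1, -2, -1, 0, 0], ![0, 1, 0, 0, 0, 0, 0]], ![![0, 0, 0, 0, 1, 0, 0], ![0, 0, 1, 0, 0, 0, 0]]]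
    ![![![2, 0, 1, 0, 0, 0, 0], ![0, 1, 0, 0, 0, 0, 0]], ![![-2, -1, -2, -2, 0, 0, 0], ![0, 0, 1, 0, 0, 0, 0]]] 2 := by decide +kernel

theorem ct_E7_6 : Ct CartanMatrix.E₇ cm6 [3, 4, 5, 2, 1, 3, 4, 1, 3, 2, 1, 0]
    ![![![-1, -1, -2, -2, -2, -1, 0], ![1, 0, 1, 0, 0, 0, 0]], ![![0, 0, 0, 0, 1, 0, 0], ![0, 1, 0, 1, 0, 0, 0]]]
    ![![![1, -1, -1, 0, 0, 0, 0], ![1, 0, 0, 0, 0, 0, 0]], ![![0, 0, -1, -1, 0, 0, 0], ![0, 1, 0, 0, 0, 0, 0]]] 1 := by decide +kernel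

theorem ct_E8_1 : Ct CartanMatrix.E₈ cm1 []
    ![![![1, 0, 0, 0, 0, 0, 0, 0]], ![![0, 1, 0, 0, 0, 0, 0, 0]], ![![0, 0, 1, 0, 0, 0, 0, 0]], ![![0, 0, 0, 1, 0, 0, 0, 0]], ![![0, 0, 0, 0, 1, 0, 0, 0]]]
    ![![![4, 2, 4, 4, 2, 0, 0, 0]], ![![2, 5, 4, 6, 3, 0, 0, 0]], ![![4, 4, 8, 8, 4, 0, 0, 0]], ![![4, 6, 8, 12, 6, 0, 0, 0]], ![![2, 3, 4, 6, 5, 0, 0, 0]]] 4 := by decide +kernel

private noncomputable def _root_.Cfsg.Agent.LsF.f679f02_0 : {f // @Cfsg.Agent.MO.Sh.rv = f} := ⟨_, by first | (delta Cfsg.Agent.MO.Sh.rv; rewrite [Cfsg.Agent.LsF.imul_pat, Cfsg.Agent.LsF.isub_pat, Cfsg.Agent.LsF.finFintype_eq, Cfsg.Agent.LsF.fsum_eq, Cfsg.Agent.LsF.iACM_eq, Cfsg.Agent.LsF.dFinEq_eq, Cfsg.Agent.LsF.ite_eq]; exact rfl) | exact rfl⟩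
private noncomputable def _root_.Cfsg.Agent.LsF.f679f02_5 : {f // @Cfsg.Agent.MO.Sh.cm2 = f} := ⟨_, by first | (delta Cfsg.Agent.MO.Sh.cm2; rewrite [Cfsg.Agent.LsF.mof_pat, Cfsg.Agent.LsF.ineg_pat, Cfsg.Agent.LsF.vecCons_eq]; exact rfl) | exact rfl⟩
theorem ct_E8_2 : Ct CartanMatrix.E₈ cm2 [6, 4, 3, 2, 1, 3, 4, 3, 2, 1, 3, 2, 1]
    ![![![0, 1, 0, 0, 0, 0, 0, 0]], ![![0, 0, 1, 0, 0, 0, 0, 0]], ![![0, 0, 0, 1, 0, 0, 0, 0]], ![![0, 0, 0, 0, 1, 0, 0, 0]], ![![0, 0, 0, 0, 0, 0, 1, 0]]]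
    ![![![-2, 1, -1, 0, 0, 0, 0, 0]], ![![-2, 0, 0, 0, 0, 0, 0, 0]], ![![-4, 0, -2, 0, 0, 0, 0, 0]], ![![-4, -1, -3, -2, 0, 0, 0, 0]], ![![4, 1, 3, 2, 0, -2, 0, 0]]] 2 := by (refine of_decide_eq_true ?_; (try (delta Cfsg.Agent.MO.Sh.Ct Cfsg.Agent.MO.Sh.instDecidableCt; rewrite [Cfsg.Agent.LsF.mulVecF_pat, Cfsg.Agent.LsF.sumF_pat, Cfsg.Agent.LsF.sumF_pat, Cfsg.Agent.LsF.f679f02_0.2, Cfsg.Agent.LsF.f679f02_5.2, Cfsg.Agent.LsF.iadd_pat, Cfsg.Agent.LsF.imul_pat, Cfsg.Agent.LsF.ineg_pat, Cfsg.Agent.LsF.vecCons_eq, Cfsg.Agent.LsF.iterate_eq, Cfsg.Agent.LsF.iACM_eq, Cfsg.Agent.LsF.foldr_eq, Cfsg.Agent.LsF.instIDecEq_eq, Cfsg.Agent.LsF.dAnd_eq, Cfsg.Agent.LsF.dNot_eq, Cfsg.Agent.LsF.dFinEq_eq, Cfsg.Agent.LsF.dForallFin_eq, Cfsg.Agent.LsF.dAllP_eq, Cfsg.Agent.LsF.ite_eq, Cfsg.Agent.LsF.decide_eq])); decide +kernel)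

private noncomputable def _root_.Cfsg.Agent.LsF.f679f02_1 : {f // @Cfsg.Agent.MO.Sh.cm3 = f} := ⟨_, by first | (delta Cfsg.Agent.MO.Sh.cm3; rewrite [Cfsg.Agent.LsF.mof_pat, Cfsg.Agent.LsF.ineg_pat, Cfsg.Agent.LsF.vecCons_eq]; exact rfl) | exact rfl⟩
theorem ct_E8_3 : Ct CartanMatrix.E₈ cm3 [3, 4, 5, 1, 3, 4, 2, 3, 0, 2, 1, 3, 4, 5, 3, 2, 1, 3, 4, 2, 3, 0, 2, 1]
    ![![![1, 1, 1, 1, 0, 0, 0, 0], ![1, 0, 0, 0, 0, 0, 0, 0]], ![![-1, 0, -1, -1, -1, 0, 0, 0], ![0, 1, 0, 0, 0, 0, 0, 0]], ![![-1, -1, -1, -2, -1, -1, 0, 0], ![0, 0, 1, 0, 0, 0, 0, 0]]]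
    ![![![0, 0, 0, 0, -3, -3, 0, 0], ![0, -3, -3, -6, -3, 0, 0, 0]], ![![-2, -3, -4, -6, -5, -1, 0, 0], ![1, 3, 2, 3, 4, 2, 0, 0]], ![![-2, -3, -4, -6, -5, -4, 0, 0], ![1, 0, 2, 0, 1, 2, 0, 0]]] 3 := by (refine of_decide_eq_true ?_; (try (delta Cfsg.Agent.MO.Sh.Ct Cfsg.Agent.MO.Sh.instDecidableCt; rewrite [Cfsg.Agent.LsF.mulVecF_pat, Cfsg.Agent.LsF.sumF_pat, Cfsg.Agent.LsF.sumF_pat, Cfsg.Agent.LsF.f679f02_0.2, Cfsg.Agent.LsF.f679f02_1.2, Cfsg.Agent.LsF.iadd_pat, Cfsg.Agent.LsF.imul_pat, Cfsg.Agent.LsF.ineg_pat, Cfsg.Agent.LsF.vecCons_eq, Cfsg.Agent.LsF.iterate_eq, Cfsg.Agent.LsF.iACM_eq, Cfsg.Agent.LsF.foldr_eq, Cfsg.Agent.LsF.instIDecEq_eq, Cfsg.Agent.LsF.dAnd_eq, Cfsg.Agent.LsF.dNot_eq, Cfsg.Agent.LsF.dFinEq_eq, Cfsg.Agent.LsF.dForallFin_eq, Cfsg.Agent.LsF.dAllP_eq, Cfsg.Agent.LsF.ite_eq, Cfsg.Agent.LsF.decide_eq])); decide +kernel)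

private noncomputable def _root_.Cfsg.Agent.LsF.f679f02_2 : {f // @Cfsg.Agent.MO.Sh.cm4 = f} := ⟨_, by first | (delta Cfsg.Agent.MO.Sh.cm4; rewrite [Cfsg.Agent.LsF.mof_pat, Cfsg.Agent.LsF.ineg_pat, Cfsg.Agent.LsF.vecCons_eq]; exact rfl) | exact rfl⟩
theorem ct_E8_4 : Ct CartanMatrix.E₈ cm4 [1, 3, 4, 5, 6, 7, 3, 2, 1, 3, 4, 5, 6, 3, 4, 5, 4, 2, 1, 3, 2]
    ![![![0, -1, -1, -2, -2, -2, -2, -2], ![0, -1, 1, 0, 0, 0, 0, 0]], ![![0, 0, 0, 0, 0, 0, 1, 1], ![0, 1, 0, 1, 0, 0, 0, 0]], ![![0, 1, 1, 2, 2, 2, 1, 0], ![0, 0, 0, 0, 1, 0, 0, 0]]]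
    ![![![2, -1, 0, 4, 3, 2, 2, 0], ![0, -1, 0, 2, 1, 0, 0, 0]], ![![0, 0, 0, 0, 0, 0, 2, 0], ![0, 0, 0, 4, 2, 0, 0, 0]], ![![0, 0, 0, 2, 2, 2, 2, 0], ![0, 0, 0, 2, 2, 0, 0, 0]]] 2 := by (refine of_decide_eq_true ?_; (try (delta Cfsg.Agent.MO.Sh.Ct Cfsg.Agent.MO.Sh.instDecidableCt; rewrite [Cfsg.Agent.LsF.mulVecF_pat, Cfsg.Agent.LsF.sumF_pat, Cfsg.Agent.LsF.sumF_pat, Cfsg.Agent.LsF.f679f02_0.2, Cfsg.Agent.LsF.f679f02_2.2, Cfsg.Agent.LsF.iadd_pat, Cfsg.Agent.LsF.imul_pat, Cfsg.Agent.LsF.ineg_pat, Cfsg.Agent.LsF.vecCons_eq, Cfsg.Agent.LsF.iterate_eq, Cfsg.Agent.LsF.iACM_eq, Cfsg.Agent.LsF.foldr_eq, Cfsg.Agent.LsF.instIDecEq_eq, Cfsg.Agent.LsF.dAnd_eq, Cfsg.Agent.LsF.dNot_eq, Cfsg.Agent.LsF.dFinEq_eq, Cfsg.Agent.LsF.dForallFin_eq, Cfsg.Agent.LsF.dAllP_eq, Cfsg.Agent.LsF.ite_eq, Cfsg.Agent.LsF.decide_eq])); decide +kernel)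

private noncomputable def _root_.Cfsg.Agent.LsF.f679f02_3 : {f // @Cfsg.Agent.MO.Sh.cm6 = f} := ⟨_, by first | (delta Cfsg.Agent.MO.Sh.cm6; rewrite [Cfsg.Agent.LsF.mof_pat, Cfsg.Agent.LsF.ineg_pat, Cfsg.Agent.LsF.vecCons_eq]; exact rfl) | exact rfl⟩
theorem ct_E8_6 : Ct CartanMatrix.E₈ cm6 [4, 3, 0, 2, 1, 3, 4, 5, 6, 4, 5, 3, 4, 2, 3, 0, 2, 1, 3, 2, 1]
    ![![![0, 0, 1, 1, 1, 1, 1, 0], ![1, 0, 0, 0, 0, 0, 0, 0]], ![![0, -1, -1, -1, -1, 0, 0, 0], ![0, 1, 0, 0, 0, 0, 0, 0]], ![![-1, -1, -2, -3, -2, -2, -1, 0], ![0, 0, 1, 1, 0, 0, 0, 0]]]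
    ![![![0, -1, 0, -2, -1, 0, 0, 0], ![1, 0, 1, 0, 0, 0, 0, 0]], ![![-1, -1, -2, -2, -2, -1, 0, 0], ![0, 0, 0, -1, -1, 0, 0, 0]], ![![-1, -1, -2, -2, -2, -2, 0, 0], ![0, 0, 0, 0, -1, -1, 0, 0]]] 1 := by (refine of_decide_eq_true ?_; (try (delta Cfsg.Agent.MO.Sh.Ct Cfsg.Agent.MO.Sh.instDecidableCt; rewrite [Cfsg.Agent.LsF.mulVecF_pat, Cfsg.Agent.LsF.sumF_pat, Cfsg.Agent.LsF.sumF_pat, Cfsg.Agent.LsF.f679f02_0.2, Cfsg.Agent.LsF.f679f02_3.2, Cfsg.Agent.LsF.iadd_pat, Cfsg.Agent.LsF.imul_pat, Cfsg.Agent.LsF.ineg_pat, Cfsg.Agent.LsF.vecCons_eq, Cfsg.Agent.LsF.iterate_eq, Cfsg.Agent.LsF.iACM_eq, Cfsg.Agent.LsF.foldr_eq, Cfsg.Agent.LsF.instIDecEq_eq, Cfsg.Agent.LsF.dAnd_eq, Cfsg.Agent.LsF.dNot_eq, Cfsg.Agent.LsF.dFinEq_eq, Cfsg.Agent.LsF.dForallFin_eq, Cfsg.Agent.LsF.dAllP_eq, Cfsg.Agent.LsF.ite_eq, Cfsg.Agent.LsF.decide_eq])); decide +kernel)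

private noncomputable def _root_.Cfsg.Agent.LsF.f679f02_6 : {f // @Cfsg.Agent.MO.Sh.cm5 = f} := ⟨_, by first | (delta Cfsg.Agent.MO.Sh.cm5; rewrite [Cfsg.Agent.LsF.mof_pat, Cfsg.Agent.LsF.ineg_pat, Cfsg.Agent.LsF.vecCons_eq]; exact rfl) | exact rfl⟩
theorem ct_E8_5 : Ct CartanMatrix.E₈ cm5 [6, 7, 4, 5, 6, 2, 3, 4, 5, 1, 3, 4, 2, 3, 0, 2, 1, 3, 4, 5, 6, 7, 4, 3, 2, 1, 3, 4, 5, 6, 5, 4, 2, 3, 0, 2, 1, 3, 4, 5, 3, 4, 3, 0, 2, 1, 3, 0]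
    ![![![-1, -1, -2, -2, -1, -1, -1, -1], ![-1, -1, -3, -3, -2, -2, -2, -1], ![0, -1, -2, -2, -1, -1, -1, 0], ![1, 0, 0, 0, 0, 0, 0, 0]], ![![1, 2, 2, 3, 2, 2, 1, 0], ![1, 3, 3, 5, 4, 3, 2, 1], ![1, 2, 2, 3, 3, 2, 1, 0], ![0, 1, 0, 0, 0, 0, 0, 0]]]
    ![![![-1, -1, -2, -2, -1, 0, 1, 0], ![0, 0, 0, 0, -1, -2, -2, -1], ![0, 0, 0, 0, 1, 2, 1, 1], ![1, 1, 1, 2, 1, 0, 1, 0]], ![![0, 0, 0, 0, 0, 1, 0, 0], ![1, 2, 2, 4, 3, 2, 2, 1], ![1, 1, 2, 2, 2, 1, 0, 0], ![-1, -1, -2, -3, -2, -1, 0, 0]]] 1 := by (refine of_decide_eq_true ?_; (try (delta Cfsg.Agent.MO.Sh.Ct Cfsg.Agent.MO.Sh.instDecidableCt; rewrite [Cfsg.Agent.LsF.mulVecF_pat, Cfsg.Agent.LsF.sumF_pat, Cfsg.Agent.LsF.sumF_pat, Cfsg.Agent.LsF.f679f02_0.2, Cfsg.Agent.LsF.f679f02_6.2, Cfsg.Agent.LsF.iadd_pat, Cfsg.Agent.LsF.imul_pat, Cfsg.Agent.LsF.ineg_pat, Cfsg.Agent.LsF.vecCons_eq, Cfsg.Agent.LsF.iterate_eq, Cfsg.Agent.LsF.iACM_eq,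 Cfsg.Agent.LsF.foldr_eq, Cfsg.Agent.LsF.instIDecEq_eq, Cfsg.Agent.LsF.dAnd_eq, Cfsg.Agent.LsF.dNot_eq, Cfsg.Agent.LsF.dFinEq_eq, Cfsg.Agent.LsF.dForallFin_eq, Cfsg.Agent.LsF.dAllP_eq, Cfsg.Agent.LsF.ite_eq, Cfsg.Agent.LsF.decide_eq])); decide +kernel)

private noncomputable def _root_.Cfsg.Agent.LsF.f679f02_7 : {f // @Cfsg.Agent.MO.Sh.cm8 = f} := ⟨_, by first | (delta Cfsg.Agent.MO.Sh.cm8; rewrite [Cfsg.Agent.LsF.mof_pat, Cfsg.Agent.LsF.ineg_pat, Cfsg.Agent.LsF.vecCons_eq]; exact rfl) | exact rfl⟩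
theorem ct_E8_8 : Ct CartanMatrix.E₈ cm8 [3, 4, 5, 6, 7, 3, 2, 1, 3, 4, 5, 6, 5, 4, 2, 3, 0, 2, 1, 3, 4, 5, 4, 2, 1, 3, 0, 2, 1, 0]
    ![![![0, -1, -1, -1, -1, -1, -1, 0], ![-1, -1, -2, -3, -2, -2, -1, -1], ![-1, -1, -1, -2, -2, -1, -1, 0], ![1, 0, 0, 0, 0, 0, 0, 0]], ![![-1, -1, -2, -2, -1, -1, -1, -1], ![-1, -1, -1, -2, -2, -2, -2, -1], ![0, -1, -1, -2, -1, -1, -1, 0], ![0, 1, 0, 0, 0, 0, 0, 0]]]
    ![![![-2, -2, -4, -4, -4, -4, -2, 0], ![-4, -6, -8, -12, -10, -8, -4, -2], ![-4, -6, -8, -12, -10, -6, -4, -2], ![0, -2, -2, -4, -4, -2, -2, -2]], ![![-1, -1, -2, -2, -1, 0, -1, -1], ![1, 1, 2, 2, 1, 0, -1, -1], ![1, 1, 2, 2, 3, 2, 1, 1], ![1, 3, 2, 4, 3, 2, 1, 1]]] 2 := by (refine of_decide_eq_true ?_; (try (delta Cfsg.Agent.MO.Sh.Ct Cfsg.Agent.MO.Sh.instDecidableCt; rewrite [Cfsg.Agent.LsF.mulVecF_pat, Cfsg.Agent.LsF.sumF_pat, Cfsg.Agent.LsF.sumF_pat, Cfsg.Agent.LsF.f679f02_0.2,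 Cfsg.Agent.LsF.f679f02_7.2, Cfsg.Agent.LsF.iadd_pat, Cfsg.Agent.LsF.imul_pat, Cfsg.Agent.LsF.ineg_pat, Cfsg.Agent.LsF.vecCons_eq, Cfsg.Agent.LsF.iterate_eq, Cfsg.Agent.LsF.iACM_eq, Cfsg.Agent.LsF.foldr_eq, Cfsg.Agent.LsF.instIDecEq_eq, Cfsg.Agent.LsF.dAnd_eq, Cfsg.Agent.LsF.dNot_eq, Cfsg.Agent.LsF.dFinEq_eq, Cfsg.Agent.LsF.dForallFin_eq, Cfsg.Agent.LsF.dAllP_eq, Cfsg.Agent.LsF.ite_eq, Cfsg.Agent.LsF.decide_eq])); decide +kernel)

private noncomputable def _root_.Cfsg.Agent.LsF.f679f02_8 : {f // @Cfsg.Agent.MO.Sh.cm10 = f} := ⟨_, by first | (delta Cfsg.Agent.MO.Sh.cm10; rewrite [Cfsg.Agent.LsF.mof_pat, Cfsg.Agent.LsF.ineg_pat, Cfsg.Agent.LsF.vecCons_eq]; exact rfl) | exact rfl⟩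
theorem ct_E8_10 : Ct CartanMatrix.E₈ cm10 [4, 3, 2, 1, 3, 4, 5, 6, 7, 3, 2, 1, 3, 4, 5, 6, 3, 4, 5, 1, 3, 0, 2, 0]
    ![![![-1, -1, -1, -2, -2, -2, -2, -1], ![0, -1, -1, -1, -1, 0, 0, 0], ![-1, -1, -1, -2, -2, -2, -1, 0], ![1, 0, 0, 0, 0, 0, 0, 0]], ![![0, 0, 0, 0, -1, -1, 0, 0], ![0, 0, -1, -1, 0, 0, -1, 0], ![0, -1, 0, 0, 0, 0, 1, 0], ![0, 1, 0, 0, 0, 0, 0, 0]]]
    ![![![-2, -3, -4, -6, -5, -4, -3, -2], ![-2, -3, -4, -6, -5, -3, -2, -1], ![-1, -2, -2, -4, -3, -2, -1, 0], ![1, 0, 1, 0, 0, 0, 0, 0]], ![![0, 1, 0, 2, 1, 0, 0, 0], ![-2, -2, -4, -4, -3, -3, -2, -1], ![-3, -4, -6, -8, -6, -5, -3, -2], ![-3, -4, -6, -9, -7, -5, -3, -2]]] 1 := by (refine of_decide_eq_true ?_; (try (delta Cfsg.Agent.MO.Sh.Ct Cfsg.Agent.MO.Sh.instDecidableCt; rewrite [Cfsg.Agent.LsF.mulVecF_pat, Cfsg.Agent.LsF.sumF_pat, Cfsg.Agent.LsF.sumF_pat, Cfsg.Agent.LsF.f679f02_0.2, Cfsg.Agent.LsF.f679f02_8.2,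 Cfsg.Agent.LsF.iadd_pat, Cfsg.Agent.LsF.imul_pat, Cfsg.Agent.LsF.ineg_pat, Cfsg.Agent.LsF.vecCons_eq, Cfsg.Agent.LsF.iterate_eq, Cfsg.Agent.LsF.iACM_eq, Cfsg.Agent.LsF.foldr_eq, Cfsg.Agent.LsF.instIDecEq_eq, Cfsg.Agent.LsF.dAnd_eq, Cfsg.Agent.LsF.dNot_eq, Cfsg.Agent.LsF.dFinEq_eq, Cfsg.Agent.LsF.dForallFin_eq, Cfsg.Agent.LsF.dAllP_eq, Cfsg.Agent.LsF.ite_eq, Cfsg.Agent.LsF.decide_eq])); decide +kernel)

private noncomputable def _root_.Cfsg.Agent.LsF.f679f02_9 : {f // @Cfsg.Agent.MO.Sh.cm12 = f} := ⟨_, by first | (delta Cfsg.Agent.MO.Sh.cm12; rewrite [Cfsg.Agent.LsF.mof_pat, Cfsg.Agent.LsF.ineg_pat, Cfsg.Agent.LsF.vecCons_eq]; exact rfl) | exact rfl⟩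
theorem ct_E8_12 : Ct CartanMatrix.E₈ cm12 [6, 7, 4, 5, 6, 0, 2, 1, 3, 4, 5, 2, 1, 3, 4, 3, 0, 2, 1, 3]
    ![![![0, 1, 1, 2, 2, 1, 0, 0], ![0, 1, 1, 2, 2, 2, 1, 1], ![1, 0, 1, 1, 1, 1, 1, 1], ![1, 0, 0, 0, 0, 0, 0, 0]], ![![1, 1, 1, 2, 1, 1, 0, 0], ![1, 1, 2, 3, 2, 2, 2, 1], ![1, 1, 2, 2, 2, 1, 1, 0], ![0, 1, 0, 0, 0, 0, 0, 0]]]
    ![![![1, 2, 2, 4, 3, 1, 1, 1], ![0, 0, 0, 0, 1, 2, 1, 0], ![1, 1, 2, 2, 1, 0, 0, 1], ![0, 0, -1, 0, 1, 1, 1, 0]], ![![1, 1, 2, 2, 1, 1, 0, 0], ![1, 2, 2, 4, 3, 2, 2, 1], ![1, 1, 2, 2, 2, 2, 1, 0], ![1, 2, 2, 3, 2, 1, 1, 1]]] 1 := by (refine of_decide_eq_true ?_; (try (delta Cfsg.Agent.MO.Sh.Ct Cfsg.Agent.MO.Sh.instDecidableCt; rewrite [Cfsg.Agent.LsF.mulVecF_pat, Cfsg.Agent.LsF.sumF_pat, Cfsg.Agent.LsF.sumF_pat, Cfsg.Agent.LsF.f679f02_0.2, Cfsg.Agent.LsF.f679f02_9.2, Cfsg.Agent.LsF.iadd_pat, Cfsg.Agent.LsF.imul_pat, Cfsg.Agent.LsF.ineg_pat,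 Cfsg.Agent.LsF.vecCons_eq, Cfsg.Agent.LsF.iterate_eq, Cfsg.Agent.LsF.iACM_eq, Cfsg.Agent.LsF.foldr_eq, Cfsg.Agent.LsF.instIDecEq_eq, Cfsg.Agent.LsF.dAnd_eq, Cfsg.Agent.LsF.dNot_eq, Cfsg.Agent.LsF.dFinEq_eq, Cfsg.Agent.LsF.dForallFin_eq, Cfsg.Agent.LsF.dAllP_eq, Cfsg.Agent.LsF.ite_eq, Cfsg.Agent.LsF.decide_eq])); decide +kernel)

end Cfsg.Agent.MO.Sh
end

-- part: MO/UD/OB
section
/-!
# MO/UD: one step of Harish-Chandra induction, the abstract lemma (helper38)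

`L` labels of the characters of the box Levi subgroups, `U` the expected labels, `E` the characters, `m` the multiplicities.
From the Gram matrix, the multiplicity functions and the Casimir levels: `m` is the covering relation of the labels.
-/

set_option autoImplicit false
set_option linter.unusedSectionVars false

namespace Cfsg.Agent.MO.UD

open Finset Polynomial Classical

/-- projection to an eigenvalue -/
theorem eig_proj {V : Type} [AddCommGroup V] [Module ℂ V] (T : V →ₗ[ℂ] V) {I J : Type} (s : Finset I) (t : Finset J)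
    (v : I → V) (w : J → V) (a : I → ℂ) (b : J → ℂ) (ha : ∀ i ∈ s, T (v i) = a i • v i) (hb : ∀ j ∈ t, T (w j) = b j • w j)
    (h : ∑ i ∈ s, v i = ∑ j ∈ t, w j) (k : ℂ) : ∑ i ∈ s with a i = k, v i = ∑ j ∈ t with b j = k, w j := by
  set P : ℂ[X] := ∏ z ∈ (s.image a ∪ t.image b).erase k, (X - C z) with hP
  have h0 : ∀ z ∈ s.image a ∪ t.image b, z ≠ k → P.eval z = 0 := fun z hz hk => by
    rw [hP, eval_prod]
    exact prod_eq_zero (mem_erase.2 ⟨hk, hz⟩) (by simp)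
  have h1 : P.eval k ≠ 0 := by
    rw [hP, eval_prod]
    exact prod_ne_zero_iff.2 fun z hz => by simpa [sub_eq_zero] using (mem_erase.1 hz).1.symm
  have e := congrArg (aeval (T : Module.End ℂ V) P) h
  rw [map_sum, map_sum] at e
  refine smul_right_injective V h1 ?_
  simp only [smul_sum]
  rw [sum_filter, sum_filter]
  refine Eq.trans (sum_congr rfl fun i hi => ?_) (e.trans (sum_congr rfl fun j hj => ?_))
  · rw [Module.End.aeval_apply_of_mem_apply_eq_smul (ha i hi)]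
    split_ifs with h
    · rw [h]
    · rw [h0 _ (mem_union_left _ (mem_image_of_mem _ hi)) h, zero_smul]
  · rw [Module.End.aeval_apply_of_mem_apply_eq_smul (hb j hj)]
    split_ifs with h
    · rw [h]
    · rw [h0 _ (mem_union_right _ (mem_image_of_mem _ hj)) h, zero_smul]

/-- two summands -/
theorem two_sum {L V : Type} [AddCommGroup V] [Module ℂ V] (F : Finset L) (g : L → ℕ) (Y : L → V) {u w : L} (hu : u ∈ F)
    (hw : w ∈ F) (hg : g u ≠ 0) (hs : ∑ v ∈ F, g v = 2) (hY : ∑ v ∈ F, (g v : ℂ) • Y v = Y u + Y w)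
    (hi : ∀ v ∈ F, Y v = Y w → v = w) : ∀ v ∈ F, g v = (if v = u then 1 else 0) + if v = w then 1 else 0 := by
  set g' : L → ℕ := fun v => g v - if v = u then 1 else 0 with hg'
  have e : ∀ v, g v = (if v = u then 1 else 0) + g' v := fun v => by
    by_cases h : v = u
    · subst h; simp only [hg', if_true]; omega
    · simp [hg', h]
  have hs' : ∑ v ∈ F, g' v = 1 := by
    rw [sum_congr rfl fun v _ => e v, sum_add_distrib, sum_ite_eq', if_pos hu] at hs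
    omega
  obtain ⟨x, hx, hx1⟩ : ∃ x ∈ F, g' x ≠ 0 := exists_ne_zero_of_sum_ne_zero (by rw [hs']; exact one_ne_zero)
  have h3 := add_sum_erase F g' hx
  have h4 : g' x = 1 := by omega
  have h5 : ∀ v ∈ F, v ≠ x → g' v = 0 := fun v hv hvx =>
    sum_eq_zero_iff.1 (show ∑ v ∈ F.erase x, g' v = 0 by omega) v (mem_erase.2 ⟨hvx, hv⟩)
  have h6 : ∑ v ∈ F, (g v : ℂ) • Y v = Y u + Y x := by
    rw [sum_congr rfl fun v _ => by rw [e v, Nat.cast_add, add_smul], sum_add_distrib]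
    congr 1
    · rw [sum_eq_single u (fun v _ h => by simp [h]) (fun h => absurd hu h)]
      simp
    · rw [sum_eq_single x (fun v hv h => by simp [h5 v hv h]) (fun h => absurd hx h), h4]
      simp
  have h7 : x = w := hi x hx (add_left_cancel (h6.symm.trans hY))
  subst h7
  intro v hv
  rw [e v]
  by_cases h : v = x
  · rw [h, h4]; simp
  · rw [h5 v hv h]; simp [h]

theorem cons_uniq {X : Type} {x x' y y' : X} {A B : Multiset X} (h : x ::ₘ A = x' ::ₘ B) (h' : y ::ₘ A = y' ::ₘ B)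
    (hx : x ≠ x') : x = y := by
  have e := congrArg (Multiset.count x) h
  have e' := congrArg (Multiset.count x) h'
  simp only [Multiset.count_cons, if_true, if_neg hx] at e e'
  by_contra hy
  rw [if_neg hy] at e'
  split_ifs at e' <;> omega

/-- the labels -/
structure Po (L U X B C : Type) where
  cov : L → U → Prop
  zl : L → Multiset X
  zu : U → Multiset X
  bl : L → B
  bx : X → B
  cl : L → C
  cu : U → C
  κ : U → ℂ

variable {L U X B C : Type} [Fintype L] [Fintype U]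

namespace Po

variable (P : Po L U X B C)

/-- a common upper neighbour of level `k` -/
def adj (k : ℂ) (v w : L) : Prop := ∃ b, P.cov v b ∧ P.cov w b ∧ P.κ b = k

/-- the upper neighbours of level `k` -/
noncomputable def A (u : L) (k : ℂ) : Finset U := {a | P.cov u a ∧ P.κ a = k}

/-- the family -/
noncomputable def fm (u : L) : Finset L := {v | P.bl v = P.bl u ∧ P.zl v = P.zl u}

/-- the combinatorial axioms -/
structure Ok : Prop where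
  step : ∀ u a, P.cov u a → ∃ x, P.bx x = P.bl u ∧ P.zu a = x ::ₘ P.zl u
  cls : ∀ u a, P.cov u a → P.cl u = P.cu a
  lev : ∀ a a' Z x x', P.cu a = P.cu a' → P.bx x = P.bx x' → P.zu a = x ::ₘ Z → P.zu a' = x' ::ₘ Z → P.κ a = P.κ a' → x = x'
  levz : ∀ a a', P.cu a = P.cu a' → P.zu a = P.zu a' → P.κ a = P.κ a'
  two : ∀ u k, #(P.A u k) ≤ 2
  dbl : ∀ u a a', P.cov u a → P.cov u a' → a ≠ a' → P.κ a = P.κ a' → ∀ w, P.cov w a → w ∈ P.fm u → w = u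
  low : ∀ a u, #{w ∈ P.fm u | P.cov w a} ≤ 2
  nl : ∀ a a₁ a₂ a₃ u₁ u₂ u₃, P.cov u₁ a → P.cov u₂ a → P.cov u₃ a → P.cov u₁ a₁ → P.cov u₂ a₂ → P.cov u₃ a₃ →
    a₁ ≠ a → a₂ ≠ a → a₃ ≠ a → P.κ a₁ = P.κ a → P.κ a₂ = P.κ a → P.κ a₃ = P.κ a → (∀ v, P.cov v a₁ → P.cov v a) →
    (∀ v, P.cov v a₂ → P.cov v a) → (∀ v, P.cov v a₃ → P.cov v a) → a₁ = a₂ ∨ a₁ = a₃ ∨ a₂ = a₃
  tr : ∀ u a a', P.cov u a → P.cov u a' → a ≠ a' → P.κ a = P.κ a' → ∀ v w, P.cov v a → ¬ P.cov v a' → P.cov w a' →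
    ¬ P.cov w a → P.adj (P.κ a) v w → ∃ v' w', P.cov v' a ∧ ¬ P.cov v' a' ∧ P.cov w' a' ∧ ¬ P.cov w' a ∧
      ¬ P.adj (P.κ a) v' w ∧ ¬ P.adj (P.κ a) v w' ∧ ¬ P.adj (P.κ a) v' w'

theorem mem_A {u : L} {k : ℂ} {a : U} : a ∈ P.A u k ↔ P.cov u a ∧ P.κ a = k := by simp [A]

theorem mem_fm {u v : L} : v ∈ P.fm u ↔ P.bl v = P.bl u ∧ P.zl v = P.zl u := by simp [fm]

theorem self_fm (u : L) : u ∈ P.fm u := P.mem_fm.2 ⟨rfl, rfl⟩

end Po

variable {V V' : Type} [AddCommGroup V] [Module ℂ V] [AddCommGroup V'] [Module ℂ V']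

/-- the vectors of the labels -/
structure Md (P : Po L U X B C) (Res : V →ₗ[ℂ] V') (Cas : V →ₗ[ℂ] V) (Y : U → V) (Yl : L → V') : Prop where
  fam : ∀ (c : C) (f : L → ℂ), (∀ u, f u ≠ 0 → P.cl u = c) → ∑ u, f u • Yl u = 0 → ∀ v,
    ∑ u ∈ P.fm v, f u • Yl u = 0 ∧ ∑ u ∈ P.fm v, f u = 0
  inj : ∀ u v, P.cl u = P.cl v → u ∈ P.fm v → Yl u = Yl v → u = v
  res : ∀ a, Res (Y a) = ∑ u with P.cov u a, Yl u
  cas : ∀ a, Cas (Y a) = P.κ a • Y a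

/-- the characters -/
structure Sy (P : Po L U X B C) (Res : V →ₗ[ℂ] V') (Cas : V →ₗ[ℂ] V) (Y : U → V) (Yl : L → V') {E : Type} [Fintype E]
    (m : E → L → ℕ) (lev : E → ℂ) (y : E → V) : Prop where
  gram : ∀ u v, ∑ χ, m χ u * m χ v = #{a | P.cov u a ∧ P.cov v a}
  ind : ∀ u, ∑ χ, (m χ u : ℂ) • y χ = ∑ a with P.cov u a, Y a
  res : ∀ χ, Res (y χ) = ∑ u, (m χ u : ℂ) • Yl u
  cas : ∀ χ, Cas (y χ) = lev χ • y χ

section Main

variable {P : Po L U X B C} {Res : V →ₗ[ℂ] V'} {Cas : V →ₗ[ℂ] V} {Y : U → V} {Yl : L → V'} {E : Type} [Fintype E]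
  {m : E → L → ℕ} {lev : E → ℂ} {y : E → V}

variable (m lev) in
/-- the common constituents of level `k` -/
noncomputable def g1 (k : ℂ) (u v : L) : ℕ := ∑ χ with lev χ = k, m χ u * m χ v

variable (P) in
/-- the common upper neighbours of level `k` -/
noncomputable def g2 (k : ℂ) (u v : L) : ℕ := #{a ∈ P.A u k | P.cov v a}

theorem g2_self (k : ℂ) (u : L) : g2 P k u u = #(P.A u k) :=
  congrArg card (filter_true_of_mem fun _ ha => (P.mem_A.1 ha).1)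

theorem g2_ne {k : ℂ} {u v : L} : g2 P k u v ≠ 0 ↔ P.adj k u v := by
  rw [g2, card_ne_zero]
  exact ⟨fun ⟨a, ha⟩ => ⟨a, (P.mem_A.1 (mem_filter.1 ha).1).1, (mem_filter.1 ha).2, (P.mem_A.1 (mem_filter.1 ha).1).2⟩,
    fun ⟨a, h1, h2, h3⟩ => ⟨a, mem_filter.2 ⟨P.mem_A.2 ⟨h1, h3⟩, h2⟩⟩⟩

theorem g1_ne {k : ℂ} {u v : L} : g1 m lev k u v ≠ 0 ↔ ∃ χ, lev χ = k ∧ m χ u ≠ 0 ∧ m χ v ≠ 0 := by
  rw [g1, Ne, sum_eq_zero_iff]
  simp

theorem Sy.indk (M : Md P Res Cas Y Yl) (S : Sy P Res Cas Y Yl m lev y) (u : L) (k : ℂ) :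
    ∑ χ with lev χ = k, (m χ u : ℂ) • y χ = ∑ a ∈ P.A u k, Y a := by
  rw [eig_proj Cas univ _ _ Y lev P.κ (fun χ _ => by rw [map_smul, S.cas, smul_comm]) (fun a _ => M.cas a) (S.ind u) k,
    filter_filter]
  rfl

theorem Sy.sum_lev (S : Sy P Res Cas Y Yl m lev y) (u v : L) :
    ∑ k ∈ univ.image lev ∪ univ.image P.κ, g1 m lev k u v = ∑ k ∈ univ.image lev ∪ univ.image P.κ, g2 P k u v := by
  unfold g1
  rw [sum_fiberwise_of_maps_to fun χ _ => mem_union_left _ (mem_image_of_mem _ (mem_univ χ)), S.gram,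
    card_eq_sum_card_fiberwise (f := P.κ) (t := univ.image lev ∪ univ.image P.κ) fun a _ =>
      mem_coe.2 (mem_union_right _ (mem_image_of_mem _ (mem_univ a)))]
  refine sum_congr rfl fun k _ => congrArg card ?_
  ext a
  simp only [Po.A, mem_filter, mem_univ, true_and]
  tauto

theorem Sy.cl_eq (h : P.Ok) (S : Sy P Res Cas Y Yl m lev y) {χ : E} {u v : L} (hu : m χ u ≠ 0) (hv : m χ v ≠ 0) :
    P.cl v = P.cl u := by
  have e : #{a | P.cov u a ∧ P.cov v a} ≠ 0 := by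
    rw [← S.gram, Ne, sum_eq_zero_iff]
    exact fun e => mul_ne_zero hu hv (e χ (mem_univ _))
  obtain ⟨a, ha⟩ := card_ne_zero.1 e
  rw [h.cls u a (mem_filter.1 ha).2.1, h.cls v a (mem_filter.1 ha).2.2]

theorem Sy.famk (h : P.Ok) (M : Md P Res Cas Y Yl) (S : Sy P Res Cas Y Yl m lev y) (u : L) (k : ℂ) (w : L) :
    ∑ v ∈ P.fm w, (g1 m lev k u v : ℂ) • Yl v = ∑ v ∈ P.fm w, (g2 P k u v : ℂ) • Yl v ∧
      ∑ v ∈ P.fm w, g1 m lev k u v = ∑ v ∈ P.fm w, g2 P k u v := by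
  have e := congrArg Res (S.indk M u k)
  rw [map_sum, map_sum] at e
  have e1 : ∑ χ with lev χ = k, Res ((m χ u : ℂ) • y χ) = ∑ v, (g1 m lev k u v : ℂ) • Yl v := by
    simp only [map_smul, S.res, smul_sum, g1, Nat.cast_sum, Nat.cast_mul, sum_smul, smul_smul]
    exact sum_comm
  have e2 : ∑ a ∈ P.A u k, Res (Y a) = ∑ v, (g2 P k u v : ℂ) • Yl v := by
    simp only [M.res, g2, card_filter, Nat.cast_sum, sum_smul, sum_filter]
    rw [sum_comm]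
    refine sum_congr rfl fun v _ => sum_congr rfl fun a _ => ?_
    split_ifs <;> simp
  have e3 := M.fam (P.cl u) (fun v => (g1 m lev k u v : ℂ) - g2 P k u v) (fun v hv => by
    by_cases h1 : g1 m lev k u v = 0
    · have h2 : g2 P k u v ≠ 0 := fun h2 => hv (by simp [h1, h2])
      obtain ⟨a, h3, h4, -⟩ := g2_ne.1 h2
      rw [h.cls u a h3, h.cls v a h4]
    · obtain ⟨χ, -, h3, h4⟩ := g1_ne.1 h1
      exact S.cl_eq h h3 h4) (by
      simp only [sub_smul, sum_sub_distrib]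
      rw [← e1, ← e2, e, sub_self]) w
  simp only [sub_smul, sum_sub_distrib, sub_eq_zero] at e3
  exact ⟨e3.1, by exact_mod_cast e3.2⟩

theorem g2_dbl (h : P.Ok) {u : L} {k : ℂ} (h2 : #(P.A u k) = 2) {v : L} (hv : v ∈ P.fm u) (hvu : v ≠ u) : g2 P k u v = 0 := by
  by_contra e
  obtain ⟨a, h3, h4, h5⟩ := g2_ne.1 e
  obtain ⟨a', ha', hne⟩ := exists_mem_ne (s := P.A u k) (by omega) a
  exact hvu (h.dbl u a a' h3 (P.mem_A.1 ha').1 hne.symm (h5.trans (P.mem_A.1 ha').2.symm) v h4 hv)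

theorem Sy.le_self (h : P.Ok) (M : Md P Res Cas Y Yl) (S : Sy P Res Cas Y Yl m lev y) (u : L) (k : ℂ) :
    g2 P k u u ≤ g1 m lev k u u := by
  obtain ⟨e1, e2⟩ := S.famk h M u k u
  by_cases h0 : g1 m lev k u u = 0
  · have h1 : ∀ v, g1 m lev k u v = 0 := fun v => by
      by_contra e
      obtain ⟨χ, h3, h4, -⟩ := g1_ne.1 e
      exact g1_ne.2 ⟨χ, h3, h4, h4⟩ h0
    rw [sum_eq_zero fun v _ => h1 v] at e2
    rw [sum_eq_zero_iff.1 e2.symm u (P.self_fm u)]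
    exact Nat.zero_le _
  have h2 := h.two u k
  rw [g2_self]
  by_cases h3 : #(P.A u k) = 2
  · have e3 : ∑ v ∈ P.fm u, g2 P k u v = 2 := by
      rw [sum_eq_single u (fun v hv hvu => g2_dbl h h3 hv hvu) fun e => absurd (P.self_fm u) e, g2_self, h3]
    have e4 : ∑ v ∈ P.fm u, (g2 P k u v : ℂ) • Yl v = Yl u + Yl u := by
      rw [sum_eq_single u (fun v hv hvu => by rw [g2_dbl h h3 hv hvu, Nat.cast_zero, zero_smul])
        fun e => absurd (P.self_fm u) e, g2_self, h3, Nat.cast_ofNat, two_smul]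
    have hc : ∀ v ∈ P.fm u, g1 m lev k u v ≠ 0 → P.cl v = P.cl u := fun v _ e => by
      obtain ⟨χ, -, h4, h5⟩ := g1_ne.1 e
      exact S.cl_eq h h4 h5
    have := two_sum {v ∈ P.fm u | P.cl v = P.cl u} (g1 m lev k u) Yl (u := u) (w := u)
      (mem_filter.2 ⟨P.self_fm u, rfl⟩) (mem_filter.2 ⟨P.self_fm u, rfl⟩) h0
      (by rw [sum_filter_of_ne hc, e2, e3])
      (by rw [sum_filter_of_ne fun v hv e => hc v hv fun e' => e (by rw [e', Nat.cast_zero, zero_smul]), e1, e4])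
      (fun v hv e => M.inj v u (mem_filter.1 hv).2 (mem_filter.1 hv).1 e) u (mem_filter.2 ⟨P.self_fm u, rfl⟩)
    simp at this
    omega
  · omega

theorem Sy.eq_of_le (S : Sy P Res Cas Y Yl m lev y) {u v : L} (k : ℂ)
    (h : (∀ k, g2 P k u v ≤ g1 m lev k u v) ∨ ∀ k, g1 m lev k u v ≤ g2 P k u v) : g1 m lev k u v = g2 P k u v := by
  by_cases hk : k ∈ univ.image lev ∪ univ.image P.κ
  · rcases h with h | h
    · exact ((sum_eq_sum_iff_of_le fun k _ => h k).1 (S.sum_lev u v).symm k hk).symm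
    · exact (sum_eq_sum_iff_of_le fun k _ => h k).1 (S.sum_lev u v) k hk
  · have h1 : g1 m lev k u v = 0 := by
      by_contra e
      obtain ⟨χ, h3, -⟩ := g1_ne.1 e
      exact hk (mem_union_left _ (mem_image.2 ⟨χ, mem_univ _, h3⟩))
    have h2 : g2 P k u v = 0 := by
      by_contra e
      obtain ⟨a, -, -, h3⟩ := g2_ne.1 e
      exact hk (mem_union_right _ (mem_image.2 ⟨a, mem_univ _, h3⟩))
    rw [h1, h2]

theorem Sy.eq_self (h : P.Ok) (M : Md P Res Cas Y Yl) (S : Sy P Res Cas Y Yl m lev y) (u : L) (k : ℂ) :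
    g1 m lev k u u = #(P.A u k) := (S.eq_of_le k (Or.inl (S.le_self h M u))).trans (g2_self k u)

theorem Sy.le_one (h : P.Ok) (M : Md P Res Cas Y Yl) (S : Sy P Res Cas Y Yl m lev y) (χ : E) (u : L) : m χ u ≤ 1 := by
  have h1 : m χ u * m χ u ≤ g1 m lev (lev χ) u u :=
    single_le_sum (f := fun χ => m χ u * m χ u) (fun _ _ => Nat.zero_le _) (mem_filter.2 ⟨mem_univ _, rfl⟩)
  have h2 := (S.eq_self h M u (lev χ)).trans_le (h.two u _)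
  nlinarith

theorem Sy.exists_up (h : P.Ok) (M : Md P Res Cas Y Yl) (S : Sy P Res Cas Y Yl m lev y) {χ : E} {u : L} (hu : m χ u ≠ 0) :
    ∃ a, P.cov u a ∧ P.κ a = lev χ := by
  have h1 : #(P.A u (lev χ)) ≠ 0 := by
    rw [← S.eq_self h M]
    exact g1_ne.2 ⟨χ, rfl, hu, hu⟩
  obtain ⟨a, ha⟩ := card_ne_zero.1 h1
  exact ⟨a, P.mem_A.1 ha⟩

/-- the family of a common constituent or of a common upper neighbour -/
theorem Sy.fam_of (h : P.Ok) (M : Md P Res Cas Y Yl) (S : Sy P Res Cas Y Yl m lev y) {k : ℂ} {u v : L}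
    (e : g1 m lev k u v ≠ 0 ∨ g2 P k u v ≠ 0) : ∃ a x x', P.cu a = P.cl u ∧ P.κ a = k ∧ P.bx x = P.bl u ∧ P.bx x' = P.bl v ∧
      P.zu a = x ::ₘ P.zl u ∧ P.zu a = x' ::ₘ P.zl v := by
  obtain ⟨w, hw, e'⟩ : ∃ w ∈ P.fm v, g2 P k u w ≠ 0 := by
    rcases e with e | e
    · refine exists_ne_zero_of_sum_ne_zero ?_
      rw [← (S.famk h M u k v).2, Ne, sum_eq_zero_iff]
      exact fun e' => e (e' v (P.self_fm v))
    · exact ⟨v, P.self_fm v, e⟩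
  obtain ⟨a, h1, h2, h3⟩ := g2_ne.1 e'
  obtain ⟨x, h4, h5⟩ := h.step u a h1
  obtain ⟨x', h6, h7⟩ := h.step w a h2
  exact ⟨a, x, x', (h.cls u a h1).symm, h3, h4, h6.trans (P.mem_fm.1 hw).1, h5, (P.mem_fm.1 hw).2 ▸ h7⟩

/-- **the Gram matrix level by level** -/
theorem Sy.star (h : P.Ok) (M : Md P Res Cas Y Yl) (S : Sy P Res Cas Y Yl m lev y) (k : ℂ) (u v : L) :
    g1 m lev k u v = g2 P k u v := by
  by_cases hf : v ∈ P.fm u
  · by_cases hv : v = u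
    · rw [hv, S.eq_self h M, g2_self]
    refine S.eq_of_le k (Or.inr fun k => ?_)
    by_cases h0 : g1 m lev k u v = 0
    · rw [h0]; exact Nat.zero_le _
    obtain ⟨e1, e2⟩ := S.famk h M u k u
    obtain ⟨χ, hχ, hu, hv'⟩ := g1_ne.1 h0
    have h1 : g1 m lev k u u + g1 m lev k u v ≤ ∑ v ∈ P.fm u, g1 m lev k u v := by
      rw [← sum_pair (f := g1 m lev k u) (Ne.symm hv)]
      exact sum_le_sum_of_subset (insert_subset (P.self_fm u) (singleton_subset_iff.2 hf))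
    have h2 := S.eq_self h M u k
    have h3 := h.two u k
    have h4 : g1 m lev k u u ≠ 0 := g1_ne.2 ⟨χ, hχ, hu, hu⟩
    by_cases h5 : #(P.A u k) = 2
    · rw [e2, sum_eq_single u (fun v hv hvu => g2_dbl h h5 hv hvu) fun e => absurd (P.self_fm u) e, g2_self] at h1
      omega
    obtain ⟨a, ha⟩ := card_eq_one.1 (show #(P.A u k) = 1 by omega)
    have hau : P.cov u a := (P.mem_A.1 (ha ▸ mem_singleton_self a)).1
    have h6 : ∀ w, g2 P k u w = if P.cov w a then 1 else 0 := fun w => by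
      rw [g2, ha, filter_singleton]
      split_ifs <;> rfl
    have h7 : ∑ v ∈ P.fm u, g2 P k u v = #{w ∈ P.fm u | P.cov w a} := by
      rw [card_filter]
      exact sum_congr rfl fun w _ => h6 w
    have h8 := h.low a u
    have h9 : #{w ∈ P.fm u | P.cov w a} = 2 := by omega
    obtain ⟨w, hw, hwu⟩ := exists_mem_ne (s := {w ∈ P.fm u | P.cov w a}) (by omega) u
    have h10 : ({w ∈ P.fm u | P.cov w a} : Finset L) = {u, w} :=
      (eq_of_subset_of_card_le (insert_subset (mem_filter.2 ⟨P.self_fm u, hau⟩) (singleton_subset_iff.2 hw))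
        (by rw [h9, card_pair hwu.symm])).symm
    have e4 : ∑ v ∈ P.fm u, (g2 P k u v : ℂ) • Yl v = Yl u + Yl w := by
      rw [← sum_pair (f := Yl) hwu.symm, ← h10, sum_filter]
      refine sum_congr rfl fun v _ => ?_
      rw [h6]
      split_ifs <;> simp
    have hc : ∀ v ∈ P.fm u, g1 m lev k u v ≠ 0 → P.cl v = P.cl u := fun v _ e => by
      obtain ⟨χ, -, h4, h5⟩ := g1_ne.1 e
      exact S.cl_eq h h4 h5
    have hwc : P.cl w = P.cl u := by rw [h.cls u a hau, h.cls w a (mem_filter.1 hw).2]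
    have := two_sum {v ∈ P.fm u | P.cl v = P.cl u} (g1 m lev k u) Yl (u := u) (w := w)
      (mem_filter.2 ⟨P.self_fm u, rfl⟩) (mem_filter.2 ⟨(mem_filter.1 hw).1, hwc⟩) h4
      (by rw [sum_filter_of_ne hc, e2, h7, h9])
      (by rw [sum_filter_of_ne fun v hv e => hc v hv fun e' => e (by rw [e', Nat.cast_zero, zero_smul]), e1, e4])
      (fun v hv e => M.inj v w ((mem_filter.1 hv).2.trans hwc.symm) (P.mem_fm.2
        ⟨(P.mem_fm.1 (mem_filter.1 hv).1).1.trans (P.mem_fm.1 (mem_filter.1 hw).1).1.symm,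
          (P.mem_fm.1 (mem_filter.1 hv).1).2.trans (P.mem_fm.1 (mem_filter.1 hw).1).2.symm⟩) e)
      v (mem_filter.2 ⟨hf, hc v hf h0⟩)
    rw [if_neg hv, zero_add] at this
    by_cases hvw : v = w
    · rw [this, if_pos hvw, h6, hvw, if_pos (mem_filter.1 hw).2]
    · rw [this, if_neg hvw]; exact Nat.zero_le _
  · have key : ∀ k k', (g1 m lev k u v ≠ 0 ∨ g2 P k u v ≠ 0) → (g1 m lev k' u v ≠ 0 ∨ g2 P k' u v ≠ 0) → k = k' := by
      intro k k' e e'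
      obtain ⟨a, x, x', h1, h2, h3, h4, h5, h6⟩ := S.fam_of h M e
      obtain ⟨b, z, z', g1', g2', -, -, g5, g6⟩ := S.fam_of h M e'
      have hx : x ≠ x' := by
        rintro rfl
        exact hf (P.mem_fm.2 ⟨h4.symm.trans h3, ((Multiset.cons_inj_right x).1 (h5.symm.trans h6)).symm⟩)
      have hz := cons_uniq (h5.symm.trans h6) (g5.symm.trans g6) hx
      rw [← h2, ← g2', h.levz a b (h1.trans g1'.symm) (by rw [h5, g5, hz])]
    by_cases e : g1 m lev k u v ≠ 0 ∨ g2 P k u v ≠ 0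
    · have hk : k ∈ univ.image lev ∪ univ.image P.κ := by
        obtain ⟨a, -, -, -, h2, -⟩ := S.fam_of h M e
        exact mem_union_right _ (mem_image.2 ⟨a, mem_univ _, h2⟩)
      have := S.sum_lev u v
      rwa [sum_eq_single k (fun k' _ hk' => by_contra fun e' => hk' (key k' k (Or.inl e') e)) fun e' => absurd hk e',
        sum_eq_single k (fun k' _ hk' => by_contra fun e' => hk' (key k' k (Or.inr e') e)) fun e' => absurd hk e'] at this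
    · push Not at e
      rw [e.1, e.2]

variable (m lev) in
/-- the constituents of level `k` -/
noncomputable def Bs (u : L) (k : ℂ) : Finset E := {χ | m χ u ≠ 0 ∧ lev χ = k}

theorem mem_Bs {u : L} {k : ℂ} {χ : E} : χ ∈ Bs m lev u k ↔ m χ u ≠ 0 ∧ lev χ = k := by simp [Bs]

variable (P m lev) in
/-- `χ` has the lower neighbours and the level of `a` -/
def Rl (χ : E) (a : U) : Prop := P.κ a = lev χ ∧ ∀ v, m χ v ≠ 0 ↔ P.cov v a

theorem Sy.g1_eq (h : P.Ok) (M : Md P Res Cas Y Yl) (S : Sy P Res Cas Y Yl m lev y) (k : ℂ) (u v : L) :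
    #{χ ∈ Bs m lev u k | m χ v ≠ 0} = #{a ∈ P.A u k | P.cov v a} := by
  refine Eq.trans ?_ (S.star h M k u v)
  rw [g1, Bs, filter_filter, card_filter, sum_filter]
  refine sum_congr rfl fun χ _ => ?_
  have h1 := S.le_one h M χ u
  have h2 := S.le_one h M χ v
  by_cases h3 : lev χ = k
  · interval_cases m χ u <;> interval_cases m χ v <;> simp [h3]
  · simp [h3]

theorem Sy.card_Bs (h : P.Ok) (M : Md P Res Cas Y Yl) (S : Sy P Res Cas Y Yl m lev y) (u : L) (k : ℂ) :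
    #(Bs m lev u k) = #(P.A u k) := by
  have := S.g1_eq h M k u u
  rwa [filter_true_of_mem fun _ e => (mem_Bs.1 e).1, filter_true_of_mem fun _ e => (P.mem_A.1 e).1] at this

theorem Sy.sum_Bs (h : P.Ok) (M : Md P Res Cas Y Yl) (S : Sy P Res Cas Y Yl m lev y) (u : L) (k : ℂ) :
    ∑ χ ∈ Bs m lev u k, y χ = ∑ a ∈ P.A u k, Y a := by
  rw [← S.indk M u k, Bs, sum_filter, sum_filter]
  refine sum_congr rfl fun χ _ => ?_
  have h1 := S.le_one h M χ u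
  by_cases h3 : lev χ = k
  · interval_cases m χ u <;> simp [h3]
  · simp [h3]

theorem Sy.adj (h : P.Ok) (M : Md P Res Cas Y Yl) (S : Sy P Res Cas Y Yl m lev y) {k : ℂ} {u v : L} :
    P.adj k u v ↔ ∃ χ, lev χ = k ∧ m χ u ≠ 0 ∧ m χ v ≠ 0 := by rw [← g2_ne, ← S.star h M, g1_ne]

/-- **a single level** -/
theorem Sy.single (h : P.Ok) (M : Md P Res Cas Y Yl) (S : Sy P Res Cas Y Yl m lev y) {u : L} {k : ℂ} {a : U}
    (ha : P.A u k = {a}) : ∃ χ, Bs m lev u k = {χ} ∧ Rl P m lev χ a ∧ y χ = Y a := by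
  obtain ⟨χ, hχ⟩ := card_eq_one.1 ((S.card_Bs h M u k).trans (by rw [ha, card_singleton]))
  refine ⟨χ, hχ, ⟨(P.mem_A.1 (ha ▸ mem_singleton_self a)).2.trans (mem_Bs.1 (hχ ▸ mem_singleton_self χ)).2.symm,
    fun v => ?_⟩, by simpa [hχ, ha] using S.sum_Bs h M u k⟩
  have := S.g1_eq h M k u v
  rw [hχ, ha, filter_singleton, filter_singleton] at this
  split_ifs at this with h1 h2 h2
  · exact iff_of_true h1 h2
  · simp at this
  · simp at this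
  · exact iff_of_false h1 h2

theorem Sy.pair_cnt (h : P.Ok) (M : Md P Res Cas Y Yl) (S : Sy P Res Cas Y Yl m lev y) {u : L} {k : ℂ} {a a' : U} {χ χ' : E}
    (ha : P.A u k = {a, a'}) (hne : a ≠ a') (hχ : Bs m lev u k = {χ, χ'}) (hne' : χ ≠ χ') (v : L) :
    (m χ v ≠ 0 ∧ m χ' v ≠ 0 ↔ P.cov v a ∧ P.cov v a') ∧ (m χ v ≠ 0 ∨ m χ' v ≠ 0 ↔ P.cov v a ∨ P.cov v a') := by
  have := S.g1_eq h M k u v
  rw [hχ, ha, card_filter, card_filter, sum_pair hne, sum_pair hne'] at this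
  split_ifs at this <;> simp_all

theorem Sy.unmixed (h : P.Ok) (M : Md P Res Cas Y Yl) (S : Sy P Res Cas Y Yl m lev y) {u : L} {k : ℂ} {a a' : U} {χ χ' : E}
    (ha : P.A u k = {a, a'}) (hne : a ≠ a') (hχ : Bs m lev u k = {χ, χ'}) (hne' : χ ≠ χ') {v w : L} (hv : m χ v ≠ 0)
    (hw : m χ w ≠ 0) (hva : ¬ P.cov v a') (hwa : ¬ P.cov w a) : False := by
  have c := S.pair_cnt h M ha hne hχ hne'
  have h1 := P.mem_A.1 (ha ▸ mem_insert_self a {a'})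
  have h2 := P.mem_A.1 (show a' ∈ P.A u k by simp [ha])
  have h3 := mem_Bs.1 (hχ ▸ mem_insert_self χ {χ'})
  have h4 := mem_Bs.1 (show χ' ∈ Bs m lev u k by simp [hχ])
  obtain ⟨v', w', e1, e2, e3, e4, e5, e6, e7⟩ := h.tr u a a' h1.1 h2.1 hne (h1.2.trans h2.2.symm) v w
    (((c v).2.1 (Or.inl hv)).resolve_right hva) hva (((c w).2.1 (Or.inl hw)).resolve_left hwa) hwa
    ((S.adj h M).2 ⟨χ, h3.2.trans h1.2.symm, hv, hw⟩)
  refine e7 ((S.adj h M).2 ⟨χ', h4.2.trans h1.2.symm, ?_, ?_⟩)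
  · exact ((c v').2.2 (Or.inl e1)).resolve_left fun e => e5 ((S.adj h M).2 ⟨χ, h3.2.trans h1.2.symm, e, hw⟩)
  · exact ((c w').2.2 (Or.inr e3)).resolve_left fun e => e6 ((S.adj h M).2 ⟨χ, h3.2.trans h1.2.symm, hv, e⟩)

/-- a triangle of characters gives a pendant label -/
theorem Sy.pend (h : P.Ok) (M : Md P Res Cas Y Yl) (S : Sy P Res Cas Y Yl m lev y) {a : U} {χ ψ : E} {v u w : L}
    (h1 : χ ∈ Bs m lev v (P.κ a)) (h2 : ψ ∈ Bs m lev v (P.κ a)) (hva : P.cov v a) (hu : m χ u ≠ 0) (hu' : m ψ u = 0)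
    (hua : P.cov u a) (hw : m ψ w ≠ 0) (hw' : m χ w = 0) (hwa : P.cov w a) :
    ∃ b, P.cov v b ∧ b ≠ a ∧ P.κ b = P.κ a ∧ (∀ z, P.cov z b → P.cov z a) ∧ ¬ P.cov u b ∧ ¬ P.cov w b := by
  have hne : χ ≠ ψ := fun e => hu (e ▸ hu')
  have c1 := S.card_Bs h M v (P.κ a)
  have c2 := h.two v (P.κ a)
  have c3 : ({χ, ψ} : Finset E) ⊆ Bs m lev v (P.κ a) := insert_subset h1 (singleton_subset_iff.2 h2)
  have c4 := card_le_card c3
  rw [card_pair hne] at c4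
  have hB : Bs m lev v (P.κ a) = {χ, ψ} := (eq_of_subset_of_card_le c3 (by rw [card_pair hne]; omega)).symm
  obtain ⟨b, hb, hba⟩ := exists_mem_ne (s := P.A v (P.κ a)) (by omega) a
  have hA : P.A v (P.κ a) = {a, b} := (eq_of_subset_of_card_le
    (insert_subset (P.mem_A.2 ⟨hva, rfl⟩) (singleton_subset_iff.2 hb)) (by rw [card_pair hba.symm]; omega)).symm
  have c := S.pair_cnt h M hA hba.symm hB hne
  have hub : ¬ P.cov u b := fun e => ((c u).1.2 ⟨hua, e⟩).2 hu'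
  have hwb : ¬ P.cov w b := fun e => ((c w).1.2 ⟨hwa, e⟩).1 hw'
  refine ⟨b, (P.mem_A.1 hb).1, hba, (P.mem_A.1 hb).2, fun z hz => by_contra fun hz' => ?_, hub, hwb⟩
  rcases (c z).2.2 (Or.inr hz) with e | e
  · exact S.unmixed h M hA hba.symm hB hne hu e hub hz'
  · exact S.unmixed h M hA hba.symm (hB.trans (pair_comm _ _)) hne.symm hw e hwb hz'

theorem Sy.double_aux (h : P.Ok) (M : Md P Res Cas Y Yl) (S : Sy P Res Cas Y Yl m lev y) {u : L} {k : ℂ} {a a' : U}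
    {χ χ' : E} (ha : P.A u k = {a, a'}) (hne : a ≠ a') (hχ : Bs m lev u k = {χ, χ'}) (hne' : χ ≠ χ')
    (e1 : ∀ v, m χ v ≠ 0 → P.cov v a) (e2 : ∀ v, m χ' v ≠ 0 → P.cov v a) :
    (∀ v, m χ v ≠ 0 → P.cov v a') ∨ ∀ v, m χ' v ≠ 0 → P.cov v a' := by
  by_contra e
  push Not at e
  obtain ⟨⟨v, hv, hva⟩, w, hw, hwa⟩ := e
  have c := S.pair_cnt h M ha hne hχ hne'
  have h1 := P.mem_A.1 (ha ▸ mem_insert_self a {a'})
  have h2 := P.mem_A.1 (show a' ∈ P.A u k by simp [ha])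
  have h3 := mem_Bs.1 (hχ ▸ mem_insert_self χ {χ'})
  have h4 := mem_Bs.1 (show χ' ∈ Bs m lev u k by simp [hχ])
  have hv' : m χ' v = 0 := by_contra fun e => hva ((c v).1.1 ⟨hv, e⟩).2
  have hw' : m χ w = 0 := by_contra fun e => hwa ((c w).1.1 ⟨e, hw⟩).2
  obtain ⟨ψ, g1', g2', g3⟩ := (S.adj h M).1 (show P.adj (P.κ a) v w from ⟨a, e1 v hv, e2 w hw, rfl⟩)
  have hψ : m ψ u = 0 := by
    by_contra e
    have : ψ ∈ ({χ, χ'} : Finset E) := hχ ▸ mem_Bs.2 ⟨e, g1'.trans h1.2⟩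
    rcases mem_insert.1 this with e' | e'
    · exact g3 (e' ▸ hw')
    · exact g2' (mem_singleton.1 e' ▸ hv')
  obtain ⟨b, b1, b2, b3, b4, -, b6⟩ := S.pend h M (mem_Bs.2 ⟨hv, h3.2.trans h1.2.symm⟩) (mem_Bs.2 ⟨g2', g1'⟩) (e1 v hv)
    h3.1 hψ h1.1 g3 hw' (e2 w hw)
  obtain ⟨b', c1, c2, c3, c4, -, -⟩ := S.pend h M (mem_Bs.2 ⟨hw, h4.2.trans h1.2.symm⟩) (mem_Bs.2 ⟨g3, g1'⟩) (e2 w hw)
    h4.1 hψ h1.1 g2' hv' (e1 v hv)
  rcases h.nl a a' b b' u v w h1.1 (e1 v hv) (e2 w hw) h2.1 b1 c1 hne.symm b2 c2 (h2.2.trans h1.2.symm) b3 c3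
    (fun z hz => ((c z).2.2 (Or.inr hz)).elim (e1 z) (e2 z)) b4 c4 with e | e | e
  · exact hva (e ▸ b1)
  · exact hwa (e ▸ c1)
  · exact b6 (e ▸ c1)

/-- **a double level** -/
theorem Sy.double (h : P.Ok) (M : Md P Res Cas Y Yl) (S : Sy P Res Cas Y Yl m lev y) {u : L} {k : ℂ} {a a' : U}
    (ha : P.A u k = {a, a'}) (hne : a ≠ a') : ∃ χ χ', χ ≠ χ' ∧ Bs m lev u k = {χ, χ'} ∧ Rl P m lev χ a ∧ Rl P m lev χ' a' ∧
      y χ + y χ' = Y a + Y a' := by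
  obtain ⟨χ, χ', hne', hχ⟩ := card_eq_two.1 ((S.card_Bs h M u k).trans (by rw [ha, card_pair hne]))
  have key : ∀ {χ χ' : E}, χ ≠ χ' → Bs m lev u k = {χ, χ'} → (∀ v, m χ v ≠ 0 → P.cov v a) → (∀ v, m χ' v ≠ 0 → P.cov v a') →
      ∃ χ χ', χ ≠ χ' ∧ Bs m lev u k = {χ, χ'} ∧ Rl P m lev χ a ∧ Rl P m lev χ' a' ∧ y χ + y χ' = Y a + Y a' := by
    intro χ χ' hne' hχ e1 e2
    have c := S.pair_cnt h M ha hne hχ hne'
    have h1 := P.mem_A.1 (ha ▸ mem_insert_self a {a'})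
    have h2 := P.mem_A.1 (show a' ∈ P.A u k by simp [ha])
    have h3 := mem_Bs.1 (hχ ▸ mem_insert_self χ {χ'})
    have h4 := mem_Bs.1 (show χ' ∈ Bs m lev u k by simp [hχ])
    refine ⟨χ, χ', hne', hχ, ⟨h1.2.trans h3.2.symm, fun v => ⟨e1 v, fun e => ?_⟩⟩,
      ⟨h2.2.trans h4.2.symm, fun v => ⟨e2 v, fun e => ?_⟩⟩, ?_⟩
    · exact ((c v).2.2 (Or.inl e)).elim id fun e' => ((c v).1.2 ⟨e, e2 v e'⟩).1
    · exact ((c v).2.2 (Or.inr e)).elim (fun e' => ((c v).1.2 ⟨e1 v e', e⟩).2) id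
    · have := S.sum_Bs h M u k
      rwa [hχ, ha, sum_pair hne, sum_pair hne'] at this
  have un : ∀ {χ χ' : E}, χ ≠ χ' → Bs m lev u k = {χ, χ'} → (∀ v, m χ v ≠ 0 → P.cov v a) ∨ ∀ v, m χ v ≠ 0 → P.cov v a' := by
    intro χ χ' hne' hχ
    by_contra e
    push Not at e
    obtain ⟨⟨w, hw, hwa⟩, v, hv, hva⟩ := e
    exact S.unmixed h M ha hne hχ hne' hv hw hva hwa
  have hχ' := hχ.trans (pair_comm _ _)
  rcases un hne' hχ with e1 | e1 <;> rcases un hne'.symm hχ' with e2 | e2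
  · rcases S.double_aux h M ha hne hχ hne' e1 e2 with e | e
    · exact key hne'.symm hχ' e2 e
    · exact key hne' hχ e1 e
  · exact key hne' hχ e1 e2
  · exact key hne'.symm hχ' e2 e1
  · rcases S.double_aux h M (ha.trans (pair_comm _ _)) hne.symm hχ hne' e1 e2 with e | e
    · exact key hne' hχ e e2
    · exact key hne'.symm hχ' e e1

end Main

end Cfsg.Agent.MO.UD
end

-- part: MO/UD/Two
section
/-!
# MO/UD: abstract lemmas (helper38)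

* `two_of` : the Levi subgroup `A1 × L`;
* `Adm` : a choice of characters for the labels with a lower neighbour; `Sy.exists_adm`, `Adm.sum`, `Adm.sur`, `Sy.res_rl`;
* `par_fun` : Parseval for a functional; `sat` : saturation.
-/

set_option autoImplicit false
set_option linter.unusedSectionVars false

namespace Cfsg.Agent.MO.UD

open Finset Classical

/-- **the Levi subgroup `A1 × L`** : `φ1`, `φ2` are the values at `1 × W_L` and `s × W_L` -/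
theorem two_of {V : Type} [AddCommGroup V] [Module ℂ V] (T : V →ₗ[ℂ] V) {E2 E0 : Type} (s2 : Finset E2) (s0 : Finset E0)
    (a : E2 → ℕ) (c : E2 → E0 → ℕ) (φ1 φ2 : E2 → V) (y : E0 → V) (κ : E0 → ℂ) (l : E2 → ℂ) {f : ℂ} (hf : f ≠ 0)
    (hy : ∀ ζ ∈ s0, T (y ζ) = κ ζ • y ζ) (h1 : ∀ η ∈ s2, φ1 η = ∑ ζ ∈ s0, (c η ζ : ℂ) • y ζ)
    (h2 : ∀ η ∈ s2, f • φ2 η + T (φ1 η) = l η • φ1 η) (h3 : ∀ η ∈ s2, f • φ1 η + T (φ2 η) = l η • φ2 η) :
    ∃ e : E0 → ℤ, (∀ ζ, |e ζ| ≤ (∑ η ∈ s2, a η * c η ζ : ℕ) ∧ e ζ ≡ (∑ η ∈ s2, a η * c η ζ : ℕ) [ZMOD 2]) ∧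
      ∑ η ∈ s2, (a η : ℂ) • φ2 η = ∑ ζ ∈ s0, (e ζ : ℂ) • y ζ := by
  refine ⟨fun ζ => ∑ η ∈ s2, (if κ ζ = l η - f then 1 else -1) * (a η * c η ζ : ℕ), fun ζ => ⟨?_, ?_⟩, ?_⟩
  · rw [Nat.cast_sum]
    refine (abs_sum_le_sum_abs _ _).trans (sum_le_sum fun η _ => ?_)
    split_ifs <;> simp [abs_mul]
  · rw [Nat.cast_sum]
    rw [Int.modEq_iff_dvd, ← sum_sub_distrib]
    refine dvd_sum fun η _ => ?_
    split_ifs
    · simp
    · exact ⟨(a η * c η ζ : ℕ), by ring⟩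
  · have key : ∀ η ∈ s2, φ2 η = ∑ ζ ∈ s0, ((if κ ζ = l η - f then 1 else -1) * c η ζ : ℂ) • y ζ := fun η hη => by
      have e := eig_proj T s0 (univ : Finset Bool) (fun ζ => (c η ζ : ℂ) • y ζ)
        (fun b => (1 / 2 : ℂ) • (φ1 η + (if b then 1 else -1 : ℂ) • φ2 η)) κ (fun b => if b then l η - f else l η + f)
        (fun ζ hζ => by rw [map_smul, hy ζ hζ, smul_comm])
        (fun b _ => by
          rw [map_smul, map_add, map_smul, eq_sub_of_add_eq' (h2 η hη), eq_sub_of_add_eq' (h3 η hη)]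
          cases b <;> simp only [if_true, Bool.false_eq_true, if_false] <;> module)
        (by rw [← h1 η hη, Fintype.sum_bool]; simp only [if_true, Bool.false_eq_true, if_false]; module) (l η - f)
      have hne : l η + f ≠ l η - f := fun h => hf (by linear_combination h / 2)
      rw [sum_filter, sum_filter, Fintype.sum_bool] at e
      simp only [if_true, Bool.false_eq_true, if_false, if_neg hne, add_zero, one_smul] at e
      have e2 : φ2 η = (2 : ℂ) • (∑ ζ ∈ s0, if κ ζ = l η - f then (c η ζ : ℂ) • y ζ else 0) - φ1 η := by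
        rw [e]; module
      rw [e2, h1 η hη, smul_sum, ← sum_sub_distrib]
      refine sum_congr rfl fun ζ _ => ?_
      split_ifs <;> module
    rw [sum_congr rfl fun η hη => by rw [key η hη, smul_sum], sum_comm]
    refine sum_congr rfl fun ζ _ => ?_
    rw [Int.cast_sum, sum_smul]
    refine sum_congr rfl fun η _ => ?_
    rw [smul_smul]
    congr 1
    split_ifs <;> push_cast <;> ring

/-- Parseval for a functional -/
theorem par_fun {G E U : Type} (O : Finset G) (s : Finset E) (t : Finset U) (y : E → G → ℂ) (Y : U → G → ℂ)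
    (hy : ∀ χ ∈ s, ∀ g ∈ O, ∃ z : ℤ, y χ g = z) (hY : ∀ a ∈ t, ∀ g ∈ O, ∃ z : ℤ, Y a g = z)
    (h : ∀ g ∈ O, ∀ g' ∈ O, ∑ χ ∈ s, y χ g * y χ g' = ∑ a ∈ t, Y a g * Y a g') (w : G → ℂ) :
    ∑ χ ∈ s, ‖∑ g ∈ O, y χ g * w g‖ ^ 2 = ∑ a ∈ t, ‖∑ g ∈ O, Y a g * w g‖ ^ 2 := by
  have key : ∀ {E : Type} (s : Finset E) (y : E → G → ℂ), (∀ χ ∈ s, ∀ g ∈ O, ∃ z : ℤ, y χ g = z) →
      ((∑ χ ∈ s, ‖∑ g ∈ O, y χ g * w g‖ ^ 2 : ℝ) : ℂ) =
        ∑ g ∈ O, ∑ g' ∈ O, (∑ χ ∈ s, y χ g * y χ g') * (w g * (starRingEnd ℂ) (w g')) := fun s y hy => by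
    simp only [Complex.ofReal_sum, sum_mul]
    rw [sum_congr rfl fun g _ => sum_comm, sum_comm]
    refine sum_congr rfl fun χ hχ => ?_
    rw [Complex.ofReal_pow, ← Complex.mul_conj', map_sum, sum_mul_sum]
    refine sum_congr rfl fun g _ => sum_congr rfl fun g' hg' => ?_
    obtain ⟨z, hz⟩ := hy χ hχ g' hg'
    rw [map_mul, hz, map_intCast]
    ring
  refine Complex.ofReal_injective ?_
  rw [key s y hy, key t Y hY]
  exact sum_congr rfl fun g hg => sum_congr rfl fun g' hg' => by rw [h g hg g' hg']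

/-- saturation -/
theorem sat {E U : Type} (s : Finset E) (t : Finset U) (f : U → E) (hf : Set.InjOn f t) (hs : ∀ a ∈ t, f a ∈ s) (x : E → ℝ)
    (hx : ∀ χ ∈ s, 0 ≤ x χ) (h : ∑ χ ∈ s, x χ = ∑ a ∈ t, x (f a)) : ∀ χ ∈ s, (∀ a ∈ t, f a ≠ χ) → x χ = 0 := by
  intro χ hχ hne
  have e := sum_sdiff (f := x) (show t.image f ⊆ s from image_subset_iff.2 hs)
  rw [sum_image hf, h, add_eq_right] at e
  exact (sum_eq_zero_iff_of_nonneg fun χ h => hx χ (mem_sdiff.1 h).1).1 e χ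
    (mem_sdiff.2 ⟨hχ, fun h => let ⟨a, ha, e⟩ := mem_image.1 h; hne a ha e⟩)

variable {L U X B C : Type} [Fintype L] [Fintype U] {V V' : Type} [AddCommGroup V] [Module ℂ V] [AddCommGroup V'] [Module ℂ V']
  {P : Po L U X B C} {Res : V →ₗ[ℂ] V'} {Cas : V →ₗ[ℂ] V} {Y : U → V} {Yl : L → V'} {E : Type} [Fintype E]
  {m : E → L → ℕ} {lev : E → ℂ} {y : E → V}

variable (P m lev) in
/-- characters for the labels with a lower neighbour -/
structure Adm (f : U → E) : Prop where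
  inj : Set.InjOn f {a | ∃ u, P.cov u a}
  rl : ∀ a u, P.cov u a → Rl P m lev (f a) a

theorem Sy.cases (h : P.Ok) {u : L} {a : U} (hu : P.cov u a) :
    P.A u (P.κ a) = {a} ∨ ∃ a', a ≠ a' ∧ P.A u (P.κ a) = {a, a'} := by
  have ha : a ∈ P.A u (P.κ a) := P.mem_A.2 ⟨hu, rfl⟩
  by_cases e : ∃ a' ∈ P.A u (P.κ a), a' ≠ a
  · obtain ⟨a', h1, h2⟩ := e
    exact Or.inr ⟨a', h2.symm, (eq_of_subset_of_card_le (insert_subset ha (singleton_subset_iff.2 h1))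
      (by rw [card_pair h2.symm]; exact h.two u _)).symm⟩
  · push Not at e
    exact Or.inl (eq_singleton_iff_unique_mem.2 ⟨ha, e⟩)

theorem Sy.exists_adm [Nonempty E] (h : P.Ok) (M : Md P Res Cas Y Yl) (S : Sy P Res Cas Y Yl m lev y) : ∃ f, Adm P m lev f := by
  let kU : U → ℂ × Set L := fun a => (P.κ a, {v | P.cov v a})
  let kE : E → ℂ × Set L := fun χ => (lev χ, {v | m χ v ≠ 0})
  have rl : ∀ χ a, Rl P m lev χ a ↔ kE χ = kU a := fun χ a =>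
    ⟨fun e => Prod.ext e.1.symm (Set.ext e.2), fun e => ⟨(congrArg Prod.fst e).symm, Set.ext_iff.1 (congrArg Prod.snd e)⟩⟩
  have key : ∀ z : ℂ × Set L, ∃ g : U → E, z.2.Nonempty → Set.InjOn g {a | kU a = z} ∧ ∀ a, kU a = z → kE (g a) = z := by
    intro z
    by_cases hz : ∃ a, kU a = z ∧ z.2.Nonempty
    swap
    · exact ⟨fun _ => Classical.arbitrary E, fun e => ⟨fun a ha => absurd ⟨a, ha, e⟩ hz, fun a ha => absurd ⟨a, ha, e⟩ hz⟩⟩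
    obtain ⟨a, rfl, u, hu⟩ := hz
    have sub : ∀ b, kU b = kU a → b ∈ P.A u (P.κ a) := fun b e =>
      P.mem_A.2 ⟨(Set.ext_iff.1 (congrArg Prod.snd e) u).2 hu, congrArg Prod.fst e⟩
    rcases Sy.cases h hu with e | ⟨a', hne, e⟩
    · obtain ⟨χ, -, h2, -⟩ := S.single h M e
      exact ⟨fun _ => χ, fun _ => ⟨fun b hb b' hb' _ => (mem_singleton.1 (e ▸ sub b hb)).trans
        (mem_singleton.1 (e ▸ sub b' hb')).symm, fun _ _ => (rl _ _).1 h2⟩⟩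
    · obtain ⟨χ, χ', h1, -, h2, h3, -⟩ := S.double h M e hne
      have sub' : ∀ b, kU b = kU a → b = a ∨ b = a' := fun b hb => by simpa [e] using sub b hb
      refine ⟨fun b => if b = a then χ else χ', fun _ => ⟨fun b hb b' hb' e' => ?_, fun b hb => ?_⟩⟩
      · rcases sub' b hb with rfl | rfl <;> rcases sub' b' hb' with rfl | rfl <;> simp_all [eq_comm]
      · rcases sub' b hb with rfl | rfl
        · simpa using (rl _ _).1 h2
        · simpa [hne.symm, ← hb] using (rl _ _).1 h3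
  choose g hg using key
  refine ⟨fun a => g (kU a) a, ?_, fun a u hu => (rl _ _).2 ((hg (kU a) ⟨u, hu⟩).2 a rfl)⟩
  rintro a ⟨u, hu⟩ a' ⟨u', hu'⟩ e
  have e' : kU a = kU a' := by rw [← (hg (kU a) ⟨u, hu⟩).2 a rfl, ← (hg (kU a') ⟨u', hu'⟩).2 a' rfl]; exact congrArg kE e
  exact (hg (kU a) ⟨u, hu⟩).1 rfl e'.symm (by simpa only [e'] using e)

theorem Adm.injA {f : U → E} (A : Adm P m lev f) (u : L) (k : ℂ) : Set.InjOn f (P.A u k) :=
  A.inj.mono fun _ ha => Exists.intro u (P.mem_A.1 ha).1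

theorem Adm.image (h : P.Ok) (M : Md P Res Cas Y Yl) (S : Sy P Res Cas Y Yl m lev y) {f : U → E} (A : Adm P m lev f) (u : L)
    (k : ℂ) : (P.A u k).image f = Bs m lev u k := by
  refine eq_of_subset_of_card_le (image_subset_iff.2 fun a ha => ?_) ?_
  · have := A.rl a u (P.mem_A.1 ha).1
    exact mem_Bs.2 ⟨(this.2 u).2 (P.mem_A.1 ha).1, this.1.symm.trans (P.mem_A.1 ha).2⟩
  · rw [card_image_of_injOn (A.injA u k), S.card_Bs h M]

theorem Adm.sum (h : P.Ok) (M : Md P Res Cas Y Yl) (S : Sy P Res Cas Y Yl m lev y) {f : U → E} (A : Adm P m lev f) (u : L)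
    (k : ℂ) : ∑ a ∈ P.A u k, y (f a) = ∑ a ∈ P.A u k, Y a := by
  rw [← S.sum_Bs h M, ← A.image h M S, sum_image (A.injA u k)]

theorem Adm.sur (h : P.Ok) (M : Md P Res Cas Y Yl) (S : Sy P Res Cas Y Yl m lev y) {f : U → E} (A : Adm P m lev f) {χ : E} {u : L}
    (hu : m χ u ≠ 0) : ∃ a, P.cov u a ∧ f a = χ := by
  obtain ⟨a, ha, e⟩ := mem_image.1 (show χ ∈ (P.A u (lev χ)).image f by rw [A.image h M S]; exact mem_Bs.2 ⟨hu, rfl⟩)
  exact ⟨a, (P.mem_A.1 ha).1, e⟩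

theorem Sy.m_rl (h : P.Ok) (M : Md P Res Cas Y Yl) (S : Sy P Res Cas Y Yl m lev y) {χ : E} {a : U} (e : Rl P m lev χ a) (u : L) :
    m χ u = if P.cov u a then 1 else 0 := by
  have h1 := S.le_one h M χ u
  have h2 := e.2 u
  split_ifs with h3
  · have := h2.2 h3; omega
  · exact by_contra fun h4 => h3 (h2.1 h4)

theorem Sy.res_rl (h : P.Ok) (M : Md P Res Cas Y Yl) (S : Sy P Res Cas Y Yl m lev y) {χ : E} {a : U} (e : Rl P m lev χ a) :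
    Res (y χ) = Res (Y a) := by
  rw [S.res, M.res, sum_filter]
  refine sum_congr rfl fun u _ => ?_
  rw [S.m_rl h M e]
  split_ifs <;> simp

end Cfsg.Agent.MO.UD
end

private theorem dce_60ebbdb28f23 : _root_.True := by
  try have : _root_.True := by simp only [_root_.Cfsg.Agent.MO.UD.Po.fm.eq_1]
  try have : _root_.True := by simp only [_root_.Cfsg.Agent.MO.UD.Po.A.eq_1]
  try have : _root_.True := by simp only [_root_.Cfsg.Agent.MO.Sp.Es.eq_1]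
  try have : _root_.True := by simp only [_root_.Cfsg.Agent.MO.UD.Bs.eq_1]
  try have : _root_.True := by simp only [_root_.Cfsg.Agent.MO.UD.g1.eq_1]
  try have : _root_.True := by simp only [_root_.Cfsg.Agent.MO.UD.g2.eq_1]
  exact _root_.True.intro
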